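import Cfsg.Agent.Lib.ThG2.Cover
import Cfsg.Agent.Lib.Chev.Cells
import Cfsg.Agent.Lib.Chev.Simple
import Cfsg.Agent.Lib.Chev.BNPairChev

/-!
# Double cosets of the long root parabolic of `G₂`
-/

set_option autoImplicit false
set_option linter.unusedSectionVars false
set_option linter.unusedVariables false
set_option linter.unusedSimpArgs false
set_option maxRecDepth 100000

namespace Cfsg.Agent.Lib.ThG2

open Cfsg Cfsg.Lie Cfsg.Agent.Lib.Chev Cfsg.Agent.Lib.Chev.SL2 Matrix Equiv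

variable {F : Type*} [Field F]

/-- The long root parabolic subgroup. -/
def PP (F : Type*) [Field F] : Subgroup (GL chevG2.Idx F) where
  carrier := {g | ∃ A : GL (Fin 2) F, ∃ u ∈ Up F, g = phi A * u}
  mul_mem' := by
    rintro _ _ ⟨A, u, hu, rfl⟩ ⟨B, v, hv, rfl⟩
    refine ⟨A * B, (phi B)⁻¹ * u * phi B * v, (Up F).mul_mem (conj_inv_mem_p B hu) hv, ?_⟩
    rw [map_mul]
    group
  one_mem' := ⟨1, 1, (Up F).one_mem, by simp⟩
  inv_mem' := by
    rintro _ ⟨A, u, hu, rfl⟩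
    refine ⟨A⁻¹, phi A * u⁻¹ * (phi A)⁻¹, conj_mem_p A ((Up F).inv_mem hu), ?_⟩
    rw [map_inv]
    group

theorem mem_PP {g : GL chevG2.Idx F} : g ∈ PP F ↔ ∃ A : GL (Fin 2) F, ∃ u ∈ Up F, g = phi A * u := Iff.rfl

theorem phi_mem_PP (A : GL (Fin 2) F) : phi A ∈ PP F := ⟨A, 1, (Up F).one_mem, by simp⟩

theorem Up_le_PP : Up F ≤ PP F := fun u hu => ⟨1, u, hu, by simp⟩

theorem PP_le_group : PP F ≤ chevG2.group F := by
  rintro _ ⟨A, u, hu, rfl⟩
  exact (chevG2.group F).mul_mem (phi_mem_group A) (Up_le_group hu)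

theorem PP_conj {g u : GL chevG2.Idx F} (hg : g ∈ PP F) (hu : u ∈ Up F) : g * u * g⁻¹ ∈ Up F := by
  obtain ⟨A, v, hv, rfl⟩ := hg
  have h1 := conj_mem_p A ((Up F).mul_mem ((Up F).mul_mem hv hu) ((Up F).inv_mem hv))
  have e : phi A * v * u * (phi A * v)⁻¹ = phi A * (v * u * v⁻¹) * (phi A)⁻¹ := by group
  rw [e]
  exact h1

theorem tor_mem_PP (c : Fin chevG2.rank → Fˣ) : tor RootG2T.R chevG2 c ∈ PP F := by
  rw [tor_eq_phi]
  exact phi_mem_PP _

theorem pos_cases : ∀ r < chevG2.nroots, chevG2.IsPosRoot r → r = 7 ∨ Qp r := by decide +kernel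
theorem Qp_pos : ∀ r < chevG2.nroots, Qp r → chevG2.IsPosRoot r := by decide +kernel

theorem borel_le_PP : chevG2.borelSubgroup F ≤ PP F := by
  apply sup_le
  · rw [ChevalleyDatum.posUnipotent, Subgroup.closure_le]
    rintro g ⟨r, t, hr, hg⟩
    rw [SetLike.mem_coe, hF.c.eq_xG hg]
    rcases pos_cases r hr.1 hr with rfl | h
    · have h7 := phi_mem_PP (E12 t)
      rwa [phi_E12] at h7
    · exact Up_le_PP (xx_mem_Up h t)
  · intro g hg
    obtain ⟨c, rfl⟩ := (hF.mem_diagonal_iff).1 hg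
    exact tor_mem_PP c

theorem Up_le_borel : Up F ≤ chevG2.borelSubgroup F := by
  rw [Up, Full.rootClosure, Subgroup.closure_le]
  rintro g ⟨s, t, hs, hg⟩
  exact hF.c.posUnipotent_le_borel (Subgroup.subset_closure ⟨s, t, Qp_pos s (Qp_lt s hs) hs, hg⟩)

theorem simple_G {a : F} (ha0 : a ≠ 0) (ha1 : a ≠ 1) : IsSimpleGroup ↥(chevG2.group F) :=
  (hF.isSimple_main connG2 (by decide) (hF.perfect_G2 ha0 ha1)).1

/-- Every nontrivial element has a conjugate outside the parabolic subgroup. -/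
theorem exists_conj_not_mem {a : F} (ha0 : a ≠ 0) (ha1 : a ≠ 1) {g : GL chevG2.Idx F} (hg : g ∈ chevG2.group F)
    (hg1 : g ≠ 1) : ∃ h ∈ chevG2.group F, h * g * h⁻¹ ∉ PP F := by
  by_contra hcon
  push Not at hcon
  haveI := simple_G ha0 ha1
  let Pg : Subgroup ↥(chevG2.group F) := (PP F).subgroupOf (chevG2.group F)
  have hcore : (⟨g, hg⟩ : ↥(chevG2.group F)) ∈ Pg.normalCore := by
    intro b
    exact Subgroup.mem_subgroupOf.2 (hcon b.1 b.2)
  rcases (Subgroup.normalCore_normal Pg).eq_bot_or_eq_top with h | h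
  · rw [h, Subgroup.mem_bot] at hcore
    exact hg1 (congrArg Subtype.val hcore)
  · have hall : ∀ b ∈ chevG2.group F, b ∈ PP F := by
      intro b hb
      have h1 : (⟨b, hb⟩ : ↥(chevG2.group F)) ∈ Pg.normalCore := by
        rw [h]
        exact Subgroup.mem_top _
      exact Subgroup.mem_subgroupOf.1 (Subgroup.normalCore_le _ h1)
    have hx : (⟨xx 11 1, Up_le_group (xx_mem_Up qp11 1)⟩ : ↥(chevG2.group F)) ∈
        ((chevG2.borelSubgroup F).subgroupOf (chevG2.group F)).normalCore := by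
      intro b
      exact Subgroup.mem_subgroupOf.2 (Up_le_borel (PP_conj (hall b.1 b.2) (xx_mem_Up qp11 1)))
    rw [hF.normalCore_borel, Subgroup.mem_bot] at hx
    have h1 : xx 11 (1 : F) = xx 11 0 := by
      have h0 : xx 11 (0 : F) = 1 := hF.c.xG_zero 11
      rw [h0]
      exact congrArg Subtype.val hx
    exact one_ne_zero (hF.xG_param_inj (by decide) h1)

/-! ### The Weyl group -/

/-- The reflection in the short fundamental root. -/
noncomputable def wa : Perm (Fin chevG2.nroots) := hF.wPerm r0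
/-- The reflection in the long fundamental root. -/
noncomputable def wb : Perm (Fin chevG2.nroots) := hF.wPerm r1

/-- Permutations of the double coset representatives. -/
noncomputable def kP : Fin 4 → Perm (Fin chevG2.nroots) :=
  ![1, wb, wb * (wa * wb * wa), wb * (wa * wb * wa) * wb]

/-- Optional reflection. -/
noncomputable def ep (b : Bool) : Perm (Fin chevG2.nroots) := if b then wa else 1

set_option maxHeartbeats 4000000 in
theorem W_step : ∀ (e₁ : Bool) (k : Fin 4) (e₂ : Bool) (j : Bool), ∃ (e₁' : Bool) (k' : Fin 4) (e₂' : Bool),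
    ep e₁ * kP k * ep e₂ * (if j then wa else wb) = ep e₁' * kP k' * ep e₂' := by
  decide +kernel

theorem W_all : ∀ σ ∈ hF.Wk Set.univ, ∃ (e₁ : Bool) (k : Fin 4) (e₂ : Bool), σ = ep e₁ * kP k * ep e₂ := by
  refine hF.Wk_induction (J := Set.univ) ?_ ?_
  · refine ⟨false, 0, false, ?_⟩
    simp [ep, kP]
  · rintro σ j hj _ ⟨e₁, k, e₂, rfl⟩
    have h2 : chevG2.rank = 2 := rfl
    rw [h2] at hj
    interval_cases j
    · exact W_step e₁ k e₂ true
    · exact W_step e₁ k e₂ false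

/-- The double coset representatives. -/
noncomputable def nuK : Fin 4 → GL chevG2.Idx F := ![1, nu1, nu2, nu3]

/-- The representatives in the monomial group. -/
noncomputable def nuN : Fin 4 → ↥(chevG2.monomialSubgroup F) :=
  ![1, hF.nN r1, hF.nN r1 * (hF.nN r0 * hF.nN r1 * (hF.nN r0)⁻¹),
    hF.nN r1 * (hF.nN r0 * hF.nN r1 * (hF.nN r0)⁻¹) * (hF.nN r1)⁻¹]

theorem nuN_val (k : Fin 4) : ((nuN k : ↥(chevG2.monomialSubgroup F)) : GL chevG2.Idx F) = nuK k := by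
  fin_cases k
  · rfl
  · rfl
  · rfl
  · rfl

theorem wa_inv : wa⁻¹ = wa := hF.wPerm_inv r0
theorem wb_inv : wb⁻¹ = wb := hF.wPerm_inv r1

theorem rhoN_nuN (k : Fin 4) : hF.rhoN F (nuN k) = kP k := by
  have h0 : hF.rhoN F (hF.nN r0) = wa := hF.rhoN_nN r0
  have h1 : hF.rhoN F (hF.nN r1) = wb := hF.rhoN_nN r1
  fin_cases k
  · exact map_one _
  · exact h1
  · show hF.rhoN F (hF.nN r1 * (hF.nN r0 * hF.nN r1 * (hF.nN r0)⁻¹)) = wb * (wa * wb * wa)
    rw [map_mul, map_mul, map_mul, map_inv, h0, h1, wa_inv]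
  · show hF.rhoN F (hF.nN r1 * (hF.nN r0 * hF.nN r1 * (hF.nN r0)⁻¹) * (hF.nN r1)⁻¹) = wb * (wa * wb * wa) * wb
    rw [map_mul, map_mul, map_mul, map_mul, map_inv, map_inv, h0, h1, wa_inv, wb_inv]

/-- Optional reflection in the monomial group. -/
noncomputable def epN (b : Bool) : ↥(chevG2.monomialSubgroup F) := if b then hF.nN r0 else 1

theorem rhoN_epN (b : Bool) : hF.rhoN F (epN b) = ep b := by
  cases b
  · exact map_one _
  · exact hF.rhoN_nN r0

theorem nS0_eq_phi : hF.nS (F := F) 0 = phi (E12 1 * E21 (-1) * E12 1) := by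
  rw [map_mul, map_mul, phi_E12, phi_E21]
  show hF.c.nG (chevG2.simple 0) 1 = _
  rw [simple0, Checks.nG, neg7, inv_one]

theorem epN_val (b : Bool) : ∃ A : GL (Fin 2) F, ((epN b : ↥(chevG2.monomialSubgroup F)) : GL chevG2.Idx F) = phi A := by
  cases b
  · exact ⟨1, by simp [epN]⟩
  · exact ⟨_, nS0_eq_phi⟩

/-- Every monomial element lies in a double coset of the Levi subgroup with a representative in our list. -/
theorem mono_decomp {n : GL chevG2.Idx F} (hn : n ∈ chevG2.monomialSubgroup F) :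
    ∃ (A B : GL (Fin 2) F) (k : Fin 4), n = phi A * nuK k * phi B := by
  let n' : ↥(chevG2.monomialSubgroup F) := ⟨n, hn⟩
  obtain ⟨e₁, k, e₂, hσ⟩ := W_all _ (hF.rhoN_mem_Wk n')
  let m : ↥(chevG2.monomialSubgroup F) := epN e₁ * nuN k * epN e₂
  have hm : hF.rhoN F m = hF.rhoN F n' := by
    rw [hσ, map_mul, map_mul, rhoN_epN, rhoN_epN, rhoN_nuN]
  have h1 : hF.rhoN F (m⁻¹ * n') = 1 := by
    rw [map_mul, map_inv, hm, inv_mul_cancel]
  have h2 : (m⁻¹ * n').1 ∈ chevG2.diagonalSubgroup F := hF.mem_diagonal_of_rhoN_eq_one h1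
  obtain ⟨c, hc⟩ := (hF.mem_diagonal_iff).1 h2
  obtain ⟨A, hA⟩ := epN_val (F := F) e₁
  obtain ⟨B, hB⟩ := epN_val (F := F) e₂
  rw [tor_eq_phi] at hc
  refine ⟨A, B * dG (c i0) ((c i0)⁻¹ * c i1), k, ?_⟩
  have e : n = m.1 * (m⁻¹ * n').1 := by
    have : m * (m⁻¹ * n') = n' := by group
    exact (congrArg Subtype.val this).symm
  rw [e, hc, map_mul]
  show (epN e₁).1 * (nuN k).1 * (epN e₂).1 * _ = _
  rw [hA, hB, nuN_val]
  group

/-- Every element outside the parabolic is conjugate into a coset of a representative. -/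
theorem exists_conj_nu {g : GL chevG2.Idx F} (hg : g ∈ chevG2.group F) (hgP : g ∉ PP F) :
    ∃ h ∈ chevG2.group F, ∃ k : Fin 4, k ≠ 0 ∧ ∃ A : GL (Fin 2) F, ∃ u ∈ Up F, h * g * h⁻¹ = nuK k * phi A * u := by
  obtain ⟨n, hn, hgn⟩ := Cfsg.Agent.Lib.BNPair.exists_mem_dc (P := hF.bnPair F) ⟨g, hg⟩
  have hn' : n.1 ∈ chevG2.monomialSubgroup F := Subgroup.mem_subgroupOf.1 hn
  obtain ⟨b₁, hb₁, b₂, hb₂, e⟩ := Cfsg.Agent.Lib.BNPair.mem_dc.1 hgn
  have hb₁' : b₁.1 ∈ chevG2.borelSubgroup F := Subgroup.mem_subgroupOf.1 hb₁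
  have hb₂' : b₂.1 ∈ chevG2.borelSubgroup F := Subgroup.mem_subgroupOf.1 hb₂
  have e1 : g = b₁.1 * n.1 * b₂.1 := congrArg Subtype.val e
  obtain ⟨A, B, k, hk⟩ := mono_decomp hn'
  set p₁ := b₁.1 * phi A with hp₁
  set p₂ := phi B * b₂.1 with hp₂
  have hp₁P : p₁ ∈ PP F := (PP F).mul_mem (borel_le_PP hb₁') (phi_mem_PP A)
  have hp₂P : p₂ ∈ PP F := (PP F).mul_mem (phi_mem_PP B) (borel_le_PP hb₂')
  have e2 : g = p₁ * nuK k * p₂ := by
    rw [e1, hk, hp₁, hp₂]
    group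
  have hk0 : k ≠ 0 := by
    rintro rfl
    apply hgP
    have : nuK (0 : Fin 4) = (1 : GL chevG2.Idx F) := rfl
    rw [e2, this, mul_one]
    exact (PP F).mul_mem hp₁P hp₂P
  obtain ⟨A', u, hu, e3⟩ := (PP F).mul_mem hp₂P hp₁P
  refine ⟨p₁⁻¹, (chevG2.group F).inv_mem (PP_le_group hp₁P), k, hk0, A', u, hu, ?_⟩
  have e4 : p₁⁻¹ * g * p₁⁻¹⁻¹ = nuK k * (p₂ * p₁) := by
    rw [e2]
    group
  rw [e4, e3]
  group

end Cfsg.Agent.Lib.ThG2
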