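import Cfsg.Agent.Lib.ThG2.Fix2

/-!
# Gauss decompositions of the Weyl group representatives
-/

set_option autoImplicit false
set_option linter.unusedSectionVars false
set_option linter.unusedVariables false
set_option linter.unusedSimpArgs false
set_option maxRecDepth 100000

namespace Cfsg.Agent.Lib.ThG2

open Cfsg Cfsg.Lie Cfsg.Agent.Lib.Chev Cfsg.Agent.Lib.Chev.SL2 Matrix
open Cfsg.Agent.Lib.ThSp4 (comp comp_det comp_trace M2 Good)

variable {F : Type*} [Field F]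

/-- transvection -/
noncomputable abbrev t01 (c : F) : SpecialLinearGroup (Fin 3) F := SpecialLinearGroup.transvection (by decide : (0 : Fin 3) ≠ 1) c
/-- transvection -/
noncomputable abbrev t10 (c : F) : SpecialLinearGroup (Fin 3) F := SpecialLinearGroup.transvection (by decide : (1 : Fin 3) ≠ 0) c
/-- transvection -/
noncomputable abbrev t02 (c : F) : SpecialLinearGroup (Fin 3) F := SpecialLinearGroup.transvection (by decide : (0 : Fin 3) ≠ 2) c
/-- transvection -/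
noncomputable abbrev t20 (c : F) : SpecialLinearGroup (Fin 3) F := SpecialLinearGroup.transvection (by decide : (2 : Fin 3) ≠ 0) c
/-- transvection -/
noncomputable abbrev t12 (c : F) : SpecialLinearGroup (Fin 3) F := SpecialLinearGroup.transvection (by decide : (1 : Fin 3) ≠ 2) c
/-- transvection -/
noncomputable abbrev t21 (c : F) : SpecialLinearGroup (Fin 3) F := SpecialLinearGroup.transvection (by decide : (2 : Fin 3) ≠ 1) c

theorem rho_t01 (c : F) : rho F (t01 c) = xx 5 c := Units.ext (rho5 _ c)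
theorem rho_t10 (c : F) : rho F (t10 c) = xx 6 c := Units.ext (rho6 _ c)
theorem rho_t02 (c : F) : rho F (t02 c) = xx 10 c := Units.ext (rho10 _ c)
theorem rho_t20 (c : F) : rho F (t20 c) = xx 1 c := Units.ext (rho1 _ c)
theorem rho_t12 (c : F) : rho F (t12 c) = xx 11 c := Units.ext (rho11 _ c)
theorem rho_t21 (c : F) : rho F (t21 c) = xx 0 c := Units.ext (rho0 _ c)

theorem t01_val (c : F) : (t01 c).1 = !![1, c, 0; 0, 1, 0; 0, 0, 1] := tr5 c
theorem t10_val (c : F) : (t10 c).1 = !![1, 0, 0; c, 1, 0; 0, 0, 1] := tr6 c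
theorem t02_val (c : F) : (t02 c).1 = !![1, 0, c; 0, 1, 0; 0, 0, 1] := tr10 c
theorem t20_val (c : F) : (t20 c).1 = !![1, 0, 0; 0, 1, 0; c, 0, 1] := tr1 c
theorem t12_val (c : F) : (t12 c).1 = !![1, 0, 0; 0, 1, c; 0, 0, 1] := tr11 c
theorem t21_val (c : F) : (t21 c).1 = !![1, 0, 0; 0, 1, 0; 0, c, 1] := tr0 c

/-- The Weyl element of the long fundamental root. -/
noncomputable def M1 : SpecialLinearGroup (Fin 3) F := t10 1 * t01 (-1) * t10 1
/-- The Weyl element of the root `3a + b`. -/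
noncomputable def Mm : SpecialLinearGroup (Fin 3) F := t02 1 * t20 (-1) * t02 1
/-- The Weyl element of the highest root. -/
noncomputable def M3 : SpecialLinearGroup (Fin 3) F := t12 1 * t21 (-1) * t12 1

theorem dg_val (a b : Fˣ) : (dg F (a, b)).1 = !![(a : F), 0, 0; 0, (b : F), 0; 0, 0, (((a * b)⁻¹ : Fˣ) : F)] := by
  rw [dg_coe]
  ext i j
  fin_cases i <;> fin_cases j <;> simp [Matrix.diagonal_apply]

theorem M1_val : (M1 : SpecialLinearGroup (Fin 3) F).1 = !![0, -1, 0; 1, 0, 0; 0, 0, 1] := by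
  simp only [M1, sl_val_mul, t01_val, t10_val]
  ext i j
  fin_cases i <;> fin_cases j <;> simp only [Matrix.mul_apply, Fin.sum_univ_three] <;> simp

theorem Mm_val : (Mm : SpecialLinearGroup (Fin 3) F).1 = !![0, 0, 1; 0, 1, 0; -1, 0, 0] := by
  simp only [Mm, sl_val_mul, t02_val, t20_val]
  ext i j
  fin_cases i <;> fin_cases j <;> simp only [Matrix.mul_apply, Fin.sum_univ_three] <;> simp

theorem M3_val : (M3 : SpecialLinearGroup (Fin 3) F).1 = !![1, 0, 0; 0, 0, 1; 0, -1, 0] := by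
  simp only [M3, sl_val_mul, t12_val, t21_val]
  ext i j
  fin_cases i <;> fin_cases j <;> simp only [Matrix.mul_apply, Fin.sum_univ_three] <;> simp

theorem M1_Mm : (M1 : SpecialLinearGroup (Fin 3) F) * Mm = M3 * M1 := by
  apply Subtype.ext
  simp only [sl_val_mul, M1_val, Mm_val, M3_val]
  ext i j
  fin_cases i <;> fin_cases j <;> simp only [Matrix.mul_apply, Fin.sum_univ_three] <;> simp

/-- Gauss decomposition, first case. -/
theorem ldu1 (c₂ : Fˣ) : t10 (-(c₂ : F)) * M1 =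
    t01 (-((c₂ : F)⁻¹)) * dg F (c₂⁻¹, c₂) * t10 ((c₂ : F)⁻¹) := by
  have h2 : (c₂ : F) ≠ 0 := c₂.ne_zero
  apply Subtype.ext
  simp only [sl_val_mul, t01_val, t10_val, M1_val, dg_val]
  ext i j
  fin_cases i <;> fin_cases j <;> simp only [Matrix.mul_apply, Fin.sum_univ_three] <;> simp <;> (try field_simp) <;> (try ring)

/-- Gauss decomposition, second case. -/
theorem ldu2 (c₁ c₂ : Fˣ) : t10 (-(c₂ : F)) * t12 (-(c₁ : F)) * (M1 * Mm) =
    t01 (-((c₂ : F)⁻¹)) * t20 (-((c₂ : F) / (c₁ : F))) * dg F (c₁ * c₂⁻¹, c₂) * t10 ((c₁ : F) / (c₂ : F)) * t02 ((c₁ : F)⁻¹) := by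
  have h1 : (c₁ : F) ≠ 0 := c₁.ne_zero
  have h2 : (c₂ : F) ≠ 0 := c₂.ne_zero
  apply Subtype.ext
  simp only [sl_val_mul, t01_val, t10_val, t12_val, t20_val, t02_val, M1_val, Mm_val, dg_val]
  ext i j
  fin_cases i <;> fin_cases j <;> simp only [Matrix.mul_apply, Fin.sum_univ_three] <;> simp <;> (try field_simp) <;> (try ring)

/-- Gauss decomposition, third case. -/
theorem ldu3 (c₁ c₂ : Fˣ) : t10 1 * t02 ((c₁ : F) - c₂) * t12 (-(c₁ : F)) * M3 =
    t01 (-(((c₁ : F) - c₂) / c₂)) * t21 (-((c₂ : F)⁻¹)) * t20 ((c₁ : F)⁻¹) * dg F (c₁ * c₂⁻¹, c₂) *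
      t10 ((c₂ : F)⁻¹) * t02 (((c₁ : F) - c₂) / c₁) * t12 ((c₁ : F)⁻¹) := by
  have h1 : (c₁ : F) ≠ 0 := c₁.ne_zero
  have h2 : (c₂ : F) ≠ 0 := c₂.ne_zero
  apply Subtype.ext
  simp only [sl_val_mul, t01_val, t10_val, t12_val, t20_val, t21_val, t02_val, M3_val, dg_val]
  ext i j
  fin_cases i <;> fin_cases j <;> simp only [Matrix.mul_apply, Fin.sum_univ_three] <;> simp <;> (try field_simp) <;> (try ring)

/-! ### The Weyl group representatives -/

/-- The representative of the first double coset. -/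
noncomputable def nu1 : GL chevG2.Idx F := hF.nS 1
/-- The element `n_{3a+b}`. -/
noncomputable def num : GL chevG2.Idx F := hF.nS 0 * hF.nS 1 * (hF.nS 0)⁻¹
/-- The representative of the second double coset. -/
noncomputable def nu2 : GL chevG2.Idx F := nu1 * num
/-- The representative of the third double coset. -/
noncomputable def nu3 : GL chevG2.Idx F := nu1 * num * nu1⁻¹

theorem nu1_eq : (nu1 : GL chevG2.Idx F) = rho F M1 := by
  rw [nu1, M1, map_mul, map_mul, rho_t10, rho_t01]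
  show hF.c.nG (chevG2.simple 1) 1 = _
  rw [simple1, Checks.nG, neg6, inv_one]

theorem wf_06 : TabG2.X.wf 0 6 = 10 := by decide +kernel
theorem eta_06 : TabG2.X.eta 0 6 = 1 := by decide +kernel
theorem neg10 : chevG2.neg 10 = 1 := by decide +kernel

theorem num_eq : (num : GL chevG2.Idx F) = rho F Mm := by
  have h := hF.nS_conj_nG (F := F) r0 (s := 6) (by decide) 1
  rw [wf_06, eta_06] at h
  rw [num, Mm, map_mul, map_mul, rho_t02, rho_t20]
  show hF.nS 0 * hF.c.nG (chevG2.simple 1) 1 * (hF.nS 0)⁻¹ = _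
  rw [simple1, h]
  simp [Checks.nG, neg10]

theorem nu2_eq : (nu2 : GL chevG2.Idx F) = rho F (M1 * Mm) := by
  rw [nu2, map_mul, nu1_eq, num_eq]

theorem nu3_eq : (nu3 : GL chevG2.Idx F) = rho F M3 := by
  rw [nu3, nu1_eq, num_eq, ← map_mul, ← map_inv, ← map_mul, M1_Mm, mul_inv_cancel_right]

theorem nu3_eq' : (nu3 : GL chevG2.Idx F) = xx 11 1 * xx 0 (-1) * xx 11 1 := by
  rw [nu3_eq, M3, map_mul, map_mul, rho_t12, rho_t21]

theorem nu1_mem : (nu1 : GL chevG2.Idx F) ∈ chevG2.group F := hF.nS_mem_group r1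
theorem num_mem : (num : GL chevG2.Idx F) ∈ chevG2.group F :=
  (chevG2.group F).mul_mem ((chevG2.group F).mul_mem (hF.nS_mem_group r0) (hF.nS_mem_group r1))
    ((chevG2.group F).inv_mem (hF.nS_mem_group r0))
theorem nu2_mem : (nu2 : GL chevG2.Idx F) ∈ chevG2.group F := (chevG2.group F).mul_mem nu1_mem num_mem
theorem nu3_mem : (nu3 : GL chevG2.Idx F) ∈ chevG2.group F :=
  (chevG2.group F).mul_mem nu2_mem ((chevG2.group F).inv_mem nu1_mem)

/-- The property of being reachable by left multiplication. -/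
def Cov (ν : GL chevG2.Idx F) (C : GL (Fin 2) F) : Prop :=
  ∃ y ∈ Up F, ∃ y' ∈ Un F, ∃ w ∈ Up F, y * ν = y' * phi C * w

theorem wf_18 : TabG2.X.wf 1 8 = 7 := by decide +kernel
theorem eta_17 : TabG2.X.eta 1 7 = 1 := by decide +kernel

theorem qp6 : Qp 6 := by decide
theorem qp8 : Qp 8 := by decide
theorem qp9 : Qp 9 := by decide
theorem qp10 : Qp 10 := by decide
theorem qp11 : Qp 11 := by decide
theorem qn5 : Qn 5 := by decide
theorem qn3 : Qn 3 := by decide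
theorem qn2 : Qn 2 := by decide
theorem qn1 : Qn 1 := by decide
theorem qn0 : Qn 0 := by decide

theorem cov1 (c₂ : Fˣ) (v : F) : Cov nu1 ((dG 1 c₂ : GL (Fin 2) F) * E12 v) := by
  have h1 : rho F (t10 (-(c₂ : F)) * M1) = rho F (t01 (-((c₂ : F)⁻¹)) * dg F (c₂⁻¹, c₂) * t10 ((c₂ : F)⁻¹)) := by
    rw [ldu1]
  rw [map_mul, map_mul, map_mul, rho_t10, rho_t01, rho_t10, rho_dg_eq_phi, ← nu1_eq, inv_mul_cancel] at h1
  have h2 := hF.nS_inv_conj_xG (F := F) r1 (s := 8) (by decide) v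
  rw [wf_18, eta_17] at h2
  simp only [Int.cast_one, one_mul] at h2
  refine ⟨xx 6 (-(c₂ : F)) * xx 8 v, (Up F).mul_mem (xx_mem_Up qp6 _) (xx_mem_Up qp8 _),
    xx 5 (-((c₂ : F)⁻¹)), xx_mem_Un qn5 _, (xx 7 v)⁻¹ * xx 6 ((c₂ : F)⁻¹) * xx 7 v, ?_, ?_⟩
  · have := conj_inv_mem_p (E12 v) (xx_mem_Up qp6 ((c₂ : F)⁻¹))
    rwa [phi_E12] at this
  · rw [map_mul, phi_E12]
    have e1 : xx 6 (-(c₂ : F)) * xx 8 v * nu1 = (xx 6 (-(c₂ : F)) * nu1) * ((nu1)⁻¹ * xx 8 v * nu1) := by group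
    have e2 : (nu1 : GL chevG2.Idx F)⁻¹ * xx 8 v * nu1 = xx 7 v := h2
    rw [e1, e2, h1]
    group

theorem cov2 (c₁ c₂ : Fˣ) : Cov nu2 (dG c₁ c₂ : GL (Fin 2) F) := by
  have h1 : rho F (t10 (-(c₂ : F)) * t12 (-(c₁ : F)) * (M1 * Mm)) =
      rho F (t01 (-((c₂ : F)⁻¹)) * t20 (-((c₂ : F) / (c₁ : F))) * dg F (c₁ * c₂⁻¹, c₂) * t10 ((c₁ : F) / (c₂ : F)) * t02 ((c₁ : F)⁻¹)) := by
    rw [ldu2]
  rw [map_mul, map_mul, ← nu2_eq, map_mul, map_mul, map_mul, map_mul, rho_t10, rho_t12, rho_t01, rho_t20, rho_t10, rho_t02,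
    rho_dg_eq_phi, mul_assoc c₁, inv_mul_cancel, mul_one] at h1
  refine ⟨xx 6 (-(c₂ : F)) * xx 11 (-(c₁ : F)), (Up F).mul_mem (xx_mem_Up qp6 _) (xx_mem_Up qp11 _),
    xx 5 (-((c₂ : F)⁻¹)) * xx 1 (-((c₂ : F) / (c₁ : F))), (Un F).mul_mem (xx_mem_Un qn5 _) (xx_mem_Un qn1 _),
    xx 6 ((c₁ : F) / (c₂ : F)) * xx 10 ((c₁ : F)⁻¹), (Up F).mul_mem (xx_mem_Up qp6 _) (xx_mem_Up qp10 _), ?_⟩
  rw [h1]
  group

theorem cov3 (c₁ c₂ : Fˣ) : Cov nu3 (dG c₁ c₂ : GL (Fin 2) F) := by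
  have h1 : rho F (t10 1 * t02 ((c₁ : F) - c₂) * t12 (-(c₁ : F)) * M3) =
      rho F (t01 (-(((c₁ : F) - c₂) / c₂)) * t21 (-((c₂ : F)⁻¹)) * t20 ((c₁ : F)⁻¹) * dg F (c₁ * c₂⁻¹, c₂) *
      t10 ((c₂ : F)⁻¹) * t02 (((c₁ : F) - c₂) / c₁) * t12 ((c₁ : F)⁻¹)) := by
    rw [ldu3]
  rw [map_mul, ← nu3_eq, map_mul, map_mul, map_mul, map_mul, map_mul, map_mul, map_mul, map_mul, rho_t10, rho_t02, rho_t12, rho_t01, rho_t21,
    rho_t20, rho_t10, rho_t02, rho_t12, rho_dg_eq_phi, mul_assoc c₁, inv_mul_cancel, mul_one] at h1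
  refine ⟨xx 6 1 * xx 10 ((c₁ : F) - c₂) * xx 11 (-(c₁ : F)),
    (Up F).mul_mem ((Up F).mul_mem (xx_mem_Up qp6 _) (xx_mem_Up qp10 _)) (xx_mem_Up qp11 _),
    xx 5 (-(((c₁ : F) - c₂) / c₂)) * xx 0 (-((c₂ : F)⁻¹)) * xx 1 ((c₁ : F)⁻¹),
    (Un F).mul_mem ((Un F).mul_mem (xx_mem_Un qn5 _) (xx_mem_Un qn0 _)) (xx_mem_Un qn1 _),
    xx 6 ((c₂ : F)⁻¹) * xx 10 (((c₁ : F) - c₂) / c₁) * xx 11 ((c₁ : F)⁻¹),
    (Up F).mul_mem ((Up F).mul_mem (xx_mem_Up qp6 _) (xx_mem_Up qp10 _)) (xx_mem_Up qp11 _), ?_⟩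
  rw [h1]
  group

/-- The consequence of `Cov` for an element of the coset. -/
theorem cov_conj {ν : GL chevG2.Idx F} {C : GL (Fin 2) F} (h : Cov ν C) (A : GL (Fin 2) F) {u : GL chevG2.Idx F}
    (hu : u ∈ Up F) : ∃ y ∈ Up F, ∃ y' ∈ Un F, ∃ w ∈ Up F,
      y * (ν * phi A * u) * y⁻¹ = y' * phi (C * A) * w := by
  obtain ⟨y, hy, y', hy', w, hw, e⟩ := h
  refine ⟨y, hy, y', hy', (phi A)⁻¹ * w * phi A * u * y⁻¹,
    (Up F).mul_mem ((Up F).mul_mem (conj_inv_mem_p A hw) hu) ((Up F).inv_mem hy), ?_⟩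
  have e1 : y * (ν * phi A * u) * y⁻¹ = (y * ν) * phi A * u * y⁻¹ := by group
  rw [e1, e, map_mul]
  group

/-! ### Reducing to a diagonal entry -/

theorem wf_17 : TabG2.X.wf 1 7 = 8 := by decide +kernel
theorem eta_18 : TabG2.X.eta 1 8 = -1 := by decide +kernel
theorem wf_08 : TabG2.X.wf 0 8 = 9 := by decide +kernel
theorem eta_09 : TabG2.X.eta 0 9 = -1 := by decide +kernel
theorem wf_19 : TabG2.X.wf 1 9 = 9 := by decide +kernel
theorem eta_19 : TabG2.X.eta 1 9 = 1 := by decide +kernel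
theorem wf_09 : TabG2.X.wf 0 9 = 8 := by decide +kernel

/-- Moving a root element past the second representative. -/
theorem x7_nu2 (e : F) : xx 7 e * nu2 = nu2 * xx 8 (-e) := by
  have h1 := hF.nS_inv_conj_xG (F := F) r1 (s := 7) (by decide) e
  rw [wf_17, eta_18] at h1
  have h2 := hF.nS_inv_conj_xG (F := F) r0 (s := 8) (by decide) ((((-1 : ℤ) : F)) * e)
  rw [wf_08, eta_09] at h2
  have h3 := hF.nS_inv_conj_xG (F := F) r1 (s := 9) (by decide) (((-1 : ℤ) : F) * (((-1 : ℤ) : F) * e))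
  rw [wf_19, eta_19] at h3
  have h4 := hF.nS_conj_xG (F := F) r0 (s := 9) (by decide) (((1 : ℤ) : F) * (((-1 : ℤ) : F) * (((-1 : ℤ) : F) * e)))
  rw [wf_09, eta_09] at h4
  have h5 : (nu2 : GL chevG2.Idx F)⁻¹ * xx 7 e * nu2 = xx 8 (-e) := by
    have e1 : (nu2 : GL chevG2.Idx F)⁻¹ * xx 7 e * nu2 =
        hF.nS 0 * ((hF.nS 1)⁻¹ * ((hF.nS 0)⁻¹ * ((hF.nS 1)⁻¹ * xx 7 e * hF.nS 1) * hF.nS 0) * hF.nS 1) * (hF.nS 0)⁻¹ := by
      rw [nu2, nu1, num]
      group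
    rw [e1, h1, h2, h3, h4]
    congr 1
    push_cast
    ring
  rw [← h5]
  group

/-- Moving a root element past the third representative. -/
theorem x7_nu3 (e : F) : xx 7 e * nu3 = nu3 * xx 7 e := by
  obtain ⟨h1, -, h2, -⟩ := ct_l
  have c1 : ∀ (u a : F), Commute (xx 11 u) (xx 7 a) :=
    comm_nil (by decide) (by decide) (by decide) (by decide) h1
  have c2 : ∀ (u a : F), Commute (xx 0 u) (xx 7 a) :=
    comm_nil (by decide) (by decide) (by decide) (by decide) h2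
  rw [nu3_eq']
  have hc : Commute (xx 11 1 * xx 0 (-1) * xx 11 1) (xx 7 e) := ((c1 1 e).mul_left (c2 (-1) e)).mul_left (c1 1 e)
  exact hc.symm.eq

end Cfsg.Agent.Lib.ThG2
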