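import Mathlib

/-!
# Existence of an irreducible quadratic with a root generating the multiplicative group
-/

set_option autoImplicit false

namespace Cfsg.Agent.Lib.ThG2

open Polynomial

variable {F : Type*} [Field F] [Fintype F]

/-- An irreducible monic quadratic. -/
lemma exists_irr_quad (h3 : 3 ≤ Fintype.card F) :
    ∃ t δ : F, ∀ y : F, y ^ 2 - t * y + δ ≠ 0 := by
  classical
  obtain ⟨δ, hδ⟩ : ∃ δ : F, δ ∉ ({0, 1} : Finset F) := by
    by_contra h
    push Not at h
    have h1 : (Finset.univ : Finset F) ⊆ {0, 1} := fun y _ => h y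
    have h2 := Finset.card_le_card h1
    have h4 : ({0, 1} : Finset F).card ≤ 2 := Finset.card_le_two
    rw [Finset.card_univ] at h2
    omega
  simp only [Finset.mem_insert, Finset.mem_singleton, not_or] at hδ
  obtain ⟨hδ0, hδ1⟩ := hδ
  let S : Finset F := Finset.univ.erase 0
  let φ : F → F := fun y => y + δ / y
  have hlt : (S.image φ).card < S.card := by
    apply lt_of_le_of_ne Finset.card_image_le
    intro h
    have hinj := Finset.card_image_iff.mp h
    have h1 : (1 : F) = δ := hinj (by simp [S]) (by simp [S, hδ0]) (by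
      simp only [φ]
      field_simp
      ring)
    exact hδ1 h1.symm
  obtain ⟨t, ht, ht'⟩ := Finset.exists_mem_notMem_of_card_lt_card hlt
  refine ⟨t, δ, ?_⟩
  intro y hy
  have hy0 : y ≠ 0 := by
    rintro rfl
    apply hδ0
    simpa using hy
  apply ht'
  rw [Finset.mem_image]
  refine ⟨y, by simp [S, hy0], ?_⟩
  simp only [φ]
  field_simp
  linear_combination hy

/-- The data of the main theorem. -/
theorem exists_data (h3 : 3 ≤ Fintype.card F) :
    ∃ (t : F) (δ : Fˣ), (δ : F) ≠ 1 ∧ t ≠ 0 ∧ (∀ y : F, y ^ 2 - t * y + (δ : F) ≠ 0) ∧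
      (δ : F) ^ 2 + (δ : F) - t ^ 3 + 3 * (δ : F) * t ≠ 0 := by
  classical
  obtain ⟨t₀, δ₀, hP₀⟩ := exists_irr_quad h3
  set P : F[X] := X ^ 2 - C t₀ * X + C δ₀ with hPd
  have hmonic : P.Monic := by
    rw [hPd]
    monicity!
  have hdeg : P.natDegree = 2 := by
    rw [hPd]
    compute_degree!
  have hroots : P.roots = 0 := by
    rw [Multiset.eq_zero_iff_forall_notMem]
    intro y hy
    have := (mem_roots hmonic.ne_zero).mp hy
    rw [IsRoot.def, hPd] at this
    apply hP₀ y
    simpa using this
  have hirr : Irreducible P :=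
    (Monic.irreducible_iff_roots_eq_zero_of_degree_le_three hmonic (by omega) (by omega)).mpr hroots
  haveI : Fact (Irreducible P) := ⟨hirr⟩
  let K := AdjoinRoot P
  haveI : Module.Finite F K := (AdjoinRoot.powerBasis hirr.ne_zero).finite
  haveI : Finite K := Module.finite_of_finite F
  letI : Fintype K := Fintype.ofFinite K
  have hfin : Module.finrank F K = 2 := by
    rw [(AdjoinRoot.powerBasis hirr.ne_zero).finrank, AdjoinRoot.powerBasis_dim, hdeg]
  set q := Fintype.card F with hq
  have hcardK : Fintype.card K = q ^ 2 := by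
    have := Module.card_eq_pow_finrank (K := F) (V := K)
    rw [hfin] at this
    exact this
  obtain ⟨g, hg⟩ := IsCyclic.exists_generator (α := Kˣ)
  have hord : orderOf g = q ^ 2 - 1 := by
    rw [orderOf_eq_card_of_forall_mem_zpowers hg, Nat.card_eq_fintype_card, Fintype.card_units, hcardK]
  set L : K := (g : K) with hL
  have hq2 : 1 < q ^ 2 := by nlinarith
  -- powers of the generator
  have hpow : ∀ m : ℕ, 0 < m → m < q ^ 2 - 1 → L ^ m ≠ 1 := by
    intro m hm0 hm h
    have h1 : g ^ m = 1 := Units.ext (by simpa [hL] using h)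
    have h2 := Nat.le_of_dvd hm0 (orderOf_dvd_of_pow_eq_one h1)
    omega
  have hL0 : L ≠ 0 := g.ne_zero
  have hLq2 : L ^ (q ^ 2) = L := by
    rw [← hcardK]
    exact FiniteField.pow_card L
  -- the conjugate
  set L' : K := L ^ q with hL'
  have hq1 : 1 ≤ q := by omega
  have hne : L' ≠ L := by
    intro h
    have h1 : L ^ (q - 1) * L = L := by
      rw [← pow_succ, Nat.sub_add_cancel hq1]
      exact h
    have h2 : L ^ (q - 1) = 1 := mul_right_cancel₀ hL0 (by rw [h1, one_mul])
    exact hpow (q - 1) (by omega) (by
      have : q ^ 2 - 1 = (q - 1) * (q + 1) := by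
        obtain ⟨r, hr⟩ : ∃ r, q = r + 1 := ⟨q - 1, by omega⟩
        rw [hr]
        simp only [Nat.add_sub_cancel]
        have : (r + 1) ^ 2 - 1 = r * (r + 1 + 1) := by
          have : (r + 1) ^ 2 = r * (r + 1 + 1) + 1 := by ring
          omega
        exact this
      rw [this]
      nlinarith [Nat.sub_pos_of_lt (show 1 < q by omega)]) h2
  -- the minimal polynomial
  have hint : IsIntegral F L := Algebra.IsIntegral.isIntegral L
  set m := minpoly F L with hm
  have hmonicm : m.Monic := minpoly.monic hint
  have hmdeg : m.natDegree ≤ 2 := by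
    rw [← hfin]
    exact minpoly.natDegree_le L
  have hmroot : aeval L m = 0 := minpoly.aeval F L
  have hmroot' : aeval L' m = 0 := by
    have h1 : L' = FiniteField.frobeniusAlgHom F K L := rfl
    rw [h1, aeval_algHom_apply, hmroot, map_zero]
  have hform := eq_quadratic_of_degree_le_two (p := m) (by
    exact (natDegree_le_iff_degree_le.1 hmdeg))
  have hc2 : m.coeff 2 = 1 ∨ m.natDegree < 2 := by
    by_cases h : m.natDegree = 2
    · left
      rw [← h]
      exact hmonicm.coeff_natDegree
    · right
      omega
  have hc2' : m.coeff 2 = 1 := by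
    rcases hc2 with h | h
    · exact h
    · exfalso
      -- a linear polynomial has at most one root
      rw [coeff_eq_zero_of_natDegree_lt h] at hform
      rw [hform] at hmroot hmroot' hmonicm
      simp only [map_add, map_mul, aeval_C, aeval_X, map_zero, zero_mul, zero_add, aeval_X_pow] at hmroot hmroot'
      have h1 : (algebraMap F K (m.coeff 1)) * (L - L') = 0 := by
        linear_combination hmroot - hmroot'
      have h2 : m.coeff 1 = 0 := by
        rcases mul_eq_zero.1 h1 with h3 | h3
        · exact (map_eq_zero _).1 h3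
        · exact absurd (sub_eq_zero.1 h3).symm hne
      have h3 : m.coeff 0 = 0 := by
        rw [h2] at hmroot
        simpa using hmroot
      have hm0 : m = 0 := by
        rw [hform, h2, h3]
        simp
      exact (minpoly.ne_zero hint) hm0
  set t := - m.coeff 1 with ht
  set d := m.coeff 0 with hd
  have e1 : L ^ 2 - algebraMap F K t * L + algebraMap F K d = 0 := by
    rw [hform] at hmroot
    simp only [map_add, map_mul, aeval_C, aeval_X, aeval_X_pow, hc2', map_one, one_mul] at hmroot
    rw [ht, map_neg]
    linear_combination hmroot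
  have e2 : L' ^ 2 - algebraMap F K t * L' + algebraMap F K d = 0 := by
    rw [hform] at hmroot'
    simp only [map_add, map_mul, aeval_C, aeval_X, aeval_X_pow, hc2', map_one, one_mul] at hmroot'
    rw [ht, map_neg]
    linear_combination hmroot'
  have ht1 : algebraMap F K t = L + L' := by
    have h1 : (L - L') * (L + L' - algebraMap F K t) = 0 := by
      linear_combination e1 - e2
    rcases mul_eq_zero.1 h1 with h | h
    · exact absurd (sub_eq_zero.1 h).symm hne
    · linear_combination -h
  have hd1 : algebraMap F K d = L * L' := by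
    rw [ht1] at e1
    linear_combination e1
  have hpq : ∀ z : F, (algebraMap F K z) ^ q = algebraMap F K z := by
    intro z
    rw [← map_pow, hq, FiniteField.pow_card]
  have hq3 : 3 ≤ q := h3
  have hbound : ∀ a : ℕ, a + 1 ≤ q ^ 2 - 1 → a + 1 < q ^ 2 - 1 + 1 := fun a h => by omega
  have hsq : q + 2 ≤ q ^ 2 - 1 := by
    have : 3 * q ≤ q * q := Nat.mul_le_mul_right q hq3
    have h5 : q ^ 2 = q * q := pow_two q
    omega
  have hsq' : 2 * q ≤ q ^ 2 - 1 := by
    have : 3 * q ≤ q * q := Nat.mul_le_mul_right q hq3
    have h5 : q ^ 2 = q * q := pow_two q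
    omega
  have hd0 : d ≠ 0 := by
    intro h
    rw [h, map_zero] at hd1
    exact mul_ne_zero hL0 (pow_ne_zero q hL0) hd1.symm
  refine ⟨t, Units.mk0 d hd0, ?_, ?_, ?_, ?_⟩
  · -- the norm is not one
    intro h
    have h1 : L * L' = 1 := by
      rw [← hd1]
      have : d = 1 := h
      rw [this, map_one]
    have h2 : L ^ (q + 1) = 1 := by
      rw [pow_succ, mul_comm]
      exact h1
    exact hpow (q + 1) (by omega) (by omega) h2
  · -- the trace is not zero
    intro h
    have h1 : L + L' = 0 := by
      rw [← ht1, h, map_zero]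
    have h2 : L' = -L := by linear_combination h1
    have h3 : L ^ (2 * (q - 1)) = 1 := by
      have h4 : L ^ (q - 1) = -1 := by
        have h5 : L ^ (q - 1) * L = -1 * L := by
          rw [← pow_succ, Nat.sub_add_cancel hq1, neg_mul, one_mul]
          exact h2
        exact mul_right_cancel₀ hL0 h5
      rw [mul_comm, pow_mul, h4]
      simp
    exact hpow (2 * (q - 1)) (by omega) (by
      have h5 : q ^ 2 = q * q := pow_two q
      have h6 : 3 * q ≤ q * q := Nat.mul_le_mul_right q hq3
      omega) h3
  · -- no roots
    intro y hy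
    have h1 : (algebraMap F K y - L) * (algebraMap F K y - L') = 0 := by
      have := congrArg (algebraMap F K) hy
      simp only [map_add, map_sub, map_mul, map_pow, map_zero, ht1] at this
      have hdd : algebraMap F K ((Units.mk0 d hd0 : Fˣ) : F) = L * L' := hd1
      rw [hdd] at this
      linear_combination this
    rcases mul_eq_zero.1 h1 with h | h
    · have h2 : L = algebraMap F K y := (sub_eq_zero.1 h).symm
      apply hne
      rw [hL', h2, hpq]
    · have h2 : L' = algebraMap F K y := (sub_eq_zero.1 h).symm
      apply hne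
      have h3 : L' ^ q = L := by
        rw [hL', ← pow_mul, ← pow_two, hLq2]
      rw [← h3, h2, hpq]
  · -- the resultant does not vanish
    intro h
    have h1 : (L' - L ^ 2) * (L - L' ^ 2) = 0 := by
      have := congrArg (algebraMap F K) h
      simp only [map_add, map_sub, map_mul, map_pow, map_zero, ht1] at this
      have hdd : algebraMap F K ((Units.mk0 d hd0 : Fˣ) : F) = L * L' := hd1
      rw [hdd] at this
      simp only [map_ofNat] at this
      linear_combination this
    rcases mul_eq_zero.1 h1 with h2 | h2
    · have h3 : L ^ q = L ^ 2 := sub_eq_zero.1 h2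
      have h4 : L ^ (q - 2) = 1 := by
        have h5 : L ^ (q - 2) * L ^ 2 = 1 * L ^ 2 := by
          rw [← pow_add, Nat.sub_add_cancel (by omega), one_mul]
          exact h3
        exact mul_right_cancel₀ (pow_ne_zero 2 hL0) h5
      exact hpow (q - 2) (by omega) (by omega) h4
    · have h3 : L = L ^ (2 * q) := by
        rw [mul_comm, pow_mul]
        exact sub_eq_zero.1 h2
      have h4 : L ^ (2 * q - 1) = 1 := by
        have h5 : L ^ (2 * q - 1) * L = 1 * L := by
          rw [← pow_succ, Nat.sub_add_cancel (by omega), one_mul]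
          exact h3.symm
        exact mul_right_cancel₀ hL0 h5
      exact hpow (2 * q - 1) (by omega) (by omega) h4

end Cfsg.Agent.Lib.ThG2
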