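import Cfsg.Agent.Lib.ThG2.Levi
import Cfsg.Agent.Lib.ThSp4.Two

/-!
# Elements of the nonsplit torus act without fixed points on the unipotent radicals
-/

set_option autoImplicit false
set_option linter.unusedSectionVars false
set_option linter.unusedVariables false
set_option linter.unusedSimpArgs false
set_option maxRecDepth 100000

namespace Cfsg.Agent.Lib.ThG2

open Cfsg Cfsg.Lie Cfsg.Agent.Lib.Chev Cfsg.Agent.Lib.Chev.SL2 Matrix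
open Cfsg.Agent.Lib.ThSp4 (comp comp_det comp_trace M2)

variable {F : Type*} [Field F]

/-! ### Normal forms in a group with a central series of length two -/

section NF

variable {H : Type*} [Group H]

/-- Data for a normal form. -/
structure NFData (x₀ x₁ x₂ x₃ x₄ : F → H) (κ κ' : F) : Prop where
  a₀ : ∀ s t, x₀ s * x₀ t = x₀ (s + t)
  a₁ : ∀ s t, x₁ s * x₁ t = x₁ (s + t)
  a₂ : ∀ s t, x₂ s * x₂ t = x₂ (s + t)
  a₃ : ∀ s t, x₃ s * x₃ t = x₃ (s + t)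
  a₄ : ∀ s t, x₄ s * x₄ t = x₄ (s + t)
  c₄₀ : ∀ s t, x₄ s * x₀ t = x₀ t * x₄ s
  c₄₁ : ∀ s t, x₄ s * x₁ t = x₁ t * x₄ s
  c₄₂ : ∀ s t, x₄ s * x₂ t = x₂ t * x₄ s
  c₄₃ : ∀ s t, x₄ s * x₃ t = x₃ t * x₄ s
  c₃₂ : ∀ s t, x₃ s * x₂ t = x₂ t * x₃ s
  c₃₁ : ∀ s t, x₃ s * x₁ t = x₁ t * x₃ s
  c₂₀ : ∀ s t, x₂ s * x₀ t = x₀ t * x₂ s
  c₁₀ : ∀ s t, x₁ s * x₀ t = x₀ t * x₁ s
  r₂₁ : ∀ s t, x₂ s * x₁ t = x₁ t * x₂ s * x₄ (κ * t * s)
  r₃₀ : ∀ s t, x₃ s * x₀ t = x₀ t * x₃ s * x₄ (κ' * t * s)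

variable {x₀ x₁ x₂ x₃ x₄ : F → H} {κ κ' : F}

theorem NFData.step₄ (h : NFData x₀ x₁ x₂ x₃ x₄ κ κ') (t₀ t₁ t₂ t₃ s e : F) :
    x₀ t₀ * x₁ t₁ * x₂ t₂ * x₃ t₃ * x₄ s * x₄ e = x₀ t₀ * x₁ t₁ * x₂ t₂ * x₃ t₃ * x₄ (s + e) := by
  rw [mul_assoc _ (x₄ s), h.a₄]

theorem NFData.step₃ (h : NFData x₀ x₁ x₂ x₃ x₄ κ κ') (t₀ t₁ t₂ t₃ s e : F) :
    x₀ t₀ * x₁ t₁ * x₂ t₂ * x₃ t₃ * x₄ s * x₃ e = x₀ t₀ * x₁ t₁ * x₂ t₂ * x₃ (t₃ + e) * x₄ s := by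
  rw [mul_assoc _ (x₄ s), h.c₄₃, ← mul_assoc, mul_assoc _ (x₃ t₃), h.a₃]

theorem NFData.step₂ (h : NFData x₀ x₁ x₂ x₃ x₄ κ κ') (t₀ t₁ t₂ t₃ s e : F) :
    x₀ t₀ * x₁ t₁ * x₂ t₂ * x₃ t₃ * x₄ s * x₂ e = x₀ t₀ * x₁ t₁ * x₂ (t₂ + e) * x₃ t₃ * x₄ s := by
  rw [mul_assoc _ (x₄ s), h.c₄₂, ← mul_assoc, mul_assoc _ (x₃ t₃), h.c₃₂, ← mul_assoc,
    mul_assoc _ (x₂ t₂), h.a₂]

theorem NFData.step₁ (h : NFData x₀ x₁ x₂ x₃ x₄ κ κ') (t₀ t₁ t₂ t₃ s e : F) :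
    x₀ t₀ * x₁ t₁ * x₂ t₂ * x₃ t₃ * x₄ s * x₁ e =
      x₀ t₀ * x₁ (t₁ + e) * x₂ t₂ * x₃ t₃ * x₄ (κ * e * t₂ + s) := by
  rw [mul_assoc _ (x₄ s), h.c₄₁, ← mul_assoc, mul_assoc _ (x₃ t₃), h.c₃₁, ← mul_assoc,
    mul_assoc _ (x₂ t₂), h.r₂₁, ← mul_assoc, ← mul_assoc, mul_assoc _ (x₁ t₁), h.a₁]
  generalize κ * e * t₂ = a
  rw [← h.a₄]
  simp only [mul_assoc]
  rw [← mul_assoc (x₄ a) (x₃ t₃), h.c₄₃]
  simp only [mul_assoc]

theorem NFData.step₀ (h : NFData x₀ x₁ x₂ x₃ x₄ κ κ') (t₀ t₁ t₂ t₃ s e : F) :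
    x₀ t₀ * x₁ t₁ * x₂ t₂ * x₃ t₃ * x₄ s * x₀ e =
      x₀ (t₀ + e) * x₁ t₁ * x₂ t₂ * x₃ t₃ * x₄ (κ' * e * t₃ + s) := by
  rw [mul_assoc _ (x₄ s), h.c₄₀, ← mul_assoc, mul_assoc _ (x₃ t₃), h.r₃₀, ← mul_assoc, ← mul_assoc,
    mul_assoc _ (x₂ t₂), h.c₂₀, ← mul_assoc, mul_assoc _ (x₁ t₁), h.c₁₀, ← mul_assoc, h.a₀]
  generalize κ' * e * t₃ = a
  rw [← h.a₄]
  simp only [mul_assoc]

end NF

/-! ### The commutator formula for `G₂` -/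

theorem comm_nil {r s : ℕ} (hr : r < chevG2.nroots) (hs : s < chevG2.nroots) (h1 : s ≠ r)
    (h2 : s ≠ chevG2.neg r) (h : chevG2.commTerms r s = []) (u t : F) :
    xx s u * xx r t = xx r t * xx s u := by
  have h4 := hF.xG_comm (F := F) hr hs h1 h2 t u
  rw [h4]
  simp [ChevalleyDatum.commWord, h, Checks.wordG]

theorem comm_one {r s k : ℕ} {C : ℤ} (hr : r < chevG2.nroots) (hs : s < chevG2.nroots) (h1 : s ≠ r)
    (h2 : s ≠ chevG2.neg r) (h : chevG2.commTerms r s = [(k, C, 1, 1)]) (u t : F) :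
    xx s u * xx r t = xx r t * xx s u * xx k ((C : F) * (-t) * u) := by
  have h4 := hF.xG_comm (F := F) hr hs h1 h2 t u
  rw [h4]
  simp [ChevalleyDatum.commWord, h, Checks.wordG]

theorem ct_p : chevG2.commTerms 6 11 = [] ∧ chevG2.commTerms 8 11 = [] ∧ chevG2.commTerms 9 11 = [] ∧
    chevG2.commTerms 10 11 = [] ∧ chevG2.commTerms 9 10 = [] ∧ chevG2.commTerms 8 10 = [] ∧
    chevG2.commTerms 6 9 = [] ∧ chevG2.commTerms 6 8 = [] ∧ chevG2.commTerms 8 9 = [(11, 3, 1, 1)] ∧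
    chevG2.commTerms 6 10 = [(11, 1, 1, 1)] := by decide +kernel

theorem ct_n : chevG2.commTerms 5 0 = [] ∧ chevG2.commTerms 3 0 = [] ∧ chevG2.commTerms 2 0 = [] ∧
    chevG2.commTerms 1 0 = [] ∧ chevG2.commTerms 2 1 = [] ∧ chevG2.commTerms 3 1 = [] ∧
    chevG2.commTerms 5 2 = [] ∧ chevG2.commTerms 5 3 = [] ∧ chevG2.commTerms 3 2 = [(0, -3, 1, 1)] ∧
    chevG2.commTerms 5 1 = [(0, -1, 1, 1)] := by decide +kernel

theorem ct_l : chevG2.commTerms 7 11 = [] ∧ chevG2.commTerms 4 11 = [] ∧ chevG2.commTerms 7 0 = [] ∧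
    chevG2.commTerms 4 0 = [] := by decide +kernel

theorem nfp : NFData (F := F) (xx 6) (xx 8) (xx 9) (xx 10) (xx 11) (-3) (-1) := by
  obtain ⟨h1, h2, h3, h4, h5, h6, h7, h8, h9, h10⟩ := ct_p
  refine ⟨hF.c.xG_add 6, hF.c.xG_add 8, hF.c.xG_add 9, hF.c.xG_add 10, hF.c.xG_add 11, ?_, ?_, ?_, ?_, ?_, ?_, ?_, ?_, ?_, ?_⟩
  · exact comm_nil (by decide) (by decide) (by decide) (by decide) h1
  · exact comm_nil (by decide) (by decide) (by decide) (by decide) h2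
  · exact comm_nil (by decide) (by decide) (by decide) (by decide) h3
  · exact comm_nil (by decide) (by decide) (by decide) (by decide) h4
  · exact comm_nil (by decide) (by decide) (by decide) (by decide) h5
  · exact comm_nil (by decide) (by decide) (by decide) (by decide) h6
  · exact comm_nil (by decide) (by decide) (by decide) (by decide) h7
  · exact comm_nil (by decide) (by decide) (by decide) (by decide) h8
  · intro s t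
    rw [comm_one (by decide) (by decide) (by decide) (by decide) h9 s t]
    congr 2
    push_cast
    ring
  · intro s t
    rw [comm_one (by decide) (by decide) (by decide) (by decide) h10 s t]
    congr 2
    push_cast
    ring

theorem nfn : NFData (F := F) (xx 5) (xx 3) (xx 2) (xx 1) (xx 0) 3 1 := by
  obtain ⟨h1, h2, h3, h4, h5, h6, h7, h8, h9, h10⟩ := ct_n
  refine ⟨hF.c.xG_add 5, hF.c.xG_add 3, hF.c.xG_add 2, hF.c.xG_add 1, hF.c.xG_add 0, ?_, ?_, ?_, ?_, ?_, ?_, ?_, ?_, ?_, ?_⟩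
  · exact comm_nil (by decide) (by decide) (by decide) (by decide) h1
  · exact comm_nil (by decide) (by decide) (by decide) (by decide) h2
  · exact comm_nil (by decide) (by decide) (by decide) (by decide) h3
  · exact comm_nil (by decide) (by decide) (by decide) (by decide) h4
  · exact comm_nil (by decide) (by decide) (by decide) (by decide) h5
  · exact comm_nil (by decide) (by decide) (by decide) (by decide) h6
  · exact comm_nil (by decide) (by decide) (by decide) (by decide) h7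
  · exact comm_nil (by decide) (by decide) (by decide) (by decide) h8
  · intro s t
    rw [comm_one (by decide) (by decide) (by decide) (by decide) h9 s t]
    congr 2
    push_cast
    ring
  · intro s t
    rw [comm_one (by decide) (by decide) (by decide) (by decide) h10 s t]
    congr 2
    push_cast
    ring

theorem Up_nf {c : GL chevG2.Idx F} (hc : c ∈ Up F) :
    ∃ t₀ t₁ t₂ t₃ s : F, c = xx 6 t₀ * xx 8 t₁ * xx 9 t₂ * xx 10 t₃ * xx 11 s := by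
  have step : ∀ (c : GL chevG2.Idx F) (r : ℕ) (e : F), Qp r →
      (∃ t₀ t₁ t₂ t₃ s : F, c = xx 6 t₀ * xx 8 t₁ * xx 9 t₂ * xx 10 t₃ * xx 11 s) →
      ∃ t₀ t₁ t₂ t₃ s : F, c * xx r e = xx 6 t₀ * xx 8 t₁ * xx 9 t₂ * xx 10 t₃ * xx 11 s := by
    rintro c r e (rfl | rfl | rfl | rfl | rfl) ⟨t₀, t₁, t₂, t₃, s, rfl⟩
    · exact ⟨_, _, _, _, _, nfp.step₀ t₀ t₁ t₂ t₃ s e⟩
    · exact ⟨_, _, _, _, _, nfp.step₁ t₀ t₁ t₂ t₃ s e⟩
    · exact ⟨_, _, _, _, _, nfp.step₂ t₀ t₁ t₂ t₃ s e⟩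
    · exact ⟨_, _, _, _, _, nfp.step₃ t₀ t₁ t₂ t₃ s e⟩
    · exact ⟨_, _, _, _, _, nfp.step₄ t₀ t₁ t₂ t₃ s e⟩
  unfold Up Full.rootClosure at hc
  induction hc using Subgroup.closure_induction_right with
  | one => exact ⟨0, 0, 0, 0, 0, by simp⟩
  | mul_right x _ y hy ih =>
    obtain ⟨r, e, hr, hy⟩ := hy
    rw [hF.c.eq_xG hy]
    exact step _ _ _ hr ih
  | mul_inv_cancel x _ y hy ih =>
    obtain ⟨r, e, hr, hy⟩ := hy
    rw [hF.c.eq_xG hy, hF.c.xG_inv]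
    exact step _ _ _ hr ih

theorem Un_nf {c : GL chevG2.Idx F} (hc : c ∈ Un F) :
    ∃ t₀ t₁ t₂ t₃ s : F, c = xx 5 t₀ * xx 3 t₁ * xx 2 t₂ * xx 1 t₃ * xx 0 s := by
  have step : ∀ (c : GL chevG2.Idx F) (r : ℕ) (e : F), Qn r →
      (∃ t₀ t₁ t₂ t₃ s : F, c = xx 5 t₀ * xx 3 t₁ * xx 2 t₂ * xx 1 t₃ * xx 0 s) →
      ∃ t₀ t₁ t₂ t₃ s : F, c * xx r e = xx 5 t₀ * xx 3 t₁ * xx 2 t₂ * xx 1 t₃ * xx 0 s := by
    rintro c r e (rfl | rfl | rfl | rfl | rfl) ⟨t₀, t₁, t₂, t₃, s, rfl⟩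
    · exact ⟨_, _, _, _, _, nfn.step₀ t₀ t₁ t₂ t₃ s e⟩
    · exact ⟨_, _, _, _, _, nfn.step₁ t₀ t₁ t₂ t₃ s e⟩
    · exact ⟨_, _, _, _, _, nfn.step₂ t₀ t₁ t₂ t₃ s e⟩
    · exact ⟨_, _, _, _, _, nfn.step₃ t₀ t₁ t₂ t₃ s e⟩
    · exact ⟨_, _, _, _, _, nfn.step₄ t₀ t₁ t₂ t₃ s e⟩
  unfold Un Full.rootClosure at hc
  induction hc using Subgroup.closure_induction_right with
  | one => exact ⟨0, 0, 0, 0, 0, by simp⟩
  | mul_right x _ y hy ih =>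
    obtain ⟨r, e, hr, hy⟩ := hy
    rw [hF.c.eq_xG hy]
    exact step _ _ _ hr ih
  | mul_inv_cancel x _ y hy ih =>
    obtain ⟨r, e, hr, hy⟩ := hy
    rw [hF.c.eq_xG hy, hF.c.xG_inv]
    exact step _ _ _ hr ih

end Cfsg.Agent.Lib.ThG2
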