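import Cfsg.Agent.Lib.ThG2.Fix
import Cfsg.Agent.Lib.ThG2.Coords

/-!
# Elements of the nonsplit torus act without fixed points on the unipotent radicals
-/

set_option autoImplicit false
set_option linter.unusedSectionVars false
set_option linter.unusedVariables false
set_option linter.unusedSimpArgs false
set_option maxRecDepth 100000

namespace Cfsg.Agent.Lib.ThG2

open Cfsg Cfsg.Lie Cfsg.Agent.Lib.Chev Cfsg.Agent.Lib.Chev.SL2 Matrix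
open Cfsg.Agent.Lib.ThSp4 (comp_det comp_trace M2)

variable {F : Type*} [Field F]

/-! ### The companion matrix -/

/-- The companion matrix as an element of `GL₂`. -/
noncomputable def X0 (t : F) (δ : Fˣ) : GL (Fin 2) F :=
  GeneralLinearGroup.mkOfDetNeZero (ThSp4.comp t δ) (by rw [comp_det]; exact δ.ne_zero)

theorem X0_val (t : F) (δ : Fˣ) : (X0 t δ).1 = ThSp4.comp t δ := rfl

theorem detU_X0 (t : F) (δ : Fˣ) : detU (X0 t δ) = δ := by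
  apply Units.ext
  rw [detU_val, X0_val, comp_det]

theorem toS_X0 (t : F) (δ : Fˣ) :
    toS (X0 t δ) = x0 (-1) * y0 1 * x0 (t * ((δ⁻¹ : Fˣ) : F) - 1) := by
  have hδ : (δ : F) * ((δ⁻¹ : Fˣ) : F) = 1 := by simp
  apply Subtype.ext
  show !![(X0 t δ).1 0 0, (X0 t δ).1 0 1 * ((detU (X0 t δ))⁻¹ : Fˣ); (X0 t δ).1 1 0, (X0 t δ).1 1 1 * ((detU (X0 t δ))⁻¹ : Fˣ)] =
    (x0 (-1)).1 * (y0 1).1 * (x0 (t * ((δ⁻¹ : Fˣ) : F) - 1)).1
  rw [detU_X0, X0_val]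
  simp only [x0, y0]
  ext i j
  fin_cases i <;> fin_cases j <;>
    simp [ThSp4.comp, Matrix.mul_apply, Fin.sum_univ_two, hδ]

theorem phi_X0 (t : F) (δ : Fˣ) :
    phi (X0 t δ) = xx 7 (-1) * xx 4 1 * xx 7 (t * ((δ⁻¹ : Fˣ) : F) - 1) * hb δ := by
  rw [phi_apply, toS_X0, detU_X0, map_mul, map_mul, psiG_x0, psiG_y0, psiG_x0]

/-! ### Coordinates -/

theorem cartan1_all : ∀ s : Fin 12, chevG2.cartan 1 s = (![-1, 1, 0, -1, 1, -2, 2, -1, 1, 0, -1, 1] : Fin 12 → ℤ) s := by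
  decide +kernel

/-- The action of `h_b`. -/
def hbv (δ : Fˣ) (v : V14 F) : V14 F :=
  mkV ![v (hh 0), v (hh 1)]
    ![((δ⁻¹ : Fˣ) : F) * v (ee 0), (δ : F) * v (ee 1), v (ee 2), ((δ⁻¹ : Fˣ) : F) * v (ee 3), (δ : F) * v (ee 4),
      ((δ⁻¹ : Fˣ) : F) ^ 2 * v (ee 5), (δ : F) ^ 2 * v (ee 6), ((δ⁻¹ : Fˣ) : F) * v (ee 7), (δ : F) * v (ee 8), v (ee 9),
      ((δ⁻¹ : Fˣ) : F) * v (ee 10), (δ : F) * v (ee 11)]

theorem hbv_e1 (δ : Fˣ) (v : V14 F) : hbv δ v (ee 1) = (δ : F) * v (ee 1) := rfl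
theorem hbv_e2 (δ : Fˣ) (v : V14 F) : hbv δ v (ee 2) = v (ee 2) := rfl
theorem hbv_e3 (δ : Fˣ) (v : V14 F) : hbv δ v (ee 3) = ((δ⁻¹ : Fˣ) : F) * v (ee 3) := rfl
theorem hbv_e5 (δ : Fˣ) (v : V14 F) : hbv δ v (ee 5) = ((δ⁻¹ : Fˣ) : F) ^ 2 * v (ee 5) := rfl
theorem hbv_e6 (δ : Fˣ) (v : V14 F) : hbv δ v (ee 6) = (δ : F) ^ 2 * v (ee 6) := rfl
theorem hbv_e8 (δ : Fˣ) (v : V14 F) : hbv δ v (ee 8) = (δ : F) * v (ee 8) := rfl
theorem hbv_e9 (δ : Fˣ) (v : V14 F) : hbv δ v (ee 9) = v (ee 9) := rfl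
theorem hbv_e10 (δ : Fˣ) (v : V14 F) : hbv δ v (ee 10) = ((δ⁻¹ : Fˣ) : F) * v (ee 10) := rfl

theorem hb_mulVec (δ : Fˣ) (v : V14 F) :
    ((hb δ : GL chevG2.Idx F) : Matrix chevG2.Idx chevG2.Idx F) *ᵥ v = hbv δ v := by
  show ((hF.hS F r1 δ : GL chevG2.Idx F) : Matrix chevG2.Idx chevG2.Idx F) *ᵥ v = hbv δ v
  rw [Full.hS_apply, hF.tor_eq, coe_diagG]
  funext row
  rw [Matrix.mulVec_diagonal]
  revert row
  apply idx_ind
  · intro k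
    show (1 : F) * v (hh k) = _
    rw [one_mul]
    fin_cases k <;> simp [hbv]
  · intro k
    have h : chiT chevG2 (Pi.mulSingle (⟨1, r1⟩ : Fin chevG2.rank) δ) k = δ ^ chevG2.cartan 1 k :=
      hF.mulSingle_chiT _ _ _
    show ((chiT chevG2 (Pi.mulSingle (⟨1, r1⟩ : Fin chevG2.rank) δ) k : Fˣ) : F) * v (ee k) = _
    rw [h, cartan1_all k]
    fin_cases k <;> simp [hbv, _root_.zpow_neg, _root_.zpow_two, pow_two]

/-- The action of the companion element. -/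
theorem X0_mulVec (t : F) (δ : Fˣ) (v : V14 F) :
    ((phi (X0 t δ) : GL chevG2.Idx F) : Matrix chevG2.Idx chevG2.Idx F) *ᵥ v =
      nv7 (-1) (nv4 1 (nv7 (t * ((δ⁻¹ : Fˣ) : F) - 1) (hbv δ v))) := by
  rw [phi_X0, Units.val_mul, Units.val_mul, Units.val_mul, ← Matrix.mulVec_mulVec, ← Matrix.mulVec_mulVec,
    ← Matrix.mulVec_mulVec, hb_mulVec]
  simp only [Checks.coe_xG, x7_mulVec, x4_mulVec]

/-- The four coordinates below the top. -/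
theorem X0_low (t : F) (δ : Fˣ) (v : V14 F) :
    (((phi (X0 t δ) : GL chevG2.Idx F) : Matrix chevG2.Idx chevG2.Idx F) *ᵥ v) (ee 5) = (δ : F) * v (ee 1) ∧
    (((phi (X0 t δ) : GL chevG2.Idx F) : Matrix chevG2.Idx chevG2.Idx F) *ᵥ v) (ee 3) = v (ee 2) - t * v (ee 1) ∧
    (δ : F) * (((phi (X0 t δ) : GL chevG2.Idx F) : Matrix chevG2.Idx chevG2.Idx F) *ᵥ v) (ee 2) =
      - v (ee 3) - 2 * t * v (ee 2) + t ^ 2 * v (ee 1) ∧
    (δ : F) ^ 2 * (((phi (X0 t δ) : GL chevG2.Idx F) : Matrix chevG2.Idx chevG2.Idx F) *ᵥ v) (ee 1) =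
      - v (ee 5) - 3 * t * v (ee 3) - 3 * t ^ 2 * v (ee 2) + t ^ 3 * v (ee 1) := by
  have hδ : (δ : F) ≠ 0 := δ.ne_zero
  rw [X0_mulVec]
  simp only [nv7_e1, nv7_e2, nv7_e3, nv7_e5, nv4_e1, nv4_e2, nv4_e3, nv4_e5, hbv_e1, hbv_e2, hbv_e3, hbv_e5,
    Units.val_inv_eq_inv_val]
  refine ⟨?_, ?_, ?_, ?_⟩
  all_goals field_simp
  all_goals ring

/-- The four coordinates above the middle. -/
theorem X0_high (t : F) (δ : Fˣ) (v : V14 F) :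
    (((phi (X0 t δ) : GL chevG2.Idx F) : Matrix chevG2.Idx chevG2.Idx F) *ᵥ v) (ee 10) = - (δ : F) ^ 2 * v (ee 6) ∧
    (((phi (X0 t δ) : GL chevG2.Idx F) : Matrix chevG2.Idx chevG2.Idx F) *ᵥ v) (ee 9) = (δ : F) * (t * v (ee 6) - v (ee 8)) ∧
    (((phi (X0 t δ) : GL chevG2.Idx F) : Matrix chevG2.Idx chevG2.Idx F) *ᵥ v) (ee 8) =
      v (ee 9) - 2 * t * v (ee 8) + t ^ 2 * v (ee 6) ∧
    (δ : F) * (((phi (X0 t δ) : GL chevG2.Idx F) : Matrix chevG2.Idx chevG2.Idx F) *ᵥ v) (ee 6) =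
      v (ee 10) + 3 * t * v (ee 9) - 3 * t ^ 2 * v (ee 8) + t ^ 3 * v (ee 6) := by
  have hδ : (δ : F) ≠ 0 := δ.ne_zero
  rw [X0_mulVec]
  simp only [nv7_e6, nv7_e8, nv7_e9, nv7_e10, nv4_e6, nv4_e8, nv4_e9, nv4_e10, hbv_e6, hbv_e8, hbv_e9, hbv_e10,
    Units.val_inv_eq_inv_val]
  refine ⟨?_, ?_, ?_, ?_⟩
  all_goals field_simp
  all_goals ring

/-- The algebra for the eigenvector equations on the lower piece. -/
theorem alg_low {t d : F} (hd : d ≠ 0) (h1 : d - t + 1 ≠ 0) (h2 : d ^ 2 + d - t ^ 3 + 3 * d * t ≠ 0)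
    {a b c e : F}
    (e5 : d * e = d * (d * d * a)) (e3 : c = d * (b - t * a))
    (e2 : - c - 2 * t * b + t ^ 2 * a = b)
    (e1 : - e - 3 * t * c - 3 * t ^ 2 * b + t ^ 3 * a = d * a) : a = 0 ∧ b = 0 ∧ c = 0 ∧ e = 0 := by
  have he : e = d * d * a := mul_left_cancel₀ hd e5
  subst he
  subst e3
  have key : (d - t + 1) * (d ^ 2 + d - t ^ 3 + 3 * d * t) ≠ 0 := mul_ne_zero h1 h2
  have ha : a = 0 := by
    apply (mul_eq_zero.1 _).resolve_left key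
    linear_combination (1 + d + 2 * t) * (-e1) + (3 * t * (d + t)) * e2
  have hb : b = 0 := by
    apply (mul_eq_zero.1 _).resolve_left key
    linear_combination (t * (d + t)) * (-e1) + (-(d ^ 2 + d - 3 * t ^ 2 * d - t ^ 3)) * e2
  subst ha hb
  simp

/-- The algebra for the eigenvector equations on the upper piece. -/
theorem alg_high {t d : F} (hd : d ≠ 0) (h1 : d - t + 1 ≠ 0) (h2 : d ^ 2 + d - t ^ 3 + 3 * d * t ≠ 0)
    {a b c e : F}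
    (e10 : - d ^ 2 * a = d * e) (e9 : d * (t * a - b) = d * c)
    (e8 : c - 2 * t * b + t ^ 2 * a = d * b)
    (e6 : e + 3 * t * c - 3 * t ^ 2 * b + t ^ 3 * a = d * (d * a)) : a = 0 ∧ b = 0 ∧ c = 0 ∧ e = 0 := by
  have he : e = - d * a := by
    apply mul_left_cancel₀ hd
    linear_combination -e10
  have hc : c = t * a - b := (mul_left_cancel₀ hd e9).symm
  subst he
  subst hc
  have key : (d - t + 1) * (d ^ 2 + d - t ^ 3 + 3 * d * t) ≠ 0 := mul_ne_zero h1 h2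
  have ha : a = 0 := by
    apply (mul_eq_zero.1 _).resolve_left key
    linear_combination (-(1 + d + 2 * t)) * e6 + (3 * t * (1 + t)) * e8
  have hb : b = 0 := by
    apply (mul_eq_zero.1 _).resolve_left key
    linear_combination (-(t * (1 + t))) * e6 + (-d - d ^ 2 + 3 * t ^ 2 + t ^ 3) * e8
  subst ha hb
  simp

/-- The coordinate vector of a root vector. -/
def eR (k : Fin 12) : V14 F := mkV ![0, 0] (Pi.single k 1)

theorem eR_h (k : Fin 12) (i : Fin 2) : eR k (hh i) = (0 : F) := by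
  fin_cases i <;> rfl

theorem eR_ee (k j : Fin 12) : eR k (ee j) = (if j = k then 1 else 0 : F) := by
  show (Pi.single k (1 : F) : Fin 12 → F) j = _
  rw [Pi.single_apply]

theorem nv7_eR0 (t : F) : nv7 t (eR 0) = (eR 0 : V14 F) := by
  funext row
  revert row
  apply idx_ind
  · intro k
    fin_cases k <;> simp [nv7_h0, nv7_h1, eR_h, eR_ee]
  · intro k
    fin_cases k <;> simp [nv7_e0, nv7_e1, nv7_e2, nv7_e3, nv7_e4, nv7_e5, nv7_e6, nv7_e7, nv7_e8, nv7_e9, nv7_e10, nv7_e11, eR_h, eR_ee]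

theorem nv4_eR0 (t : F) : nv4 t (eR 0) = (eR 0 : V14 F) := by
  funext row
  revert row
  apply idx_ind
  · intro k
    fin_cases k <;> simp [nv4_h0, nv4_h1, eR_h, eR_ee]
  · intro k
    fin_cases k <;> simp [nv4_e0, nv4_e1, nv4_e2, nv4_e3, nv4_e4, nv4_e5, nv4_e6, nv4_e7, nv4_e8, nv4_e9, nv4_e10, nv4_e11, eR_h, eR_ee]

theorem nv7_eR11 (t : F) : nv7 t (eR 11) = (eR 11 : V14 F) := by
  funext row
  revert row
  apply idx_ind
  · intro k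
    fin_cases k <;> simp [nv7_h0, nv7_h1, eR_h, eR_ee]
  · intro k
    fin_cases k <;> simp [nv7_e0, nv7_e1, nv7_e2, nv7_e3, nv7_e4, nv7_e5, nv7_e6, nv7_e7, nv7_e8, nv7_e9, nv7_e10, nv7_e11, eR_h, eR_ee]

theorem nv4_eR11 (t : F) : nv4 t (eR 11) = (eR 11 : V14 F) := by
  funext row
  revert row
  apply idx_ind
  · intro k
    fin_cases k <;> simp [nv4_h0, nv4_h1, eR_h, eR_ee]
  · intro k
    fin_cases k <;> simp [nv4_e0, nv4_e1, nv4_e2, nv4_e3, nv4_e4, nv4_e5, nv4_e6, nv4_e7, nv4_e8, nv4_e9, nv4_e10, nv4_e11, eR_h, eR_ee]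

theorem hbv_eR0 (δ : Fˣ) : hbv δ (eR 0) = ((δ⁻¹ : Fˣ) : F) • (eR 0 : V14 F) := by
  funext row
  revert row
  apply idx_ind
  · intro k
    fin_cases k <;> simp [hbv, eR_h]
  · intro k
    fin_cases k <;> simp [hbv, eR_ee]

theorem hbv_eR11 (δ : Fˣ) : hbv δ (eR 11) = (δ : F) • (eR 11 : V14 F) := by
  funext row
  revert row
  apply idx_ind
  · intro k
    fin_cases k <;> simp [hbv, eR_h]
  · intro k
    fin_cases k <;> simp [hbv, eR_ee]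

theorem X0_eR0 (t : F) (δ : Fˣ) :
    ((phi (X0 t δ) : GL chevG2.Idx F) : Matrix chevG2.Idx chevG2.Idx F) *ᵥ eR 0 = ((δ⁻¹ : Fˣ) : F) • eR 0 := by
  rw [phi_X0, Units.val_mul, Units.val_mul, Units.val_mul, ← Matrix.mulVec_mulVec, ← Matrix.mulVec_mulVec,
    ← Matrix.mulVec_mulVec, hb_mulVec, hbv_eR0]
  simp only [Matrix.mulVec_smul, Checks.coe_xG, x7_mulVec, x4_mulVec, nv7_eR0, nv4_eR0]

theorem X0_eR11 (t : F) (δ : Fˣ) :
    ((phi (X0 t δ) : GL chevG2.Idx F) : Matrix chevG2.Idx chevG2.Idx F) *ᵥ eR 11 = (δ : F) • eR 11 := by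
  rw [phi_X0, Units.val_mul, Units.val_mul, Units.val_mul, ← Matrix.mulVec_mulVec, ← Matrix.mulVec_mulVec,
    ← Matrix.mulVec_mulVec, hb_mulVec, hbv_eR11]
  simp only [Matrix.mulVec_smul, Checks.coe_xG, x7_mulVec, x4_mulVec, nv7_eR11, nv4_eR11]

theorem nf_coord_p (t₀ t₁ t₂ t₃ s : F) :
    ((xx 6 t₀ * xx 8 t₁ * xx 9 t₂ * xx 10 t₃ * xx 11 s : GL chevG2.Idx F) : Matrix chevG2.Idx chevG2.Idx F) *ᵥ eR 0 =
      nv6 t₀ (nv8 t₁ (nv9 t₂ (nv10 t₃ (nv11 s (eR 0))))) := by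
  simp only [Units.val_mul, ← Matrix.mulVec_mulVec, Checks.coe_xG, x6_mulVec, x8_mulVec, x9_mulVec, x10_mulVec, x11_mulVec]

theorem nf_coord_n (t₀ t₁ t₂ t₃ s : F) :
    ((xx 5 t₀ * xx 3 t₁ * xx 2 t₂ * xx 1 t₃ * xx 0 s : GL chevG2.Idx F) : Matrix chevG2.Idx chevG2.Idx F) *ᵥ eR 11 =
      nv5 t₀ (nv3 t₁ (nv2 t₂ (nv1 t₃ (nv0 s (eR 11))))) := by
  simp only [Units.val_mul, ← Matrix.mulVec_mulVec, Checks.coe_xG, x5_mulVec, x3_mulVec, x2_mulVec, x1_mulVec, x0_mulVec]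

/-- Conjugating the long root element `x_θ`. -/
theorem X0_conj_11 (t : F) (δ : Fˣ) (s : F) :
    phi (X0 t δ) * xx 11 s = xx 11 ((δ : F) * s) * phi (X0 t δ) := by
  obtain ⟨h1, h2, -, -⟩ := ct_l
  have c7 : ∀ (u a : F), Commute (xx 7 a) (xx 11 u) := fun u a =>
    (comm_nil (by decide) (by decide) (by decide) (by decide) h1 u a).symm
  have c4 : ∀ (u a : F), Commute (xx 4 a) (xx 11 u) := fun u a =>
    (comm_nil (by decide) (by decide) (by decide) (by decide) h2 u a).symm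
  have hc : hb δ * xx 11 s = xx 11 ((δ : F) * s) * hb δ := by
    rw [← mul_inv_eq_iff_eq_mul, hb_conj δ (by decide)]
    have : chevG2.cartan 1 11 = 1 := by decide +kernel
    rw [this, _root_.zpow_one]
  have hcomm := ((c7 ((δ : F) * s) (-1)).mul_left (c4 ((δ : F) * s) 1)).mul_left (c7 ((δ : F) * s) (t * ((δ⁻¹ : Fˣ) : F) - 1))
  rw [phi_X0, mul_assoc _ (hb δ), hc, ← mul_assoc, hcomm.eq, mul_assoc]

/-- Conjugating the long root element `x_{-θ}`. -/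
theorem X0_conj_0 (t : F) (δ : Fˣ) (s : F) :
    phi (X0 t δ) * xx 0 s = xx 0 (((δ⁻¹ : Fˣ) : F) * s) * phi (X0 t δ) := by
  obtain ⟨-, -, h1, h2⟩ := ct_l
  have c7 : ∀ (u a : F), Commute (xx 7 a) (xx 0 u) := fun u a =>
    (comm_nil (by decide) (by decide) (by decide) (by decide) h1 u a).symm
  have c4 : ∀ (u a : F), Commute (xx 4 a) (xx 0 u) := fun u a =>
    (comm_nil (by decide) (by decide) (by decide) (by decide) h2 u a).symm
  have hc : hb δ * xx 0 s = xx 0 (((δ⁻¹ : Fˣ) : F) * s) * hb δ := by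
    rw [← mul_inv_eq_iff_eq_mul, hb_conj δ (by decide)]
    have : chevG2.cartan 1 0 = -1 := by decide +kernel
    rw [this, _root_.zpow_neg_one]
  have hcomm := ((c7 (((δ⁻¹ : Fˣ) : F) * s) (-1)).mul_left (c4 (((δ⁻¹ : Fˣ) : F) * s) 1)).mul_left (c7 (((δ⁻¹ : Fˣ) : F) * s) (t * ((δ⁻¹ : Fˣ) : F) - 1))
  rw [phi_X0, mul_assoc _ (hb δ), hc, ← mul_assoc, hcomm.eq, mul_assoc]

/-- No fixed points on the unipotent radical. -/
theorem fix_p (t : F) (δ : Fˣ) (hδ1 : (δ : F) ≠ 1) (h1 : (δ : F) - t + 1 ≠ 0)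
    (h2 : (δ : F) ^ 2 + (δ : F) - t ^ 3 + 3 * (δ : F) * t ≠ 0) {c : GL chevG2.Idx F} (hc : c ∈ Up F)
    (hcomm : phi (X0 t δ) * c = c * phi (X0 t δ)) : c = 1 := by
  obtain ⟨t₀, t₁, t₂, t₃, s, rfl⟩ := Up_nf hc
  set X := phi (X0 t δ) with hX
  set c := xx 6 t₀ * xx 8 t₁ * xx 9 t₂ * xx 10 t₃ * xx 11 s with hcd
  have hδ : (δ : F) ≠ 0 := δ.ne_zero
  have hdd : (δ : F) * ((δ⁻¹ : Fˣ) : F) = 1 := by simp
  set w : V14 F := (c : Matrix chevG2.Idx chevG2.Idx F) *ᵥ eR 0 with hw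
  have hXw : (X : Matrix chevG2.Idx chevG2.Idx F) *ᵥ w = ((δ⁻¹ : Fˣ) : F) • w := by
    have e := congrArg (fun g : GL chevG2.Idx F => (g : Matrix chevG2.Idx chevG2.Idx F) *ᵥ eR 0) hcomm
    simp only [Units.val_mul, ← Matrix.mulVec_mulVec] at e
    rw [hw, e, hX, X0_eR0, Matrix.mulVec_smul]
  have hcoord : ∀ k, (X : Matrix chevG2.Idx chevG2.Idx F) *ᵥ w |> fun u => u (ee k) = ((δ⁻¹ : Fˣ) : F) * w (ee k) := by
    intro k
    simp only [hXw]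
    rfl
  obtain ⟨e5, e3, e2, e1⟩ := X0_low t δ w
  rw [← hX] at e5 e3 e2 e1
  have c1 := hcoord 1
  have c2 := hcoord 2
  have c3 := hcoord 3
  have c5 := hcoord 5
  simp only at c1 c2 c3 c5
  rw [c5] at e5
  rw [c3] at e3
  rw [c2] at e2
  rw [c1] at e1
  have hw1 : w (ee 1) = -t₀ := by
    rw [hw, hcd, nf_coord_p]
    simp [nv6_e0, nv6_e1, nv6_e2, nv6_e3, nv6_e5, nv8_e0, nv8_e1, nv8_e2, nv8_e3, nv8_e5, nv9_e0, nv9_e1, nv9_e2, nv9_e3, nv9_e5, nv10_e0, nv10_e1, nv10_e2, nv10_e3, nv10_e5, nv11_e0, nv11_e1, nv11_e2, nv11_e3, nv11_e5, eR_ee]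
  have hw2 : w (ee 2) = -t₁ := by
    rw [hw, hcd, nf_coord_p]
    simp [nv6_e0, nv6_e1, nv6_e2, nv6_e3, nv6_e5, nv8_e0, nv8_e1, nv8_e2, nv8_e3, nv8_e5, nv9_e0, nv9_e1, nv9_e2, nv9_e3, nv9_e5, nv10_e0, nv10_e1, nv10_e2, nv10_e3, nv10_e5, nv11_e0, nv11_e1, nv11_e2, nv11_e3, nv11_e5, eR_ee]
  have hw3 : w (ee 3) = t₂ := by
    rw [hw, hcd, nf_coord_p]
    simp [nv6_e0, nv6_e1, nv6_e2, nv6_e3, nv6_e5, nv8_e0, nv8_e1, nv8_e2, nv8_e3, nv8_e5, nv9_e0, nv9_e1, nv9_e2, nv9_e3, nv9_e5, nv10_e0, nv10_e1, nv10_e2, nv10_e3, nv10_e5, nv11_e0, nv11_e1, nv11_e2, nv11_e3, nv11_e5, eR_ee]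
  have hw5 : w (ee 5) = t₃ := by
    rw [hw, hcd, nf_coord_p]
    simp [nv6_e0, nv6_e1, nv6_e2, nv6_e3, nv6_e5, nv8_e0, nv8_e1, nv8_e2, nv8_e3, nv8_e5, nv9_e0, nv9_e1, nv9_e2, nv9_e3, nv9_e5, nv10_e0, nv10_e1, nv10_e2, nv10_e3, nv10_e5, nv11_e0, nv11_e1, nv11_e2, nv11_e3, nv11_e5, eR_ee]
  have hdi : ((δ⁻¹ : Fˣ) : F) = (δ : F)⁻¹ := Units.val_inv_eq_inv_val δ
  obtain ⟨a0, b0, c0, e0⟩ := alg_low (a := w (ee 1)) (b := w (ee 2)) (c := w (ee 3)) (e := w (ee 5)) hδ h1 h2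
    (by linear_combination ((δ : F) * (δ : F)) * e5 - ((δ : F) * w (ee 5)) * hdd)
    (by linear_combination (δ : F) * e3 - w (ee 3) * hdd)
    (by linear_combination -e2 + w (ee 2) * hdd)
    (by linear_combination -e1 + ((δ : F) * w (ee 1)) * hdd)
  have ht0 : t₀ = 0 := by rw [hw1] at a0; simpa using a0
  have ht1 : t₁ = 0 := by rw [hw2] at b0; simpa using b0
  have ht2 : t₂ = 0 := by rw [hw3] at c0; simpa using c0
  have ht3 : t₃ = 0 := by rw [hw5] at e0; simpa using e0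
  have hc11 : c = xx 11 s := by
    rw [hcd, ht0, ht1, ht2, ht3]
    simp
  rw [hc11, hX, X0_conj_11] at hcomm
  have h3 := mul_right_cancel hcomm
  have h4 : (δ : F) * s = s := hF.xG_param_inj (by decide) h3
  have hs : s = 0 := by
    have : ((δ : F) - 1) * s = 0 := by linear_combination h4
    exact (mul_eq_zero.1 this).resolve_left (sub_ne_zero.2 hδ1)
  rw [hc11, hs]
  exact hF.c.xG_zero 11

/-- No fixed points on the opposite unipotent radical. -/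
theorem fix_n (t : F) (δ : Fˣ) (hδ1 : (δ : F) ≠ 1) (h1 : (δ : F) - t + 1 ≠ 0)
    (h2 : (δ : F) ^ 2 + (δ : F) - t ^ 3 + 3 * (δ : F) * t ≠ 0) {c : GL chevG2.Idx F} (hc : c ∈ Un F)
    (hcomm : phi (X0 t δ) * c = c * phi (X0 t δ)) : c = 1 := by
  obtain ⟨t₀, t₁, t₂, t₃, s, rfl⟩ := Un_nf hc
  set X := phi (X0 t δ) with hX
  set c := xx 5 t₀ * xx 3 t₁ * xx 2 t₂ * xx 1 t₃ * xx 0 s with hcd
  have hδ : (δ : F) ≠ 0 := δ.ne_zero
  set w : V14 F := (c : Matrix chevG2.Idx chevG2.Idx F) *ᵥ eR 11 with hw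
  have hXw : (X : Matrix chevG2.Idx chevG2.Idx F) *ᵥ w = (δ : F) • w := by
    have e := congrArg (fun g : GL chevG2.Idx F => (g : Matrix chevG2.Idx chevG2.Idx F) *ᵥ eR 11) hcomm
    simp only [Units.val_mul, ← Matrix.mulVec_mulVec] at e
    rw [hw, e, hX, X0_eR11, Matrix.mulVec_smul]
  have hcoord : ∀ k, (X : Matrix chevG2.Idx chevG2.Idx F) *ᵥ w |> fun u => u (ee k) = (δ : F) * w (ee k) := by
    intro k
    simp only [hXw]
    rfl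
  obtain ⟨e10, e9, e8, e6⟩ := X0_high t δ w
  rw [← hX] at e10 e9 e8 e6
  have c6 := hcoord 6
  have c8 := hcoord 8
  have c9 := hcoord 9
  have c10 := hcoord 10
  simp only at c6 c8 c9 c10
  rw [c10] at e10
  rw [c9] at e9
  rw [c8] at e8
  rw [c6] at e6
  have hw6 : w (ee 6) = -t₃ := by
    rw [hw, hcd, nf_coord_n]
    simp [nv5_e6, nv5_e8, nv5_e9, nv5_e10, nv5_e11, nv3_e6, nv3_e8, nv3_e9, nv3_e10, nv3_e11, nv2_e6, nv2_e8, nv2_e9, nv2_e10, nv2_e11, nv1_e6, nv1_e8, nv1_e9, nv1_e10, nv1_e11, nv0_e6, nv0_e8, nv0_e9, nv0_e10, nv0_e11, eR_ee]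
  have hw8 : w (ee 8) = -t₂ := by
    rw [hw, hcd, nf_coord_n]
    simp [nv5_e6, nv5_e8, nv5_e9, nv5_e10, nv5_e11, nv3_e6, nv3_e8, nv3_e9, nv3_e10, nv3_e11, nv2_e6, nv2_e8, nv2_e9, nv2_e10, nv2_e11, nv1_e6, nv1_e8, nv1_e9, nv1_e10, nv1_e11, nv0_e6, nv0_e8, nv0_e9, nv0_e10, nv0_e11, eR_ee]
  have hw9 : w (ee 9) = t₁ := by
    rw [hw, hcd, nf_coord_n]
    simp [nv5_e6, nv5_e8, nv5_e9, nv5_e10, nv5_e11, nv3_e6, nv3_e8, nv3_e9, nv3_e10, nv3_e11, nv2_e6, nv2_e8, nv2_e9, nv2_e10, nv2_e11, nv1_e6, nv1_e8, nv1_e9, nv1_e10, nv1_e11, nv0_e6, nv0_e8, nv0_e9, nv0_e10, nv0_e11, eR_ee]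
  have hw10 : w (ee 10) = t₀ := by
    rw [hw, hcd, nf_coord_n]
    simp [nv5_e6, nv5_e8, nv5_e9, nv5_e10, nv5_e11, nv3_e6, nv3_e8, nv3_e9, nv3_e10, nv3_e11, nv2_e6, nv2_e8, nv2_e9, nv2_e10, nv2_e11, nv1_e6, nv1_e8, nv1_e9, nv1_e10, nv1_e11, nv0_e6, nv0_e8, nv0_e9, nv0_e10, nv0_e11, eR_ee]
  obtain ⟨a0, b0, c0, e0⟩ := alg_high (a := w (ee 6)) (b := w (ee 8)) (c := w (ee 9)) (e := w (ee 10)) hδ h1 h2
    (by linear_combination (-1 : F) * e10)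
    (by linear_combination (-1 : F) * e9)
    (by linear_combination (-1 : F) * e8)
    (by linear_combination (-1 : F) * e6)
  have ht3 : t₃ = 0 := by rw [hw6] at a0; simpa using a0
  have ht2 : t₂ = 0 := by rw [hw8] at b0; simpa using b0
  have ht1 : t₁ = 0 := by rw [hw9] at c0; simpa using c0
  have ht0 : t₀ = 0 := by rw [hw10] at e0; simpa using e0
  have hc0 : c = xx 0 s := by
    rw [hcd, ht0, ht1, ht2, ht3]
    simp
  rw [hc0, hX, X0_conj_0] at hcomm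
  have h3 := mul_right_cancel hcomm
  have h4 : ((δ⁻¹ : Fˣ) : F) * s = s := hF.xG_param_inj (by decide) h3
  have hdi : ((δ⁻¹ : Fˣ) : F) = (δ : F)⁻¹ := Units.val_inv_eq_inv_val δ
  have hs : s = 0 := by
    rw [hdi] at h4
    have h5 : s = (δ : F) * s := by
      field_simp at h4
      linear_combination h4
    have : ((δ : F) - 1) * s = 0 := by linear_combination -h5
    exact (mul_eq_zero.1 this).resolve_left (sub_ne_zero.2 hδ1)
  rw [hc0, hs]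
  exact hF.c.xG_zero 0

/-- An element acting without fixed points: all elements of a coset are conjugate. -/
theorem conj_of_fix {H : Type*} [Group H] [Finite H] (U : Subgroup H) {x : H}
    (hx : x ∈ Subgroup.normalizer (U : Set H)) (hfix : ∀ c ∈ U, x * c = c * x → c = 1) {u : H} (hu : u ∈ U) :
    ∃ c ∈ U, c * x * c⁻¹ = x * u := by
  have hmem : ∀ c : U, x⁻¹ * c.1 * x * c.1⁻¹ ∈ U := by
    intro c
    have h1 : x⁻¹ * c.1 * x ∈ U := by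
      have := (Subgroup.mem_normalizer_iff.1 ((Subgroup.normalizer (U : Set H)).inv_mem hx) c.1).1 c.2
      rwa [inv_inv] at this
    exact U.mul_mem h1 (U.inv_mem c.2)
  let f : U → U := fun c => ⟨_, hmem c⟩
  have hf : Function.Injective f := by
    intro c d hcd
    have h1 : x⁻¹ * c.1 * x * c.1⁻¹ = x⁻¹ * d.1 * x * d.1⁻¹ := congrArg Subtype.val hcd
    have h2 : x * (d.1⁻¹ * c.1) = (d.1⁻¹ * c.1) * x := by
      have h3 : c.1 * x * c.1⁻¹ = d.1 * x * d.1⁻¹ := by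
        have := congrArg (fun z => x * z) h1
        simp only [mul_assoc, mul_inv_cancel_left] at this
        simpa only [mul_assoc] using this
      have h4 : d.1⁻¹ * (c.1 * x * c.1⁻¹) * c.1 = d.1⁻¹ * (d.1 * x * d.1⁻¹) * c.1 := by rw [h3]
      have h5 : d.1⁻¹ * (c.1 * x * c.1⁻¹) * c.1 = d.1⁻¹ * c.1 * x := by group
      have h6 : d.1⁻¹ * (d.1 * x * d.1⁻¹) * c.1 = x * (d.1⁻¹ * c.1) := by group
      rw [h5, h6] at h4
      exact h4.symm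
    have h3 := hfix _ (U.mul_mem (U.inv_mem d.2) c.2) h2
    apply Subtype.ext
    have h4 : c.1 = d.1 * (d.1⁻¹ * c.1) := by group
    rw [h4, h3, mul_one]
  obtain ⟨c, hc⟩ := (Finite.injective_iff_surjective.1 hf) ⟨u, hu⟩
  refine ⟨c.1, c.2, ?_⟩
  have h1 : x⁻¹ * c.1 * x * c.1⁻¹ = u := congrArg Subtype.val hc
  rw [← h1]
  group

end Cfsg.Agent.Lib.ThG2
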