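import Cfsg.Agent.Lib.ThG2.Acts
import Cfsg.Agent.Lib.Chev.RankOne

/-!
# The Levi subgroup `GL₂(F)` of the long root parabolic of `G₂(F)`
-/

set_option autoImplicit false
set_option linter.unusedSectionVars false
set_option linter.unusedVariables false
set_option linter.unusedSimpArgs false
set_option maxRecDepth 100000

namespace Cfsg.Agent.Lib.ThG2

open Cfsg Cfsg.Lie Cfsg.Agent.Lib.Chev Cfsg.Agent.Lib.Chev.SL2 Matrix

/-- The checks for the tables of `G₂`. -/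
theorem hF : Full TabG2.T TabG2.X RootG2T.R chevG2 := ⟨RelG2.checks, RootG2.checks⟩

variable {F : Type*} [Field F]

/-- Root elements. -/
noncomputable abbrev xx (r : ℕ) (t : F) : GL chevG2.Idx F := hF.c.xG r t

theorem r0 : 0 < chevG2.rank := by decide
theorem r1 : 1 < chevG2.rank := by decide

/-- The torus of the short fundamental root. -/
noncomputable def ha : Fˣ →* GL chevG2.Idx F := hF.hS F r0
/-- The torus of the long fundamental root. -/
noncomputable def hb : Fˣ →* GL chevG2.Idx F := hF.hS F r1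

theorem simple0 : chevG2.simple 0 = 7 := by decide +kernel
theorem simple1 : chevG2.simple 1 = 6 := by decide +kernel
theorem neg7 : chevG2.neg 7 = 4 := by decide +kernel
theorem neg6 : chevG2.neg 6 = 5 := by decide +kernel

theorem exists_psi : ∃ ψ : SpecialLinearGroup (Fin 2) F →* GL chevG2.Idx F,
    (∀ t, ψ (x0 t) = xx 7 t) ∧ (∀ t, ψ (y0 t) = xx 4 t) := by
  obtain ⟨ψ, h1, h2⟩ := exists_hom (hF.rankOne (F := F) r0)
  refine ⟨ψ, fun t => ?_, fun t => ?_⟩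
  · rw [h1 t, simple0]
  · rw [h2 t, simple0, neg7]

/-- The homomorphism from `SL₂`. -/
noncomputable def psiG : SpecialLinearGroup (Fin 2) F →* GL chevG2.Idx F :=
  Classical.choose (exists_psi (F := F))

theorem psiG_x0 (t : F) : psiG (x0 t) = xx 7 t := (Classical.choose_spec (exists_psi (F := F))).1 t
theorem psiG_y0 (t : F) : psiG (y0 t) = xx 4 t := (Classical.choose_spec (exists_psi (F := F))).2 t

theorem cartan1_7 : chevG2.cartan 1 7 = -1 := by decide +kernel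
theorem cartan1_4 : chevG2.cartan 1 4 = 1 := by decide +kernel

theorem hb_conj (c : Fˣ) {s : ℕ} (hs : s < chevG2.nroots) (t : F) :
    hb c * xx s t * (hb c)⁻¹ = xx s (((c ^ chevG2.cartan 1 s : Fˣ) : F) * t) := by
  show hF.hS F r1 c * hF.c.xG s t * (hF.hS F r1 c)⁻¹ = _
  rw [Full.hS_apply, hF.tor_conj_xG _ hs, hF.mulSingle_chiT]

theorem ha_conj (c : Fˣ) {s : ℕ} (hs : s < chevG2.nroots) (t : F) :
    ha c * xx s t * (ha c)⁻¹ = xx s (((c ^ chevG2.cartan 0 s : Fˣ) : F) * t) := by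
  show hF.hS F r0 c * hF.c.xG s t * (hF.hS F r0 c)⁻¹ = _
  rw [Full.hS_apply, hF.tor_conj_xG _ hs, hF.mulSingle_chiT]

theorem hb_conj_psiG (c : Fˣ) (S : SpecialLinearGroup (Fin 2) F) :
    hb c * psiG S * (hb c)⁻¹ = psiG (alpha c S) := by
  have hS := mem_closure_elementary S
  induction hS using Subgroup.closure_induction with
  | mem g hg =>
    rcases hg with ⟨t, rfl⟩ | ⟨t, rfl⟩
    · rw [psiG_x0, hb_conj c (by decide), alpha_x0, psiG_x0, cartan1_7, _root_.zpow_neg_one, mul_comm]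
    · rw [psiG_y0, hb_conj c (by decide), alpha_y0, psiG_y0, cartan1_4, _root_.zpow_one, mul_comm]
  | one => simp
  | mul a b _ _ h1 h2 =>
    rw [map_mul, map_mul, map_mul, ← h1, ← h2]
    group
  | inv a _ h1 =>
    rw [map_inv, map_inv, map_inv, ← h1]
    group

/-- The determinant as a unit. -/
noncomputable def detU (A : GL (Fin 2) F) : Fˣ := Matrix.GeneralLinearGroup.det A

theorem detU_val (A : GL (Fin 2) F) : ((detU A : Fˣ) : F) = A.1.det := rfl

theorem detU_mul (A B : GL (Fin 2) F) : detU (A * B) = detU A * detU B := map_mul _ _ _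

/-- From `GL₂` to `SL₂`. -/
noncomputable def toS (A : GL (Fin 2) F) : SpecialLinearGroup (Fin 2) F :=
  ⟨!![A.1 0 0, A.1 0 1 * ((detU A)⁻¹ : Fˣ); A.1 1 0, A.1 1 1 * ((detU A)⁻¹ : Fˣ)], by
    rw [det_fin_two_of]
    have h1 : (((detU A)⁻¹ : Fˣ) : F) * A.1.det = 1 := by
      rw [← detU_val]
      simp
    rw [det_fin_two] at h1
    linear_combination h1⟩

theorem toS_mul (A B : GL (Fin 2) F) : toS (A * B) = toS A * alpha (detU A) (toS B) := by
  have hν : (((detU A)⁻¹ : Fˣ) : F) * (detU A : F) = 1 := by simp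
  have e : (((detU (A * B))⁻¹ : Fˣ) : F) = ((detU A)⁻¹ : Fˣ) * ((detU B)⁻¹ : Fˣ) := by
    rw [detU_mul, _root_.mul_inv_rev, Units.val_mul, mul_comm]
  apply ext4
  · rw [mul_a, alpha_apply, alphaF_a, alphaF_c]
    show (A * B).1 0 0 = A.1 0 0 * B.1 0 0 + (A.1 0 1 * ((detU A)⁻¹ : Fˣ)) * (B.1 1 0 * (detU A : F))
    rw [Units.val_mul, Matrix.mul_apply, Fin.sum_univ_two]
    linear_combination (-A.1 0 1 * B.1 1 0) * hν
  · rw [mul_b, alpha_apply, alphaF_b, alphaF_d]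
    show (A * B).1 0 1 * ((detU (A * B))⁻¹ : Fˣ) = A.1 0 0 * (B.1 0 1 * ((detU B)⁻¹ : Fˣ) * ((detU A)⁻¹ : Fˣ)) +
      (A.1 0 1 * ((detU A)⁻¹ : Fˣ)) * (B.1 1 1 * ((detU B)⁻¹ : Fˣ))
    rw [Units.val_mul, Matrix.mul_apply, Fin.sum_univ_two, e]
    ring
  · rw [mul_c, alpha_apply, alphaF_a, alphaF_c]
    show (A * B).1 1 0 = A.1 1 0 * B.1 0 0 + (A.1 1 1 * ((detU A)⁻¹ : Fˣ)) * (B.1 1 0 * (detU A : F))
    rw [Units.val_mul, Matrix.mul_apply, Fin.sum_univ_two]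
    linear_combination (-A.1 1 1 * B.1 1 0) * hν
  · rw [mul_d, alpha_apply, alphaF_b, alphaF_d]
    show (A * B).1 1 1 * ((detU (A * B))⁻¹ : Fˣ) = A.1 1 0 * (B.1 0 1 * ((detU B)⁻¹ : Fˣ) * ((detU A)⁻¹ : Fˣ)) +
      (A.1 1 1 * ((detU A)⁻¹ : Fˣ)) * (B.1 1 1 * ((detU B)⁻¹ : Fˣ))
    rw [Units.val_mul, Matrix.mul_apply, Fin.sum_univ_two, e]
    ring

/-- The homomorphism from `GL₂`. -/
noncomputable def phi : GL (Fin 2) F →* GL chevG2.Idx F :=
  MonoidHom.mk' (fun A => psiG (toS A) * hb (detU A)) (by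
    intro A B
    show psiG (toS (A * B)) * hb (detU (A * B)) = psiG (toS A) * hb (detU A) * (psiG (toS B) * hb (detU B))
    rw [toS_mul, map_mul, detU_mul, map_mul, ← hb_conj_psiG]
    group)

theorem phi_apply (A : GL (Fin 2) F) : phi A = psiG (toS A) * hb (detU A) := rfl

/-- Upper elementary matrices. -/
noncomputable def E12 (t : F) : GL (Fin 2) F :=
  GeneralLinearGroup.mkOfDetNeZero !![1, t; 0, 1] (by simp [det_fin_two])
/-- Lower elementary matrices. -/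
noncomputable def E21 (t : F) : GL (Fin 2) F :=
  GeneralLinearGroup.mkOfDetNeZero !![1, 0; t, 1] (by simp [det_fin_two])
/-- Diagonal matrices. -/
noncomputable def dG (a b : Fˣ) : GL (Fin 2) F :=
  GeneralLinearGroup.mkOfDetNeZero !![(a : F), 0; 0, (b : F)] (by simp [det_fin_two])

theorem E12_val (t : F) : (E12 t).1 = !![1, t; 0, 1] := rfl
theorem E21_val (t : F) : (E21 t).1 = !![1, 0; t, 1] := rfl
theorem dG_val (a b : Fˣ) : (dG a b : GL (Fin 2) F).1 = !![(a : F), 0; 0, (b : F)] := rfl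

theorem detU_E12 (t : F) : detU (E12 t) = 1 := by
  apply Units.ext
  rw [detU_val, E12_val]
  simp [det_fin_two]

theorem detU_E21 (t : F) : detU (E21 t) = 1 := by
  apply Units.ext
  rw [detU_val, E21_val]
  simp [det_fin_two]

theorem detU_dG (a b : Fˣ) : detU (dG a b : GL (Fin 2) F) = a * b := by
  apply Units.ext
  rw [detU_val, dG_val]
  simp [det_fin_two]

theorem toS_E12 (t : F) : toS (E12 t) = x0 t := by
  apply Subtype.ext
  show !![(E12 t).1 0 0, (E12 t).1 0 1 * ((detU (E12 t))⁻¹ : Fˣ); (E12 t).1 1 0, (E12 t).1 1 1 * ((detU (E12 t))⁻¹ : Fˣ)] = !![1, t; 0, 1]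
  rw [detU_E12, E12_val]
  simp

theorem toS_E21 (t : F) : toS (E21 t) = y0 t := by
  apply Subtype.ext
  show !![(E21 t).1 0 0, (E21 t).1 0 1 * ((detU (E21 t))⁻¹ : Fˣ); (E21 t).1 1 0, (E21 t).1 1 1 * ((detU (E21 t))⁻¹ : Fˣ)] = !![1, 0; t, 1]
  rw [detU_E21, E21_val]
  simp

theorem phi_E12 (t : F) : phi (E12 t) = xx 7 t := by
  rw [phi_apply, toS_E12, psiG_x0, detU_E12, map_one, mul_one]

theorem phi_E21 (t : F) : phi (E21 t) = xx 4 t := by
  rw [phi_apply, toS_E21, psiG_y0, detU_E21, map_one, mul_one]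

theorem toS_dG_one (b : Fˣ) : toS (dG 1 b : GL (Fin 2) F) = 1 := by
  apply Subtype.ext
  show !![(dG 1 b : GL (Fin 2) F).1 0 0, (dG 1 b : GL (Fin 2) F).1 0 1 * ((detU (dG 1 b : GL (Fin 2) F))⁻¹ : Fˣ);
    (dG 1 b : GL (Fin 2) F).1 1 0, (dG 1 b : GL (Fin 2) F).1 1 1 * ((detU (dG 1 b : GL (Fin 2) F))⁻¹ : Fˣ)] = 1
  rw [detU_dG, dG_val]
  ext i j
  fin_cases i <;> fin_cases j <;> simp

theorem phi_dG_one (b : Fˣ) : phi (dG 1 b : GL (Fin 2) F) = hb b := by
  rw [phi_apply, toS_dG_one, map_one, one_mul, detU_dG, one_mul]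

theorem sl_val_mul {n : ℕ} (a b : SpecialLinearGroup (Fin n) F) : (a * b).1 = a.1 * b.1 := rfl

theorem psiG_D0 (c : Fˣ) : psiG (D0 c) = ha c := by
  have hR := hF.rankOne (F := F) r0
  have h1 := hR.nt c
  have h2 := hR.nt 1
  simp only [Units.val_one, inv_one, map_one, one_mul, simple0, neg7] at h1 h2
  have e : (D0 c : SpecialLinearGroup (Fin 2) F) =
      x0 (c : F) * y0 (-(c : F)⁻¹) * x0 (c : F) * (x0 1 * y0 (-1) * x0 1)⁻¹ := by
    have hc : (c : F) ≠ 0 := c.ne_zero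
    rw [eq_mul_inv_iff_mul_eq]
    apply Subtype.ext
    show (D0 c).1 * ((x0 1).1 * (y0 (-1)).1 * (x0 1).1) = (x0 (c : F)).1 * (y0 (-(c : F)⁻¹)).1 * (x0 (c : F)).1
    simp only [D0, x0, y0]
    ext i j
    fin_cases i <;> fin_cases j <;> simp [Matrix.mul_apply, Fin.sum_univ_two, hc]
  rw [e, map_mul, map_inv, map_mul, map_mul, map_mul, map_mul, psiG_x0, psiG_y0, psiG_x0, psiG_y0, h1, h2]
  show ha c * hF.nS 0 * (hF.nS 0)⁻¹ = _
  group

theorem toS_dG_inv (c : Fˣ) : toS (dG c c⁻¹ : GL (Fin 2) F) = D0 c := by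
  apply Subtype.ext
  show !![(dG c c⁻¹ : GL (Fin 2) F).1 0 0, (dG c c⁻¹ : GL (Fin 2) F).1 0 1 * ((detU (dG c c⁻¹ : GL (Fin 2) F))⁻¹ : Fˣ);
    (dG c c⁻¹ : GL (Fin 2) F).1 1 0, (dG c c⁻¹ : GL (Fin 2) F).1 1 1 * ((detU (dG c c⁻¹ : GL (Fin 2) F))⁻¹ : Fˣ)] =
      !![(c : F), 0; 0, ((c⁻¹ : Fˣ) : F)]
  rw [detU_dG, dG_val]
  ext i j
  fin_cases i <;> fin_cases j <;> simp

theorem phi_dG_inv (c : Fˣ) : phi (dG c c⁻¹ : GL (Fin 2) F) = ha c := by
  rw [phi_apply, toS_dG_inv, psiG_D0, detU_dG, mul_inv_cancel, map_one, mul_one]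

theorem dG_mul (a b c d : Fˣ) : (dG a b : GL (Fin 2) F) * dG c d = dG (a * c) (b * d) := by
  apply Units.ext
  rw [Units.val_mul, dG_val, dG_val, dG_val]
  ext i j
  fin_cases i <;> fin_cases j <;> simp [Matrix.mul_apply, Fin.sum_univ_two]

theorem phi_dG (a b : Fˣ) : phi (dG a b : GL (Fin 2) F) = ha a * hb (a * b) := by
  have h : (dG a b : GL (Fin 2) F) = dG a a⁻¹ * dG 1 (a * b) := by
    rw [dG_mul]
    simp
  rw [h, map_mul, phi_dG_inv, phi_dG_one]

/-- Torus elements in terms of `ha`, `hb`. -/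
theorem tor_eq_ha_hb (c : Fin chevG2.rank → Fˣ) :
    tor RootG2T.R chevG2 c = ha (c i0) * hb (c i1) := by
  show _ = hF.hS F r0 (c i0) * hF.hS F r1 (c i1)
  rw [Full.hS_apply, Full.hS_apply, tor_mul]
  congr 1
  funext i
  have hi : i = i0 ∨ i = i1 := by
    obtain ⟨i, hi⟩ := i
    have h2 : chevG2.rank = 2 := rfl
    rw [h2] at hi
    interval_cases i
    · exact Or.inl rfl
    · exact Or.inr rfl
  have h01 : i0 ≠ i1 := by decide
  rcases hi with rfl | rfl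
  · show _ = ((Pi.mulSingle (⟨0, r0⟩ : Fin chevG2.rank) (c i0) * Pi.mulSingle (⟨1, r1⟩ : Fin chevG2.rank) (c i1) : Fin chevG2.rank → Fˣ)) i0
    rw [Pi.mul_apply, show (⟨0, r0⟩ : Fin chevG2.rank) = i0 from rfl, show (⟨1, r1⟩ : Fin chevG2.rank) = i1 from rfl,
      Pi.mulSingle_eq_same, Pi.mulSingle_eq_of_ne h01, mul_one]
  · show _ = ((Pi.mulSingle (⟨0, r0⟩ : Fin chevG2.rank) (c i0) * Pi.mulSingle (⟨1, r1⟩ : Fin chevG2.rank) (c i1) : Fin chevG2.rank → Fˣ)) i1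
    rw [Pi.mul_apply, show (⟨0, r0⟩ : Fin chevG2.rank) = i0 from rfl, show (⟨1, r1⟩ : Fin chevG2.rank) = i1 from rfl,
      Pi.mulSingle_eq_same, Pi.mulSingle_eq_of_ne h01.symm, one_mul]

/-- Torus elements lie in the image of `GL₂`. -/
theorem tor_eq_phi (c : Fin chevG2.rank → Fˣ) :
    tor RootG2T.R chevG2 c = phi (dG (c i0) ((c i0)⁻¹ * c i1)) := by
  rw [tor_eq_ha_hb, phi_dG, mul_inv_cancel_left]

/-- Diagonal matrices of `SL₃` and `GL₂`. -/
theorem rho_dg_eq_phi (a b : Fˣ) : rho F (dg F (a, b)) = phi (dG (a * b) b) := by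
  rw [rho_dg hF, tor_eq_phi, cOf_i0, cOf_i1]
  congr 2
  group

/-! ### The unipotent radicals -/

/-- The roots of the unipotent radical. -/
def Qp (s : ℕ) : Prop := s = 6 ∨ s = 8 ∨ s = 9 ∨ s = 10 ∨ s = 11
/-- The roots of the opposite unipotent radical. -/
def Qn (s : ℕ) : Prop := s = 5 ∨ s = 3 ∨ s = 2 ∨ s = 1 ∨ s = 0

instance : DecidablePred Qp := fun s => by unfold Qp; infer_instance
instance : DecidablePred Qn := fun s => by unfold Qn; infer_instance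

/-- The unipotent radical. -/
abbrev Up (F : Type*) [Field F] := Full.rootClosure chevG2 F Qp
/-- The opposite unipotent radical. -/
abbrev Un (F : Type*) [Field F] := Full.rootClosure chevG2 F Qn

theorem xx_mem_Up {s : ℕ} (hs : Qp s) (t : F) : xx s t ∈ Up F := hF.xG_mem_rootClosure hs t
theorem xx_mem_Un {s : ℕ} (hs : Qn s) (t : F) : xx s t ∈ Un F := hF.xG_mem_rootClosure hs t

theorem Qp_lt : ∀ s, Qp s → s < chevG2.nroots := by
  rintro s (rfl | rfl | rfl | rfl | rfl) <;> decide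
theorem Qn_lt : ∀ s, Qn s → s < chevG2.nroots := by
  rintro s (rfl | rfl | rfl | rfl | rfl) <;> decide

theorem term_p : ∀ r ∈ [7, 4], ∀ s < 12, Qp s → s ≠ chevG2.neg r ∧ (s ≠ r → ∀ c ∈ chevG2.commTerms r s, Qp c.1) := by
  decide +kernel
theorem term_n : ∀ r ∈ [7, 4], ∀ s < 12, Qn s → s ≠ chevG2.neg r ∧ (s ≠ r → ∀ c ∈ chevG2.commTerms r s, Qn c.1) := by
  decide +kernel

theorem xx7_norm_p (t : F) : xx 7 t ∈ Subgroup.normalizer (Up F : Set (GL chevG2.Idx F)) :=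
  hF.xG_mem_normalizer (by decide) Qp (fun s hs => ⟨Qp_lt s hs, (term_p 7 (by simp) s (Qp_lt s hs) hs).1⟩)
    (fun s hs => (term_p 7 (by simp) s (Qp_lt s hs) hs).2) t
theorem xx4_norm_p (t : F) : xx 4 t ∈ Subgroup.normalizer (Up F : Set (GL chevG2.Idx F)) :=
  hF.xG_mem_normalizer (by decide) Qp (fun s hs => ⟨Qp_lt s hs, (term_p 4 (by simp) s (Qp_lt s hs) hs).1⟩)
    (fun s hs => (term_p 4 (by simp) s (Qp_lt s hs) hs).2) t
theorem xx7_norm_n (t : F) : xx 7 t ∈ Subgroup.normalizer (Un F : Set (GL chevG2.Idx F)) :=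
  hF.xG_mem_normalizer (by decide) Qn (fun s hs => ⟨Qn_lt s hs, (term_n 7 (by simp) s (Qn_lt s hs) hs).1⟩)
    (fun s hs => (term_n 7 (by simp) s (Qn_lt s hs) hs).2) t
theorem xx4_norm_n (t : F) : xx 4 t ∈ Subgroup.normalizer (Un F : Set (GL chevG2.Idx F)) :=
  hF.xG_mem_normalizer (by decide) Qn (fun s hs => ⟨Qn_lt s hs, (term_n 4 (by simp) s (Qn_lt s hs) hs).1⟩)
    (fun s hs => (term_n 4 (by simp) s (Qn_lt s hs) hs).2) t

theorem hb_mem_diagonal (c : Fˣ) : hb c ∈ chevG2.diagonalSubgroup F := by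
  show hF.hS F r1 c ∈ _
  rw [Full.hS_apply]
  exact hF.tor_mem_diagonal _

theorem ha_mem_diagonal (c : Fˣ) : ha c ∈ chevG2.diagonalSubgroup F := by
  show hF.hS F r0 c ∈ _
  rw [Full.hS_apply]
  exact hF.tor_mem_diagonal _

/-- Any subgroup containing the generators contains the image of `GL₂`. -/
theorem phi_mem_of {K : Subgroup (GL chevG2.Idx F)} (h7 : ∀ t : F, xx 7 t ∈ K) (h4 : ∀ t : F, xx 4 t ∈ K)
    (hd : ∀ c : Fˣ, hb c ∈ K) (A : GL (Fin 2) F) : phi A ∈ K := by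
  rw [phi_apply]
  refine K.mul_mem ?_ (hd _)
  have key : ∀ S : SpecialLinearGroup (Fin 2) F, psiG S ∈ K := by
    intro S
    have hS := mem_closure_elementary S
    induction hS using Subgroup.closure_induction with
    | mem g hg =>
      rcases hg with ⟨t, rfl⟩ | ⟨t, rfl⟩
      · rw [psiG_x0]; exact h7 t
      · rw [psiG_y0]; exact h4 t
    | one => rw [map_one]; exact K.one_mem
    | mul a b _ _ h1 h2 => rw [map_mul]; exact K.mul_mem h1 h2
    | inv a _ h1 => rw [map_inv]; exact K.inv_mem h1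
  exact key _

theorem phi_mem_group (A : GL (Fin 2) F) : phi A ∈ chevG2.group F :=
  phi_mem_of (fun t => hF.c.xG_mem_group (by decide) t) (fun t => hF.c.xG_mem_group (by decide) t)
    (fun c => hF.c.diagonal_le_group (hb_mem_diagonal c)) A

theorem phi_norm_p (A : GL (Fin 2) F) : phi A ∈ Subgroup.normalizer (Up F : Set (GL chevG2.Idx F)) :=
  phi_mem_of xx7_norm_p xx4_norm_p
    (fun c => hF.diagonal_le_normalizer_closure Qp Qp_lt (hb_mem_diagonal c)) A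

theorem phi_norm_n (A : GL (Fin 2) F) : phi A ∈ Subgroup.normalizer (Un F : Set (GL chevG2.Idx F)) :=
  phi_mem_of xx7_norm_n xx4_norm_n
    (fun c => hF.diagonal_le_normalizer_closure Qn Qn_lt (hb_mem_diagonal c)) A

theorem conj_mem_p (A : GL (Fin 2) F) {u : GL chevG2.Idx F} (hu : u ∈ Up F) : phi A * u * (phi A)⁻¹ ∈ Up F :=
  (Subgroup.mem_normalizer_iff.1 (phi_norm_p A) u).1 hu

theorem conj_inv_mem_p (A : GL (Fin 2) F) {u : GL chevG2.Idx F} (hu : u ∈ Up F) : (phi A)⁻¹ * u * phi A ∈ Up F := by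
  have := conj_mem_p A⁻¹ hu
  rwa [map_inv, inv_inv] at this

theorem conj_mem_n (A : GL (Fin 2) F) {u : GL chevG2.Idx F} (hu : u ∈ Un F) : phi A * u * (phi A)⁻¹ ∈ Un F :=
  (Subgroup.mem_normalizer_iff.1 (phi_norm_n A) u).1 hu

theorem conj_inv_mem_n (A : GL (Fin 2) F) {u : GL chevG2.Idx F} (hu : u ∈ Un F) : (phi A)⁻¹ * u * phi A ∈ Un F := by
  have := conj_mem_n A⁻¹ hu
  rwa [map_inv, inv_inv] at this

theorem Up_le_group : Up F ≤ chevG2.group F := by
  rw [Up, Full.rootClosure, Subgroup.closure_le]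
  rintro g ⟨s, t, hs, hg⟩
  rw [SetLike.mem_coe, hF.c.eq_xG hg]
  exact hF.c.xG_mem_group (Qp_lt s hs) t

theorem Un_le_group : Un F ≤ chevG2.group F := by
  rw [Un, Full.rootClosure, Subgroup.closure_le]
  rintro g ⟨s, t, hs, hg⟩
  rw [SetLike.mem_coe, hF.c.eq_xG hg]
  exact hF.c.xG_mem_group (Qn_lt s hs) t

end Cfsg.Agent.Lib.ThG2
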