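import Cfsg.Agent.Lib.ThG2.Bruhat

/-!
# Every nontrivial element of `G₂(F)` is a product of two conjugates of a nonsplit torus element
-/

set_option autoImplicit false
set_option linter.unusedSectionVars false
set_option linter.unusedVariables false
set_option linter.unusedSimpArgs false
set_option maxRecDepth 100000

namespace Cfsg.Agent.Lib.ThG2

open Cfsg Cfsg.Lie Cfsg.Agent.Lib.Chev Cfsg.Agent.Lib.Chev.SL2 Matrix
open Cfsg.Agent.Lib.ThSp4 (comp comp_det comp_trace M2 Good exists_factor exists_conj_comp)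

variable {F : Type*} [Field F]

/-! ### Choosing the block -/

theorem not_scalar_of_off {B : M2 F} (h : B 0 1 ≠ 0 ∨ B 1 0 ≠ 0) : ¬ ∃ s : F, B = s • 1 := by
  rintro ⟨s, rfl⟩
  rcases h with h | h <;> simp at h

theorem exists_trace_ne {e : F} (he0 : e ≠ 0) (he1 : e ≠ 1) {δ μ p w : F} (hδ : δ ≠ 0) (hμ : μ ≠ 0) (h : p ≠ 0 ∨ w ≠ 0) :
    ∃ c : Fˣ, (c : F) * p + μ * ((c⁻¹ : Fˣ) : F) * w ≠ 2 * δ := by
  by_cases h2 : (2 : F) = 0
  · by_contra hcon
    push Not at hcon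
    have h1 := hcon 1
    have h3 := hcon (Units.mk0 e he0)
    simp only [Units.val_one, inv_one, one_mul, mul_one, Units.val_mk0, Units.val_inv_eq_inv_val, h2, zero_mul] at h1 h3
    have h4 : e ^ 2 * p = μ * w := by
      field_simp at h3
      linear_combination h3 - (e ^ 2 * p) * h2 * 0 - (μ * w) * h2
    have h5 : μ * w = p := by linear_combination h1 - p * h2
    have h6 : (e - 1) ^ 2 * p = 0 := by
      linear_combination h4 + h5 + (p - e * p) * h2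
    have hp : p = 0 := (mul_eq_zero.1 h6).resolve_left (pow_ne_zero 2 (sub_ne_zero.2 he1))
    have hw : w = 0 := by
      have : μ * w = 0 := by rw [h5, hp]
      exact (mul_eq_zero.1 this).resolve_left hμ
    rcases h with h | h
    · exact h hp
    · exact h hw
  · by_contra hcon
    push Not at hcon
    have h1 := hcon 1
    have hm1 : ((-1 : Fˣ) : F) = -1 := by simp
    have hm2 : (((-1 : Fˣ)⁻¹ : Fˣ) : F) = -1 := by simp
    have h3 := hcon (-1)
    rw [hm1, hm2] at h3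
    simp only [Units.val_one, inv_one, one_mul, mul_one] at h1
    have h4 : (2 : F) * (2 * δ) = 0 := by
      linear_combination -h1 - h3
    exact (mul_ne_zero h2 (mul_ne_zero h2 hδ)) h4

/-- The matrix entries of a product with a diagonal matrix. -/
theorem dG_mul_val (c₁ c₂ : Fˣ) (A : GL (Fin 2) F) : ((dG c₁ c₂ : GL (Fin 2) F) * A).1 =
    !![(c₁ : F) * A.1 0 0, (c₁ : F) * A.1 0 1; (c₂ : F) * A.1 1 0, (c₂ : F) * A.1 1 1] := by
  rw [Units.val_mul, dG_val]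
  ext i j
  fin_cases i <;> fin_cases j <;> simp [Matrix.mul_apply, Fin.sum_univ_two]

theorem det_ne (A : GL (Fin 2) F) : A.1 0 0 * A.1 1 1 - A.1 0 1 * A.1 1 0 ≠ 0 := by
  rw [← Matrix.det_fin_two, ← detU_val]
  exact (detU A).ne_zero

/-- A diagonal matrix making a product good. -/
theorem good_diag {e : F} (he0 : e ≠ 0) (he1 : e ≠ 1) (δ : Fˣ) (A : GL (Fin 2) F) (hA : A.1 0 0 ≠ 0 ∨ A.1 1 1 ≠ 0) :
    ∃ c₁ c₂ : Fˣ, Good (δ : F) ((dG c₁ c₂ : GL (Fin 2) F) * A).1 := by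
  have hdet := det_ne A
  have hδ : (δ : F) ≠ 0 := δ.ne_zero
  by_cases hoff : A.1 0 1 = 0 ∧ A.1 1 0 = 0
  · obtain ⟨h01, h10⟩ := hoff
    rw [h01, h10] at hdet
    have hp : A.1 0 0 ≠ 0 := fun h => hdet (by simp [h])
    have hw : A.1 1 1 ≠ 0 := fun h => hdet (by simp [h])
    refine ⟨δ * (Units.mk0 _ hp)⁻¹, δ * (Units.mk0 _ hw)⁻¹, Or.inl ?_⟩
    rw [dG_mul_val, h01, h10]
    ext i j
    fin_cases i <;> fin_cases j <;> simp [hp, hw, Matrix.one_apply]
  · set D := A.1 0 0 * A.1 1 1 - A.1 0 1 * A.1 1 0 with hD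
    have hμ : (δ : F) ^ 2 / D ≠ 0 := div_ne_zero (pow_ne_zero 2 hδ) hdet
    obtain ⟨c, hc⟩ := exists_trace_ne he0 he1 (δ := (δ : F)) (μ := (δ : F) ^ 2 / D) hδ hμ hA
    have hc0 : (c : F) ≠ 0 := c.ne_zero
    have hci : ((c⁻¹ : Fˣ) : F) = (c : F)⁻¹ := Units.val_inv_eq_inv_val c
    refine ⟨c, Units.mk0 _ hμ * c⁻¹, Or.inr ⟨?_, ?_, not_scalar_of_off ?_⟩⟩
    · rw [dG_mul_val, Matrix.det_fin_two_of]
      simp only [Units.val_mul, Units.val_mk0, hci]
      field_simp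
      exact hD.symm
    · rw [dG_mul_val, Matrix.trace_fin_two_of]
      simp only [Units.val_mul, Units.val_mk0]
      intro h
      apply hc
      rw [← h]
    · rw [dG_mul_val]
      simp only [Matrix.of_apply, Matrix.cons_val', Matrix.cons_val_zero, Matrix.cons_val_one,
        Matrix.cons_val_fin_one, Units.val_mul, Units.val_mk0]
      by_contra hcon
      push Not at hcon
      apply hoff
      constructor
      · exact (mul_eq_zero.1 hcon.1).resolve_left hc0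
      · refine (mul_eq_zero.1 hcon.2).resolve_left (mul_ne_zero hμ ?_)
        rw [hci]
        exact inv_ne_zero hc0

/-- The matrix entries of a product with an upper triangular matrix. -/
theorem dG_E12_mul_val (c₂ : Fˣ) (v : F) (A : GL (Fin 2) F) : ((dG 1 c₂ : GL (Fin 2) F) * E12 v * A).1 =
    !![A.1 0 0 + v * A.1 1 0, A.1 0 1 + v * A.1 1 1; (c₂ : F) * A.1 1 0, (c₂ : F) * A.1 1 1] := by
  rw [Units.val_mul, Units.val_mul, dG_val, E12_val]
  ext i j
  fin_cases i <;> fin_cases j <;> simp [Matrix.mul_apply, Fin.sum_univ_two]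

/-- An upper triangular matrix making a product good. -/
theorem good_one (δ : Fˣ) (A : GL (Fin 2) F) :
    ∃ (c₂ : Fˣ) (v : F), Good (δ : F) ((dG 1 c₂ : GL (Fin 2) F) * E12 v * A).1 := by
  have hdet := det_ne A
  have hδ : (δ : F) ≠ 0 := δ.ne_zero
  set p := A.1 0 0 with hp
  set r := A.1 0 1 with hr
  set s := A.1 1 0 with hs
  set w := A.1 1 1 with hw
  set D := p * w - r * s with hD
  have hμ : (δ : F) ^ 2 / D ≠ 0 := div_ne_zero (pow_ne_zero 2 hδ) hdet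
  have hμD : (δ : F) ^ 2 / D * D = (δ : F) ^ 2 := div_mul_cancel₀ _ hdet
  set μ := (δ : F) ^ 2 / D with hμd
  have hdetB : ∀ v : F, (!![p + v * s, r + v * w; μ * s, μ * w] : M2 F).det = (δ : F) ^ 2 := by
    intro v
    rw [Matrix.det_fin_two_of, ← hμD, hD]
    ring
  have htrB : ∀ v : F, (!![p + v * s, r + v * w; μ * s, μ * w] : M2 F).trace = p + v * s + μ * w := by
    intro v
    rw [Matrix.trace_fin_two_of]
  by_cases hs0 : s = 0
  · rw [hs0] at hD hdetB htrB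
    have hD' : D = p * w := by rw [hD]; ring
    have hw0 : w ≠ 0 := by
      intro h
      apply hdet
      rw [hD', h, mul_zero]
    by_cases htr : p + μ * w = 2 * (δ : F)
    · have hpw : p * (μ * w) = (δ : F) ^ 2 := by
        rw [← hμD, hD']
        ring
      have h1 : (p - (δ : F)) ^ 2 = 0 := by
        have : (p - (δ : F)) ^ 2 = p * (p + μ * w) - 2 * (δ : F) * p - p * (μ * w) + (δ : F) ^ 2 := by ring
        rw [this, htr, hpw]
        ring
      have h2 : p = δ := sub_eq_zero.1 ((pow_eq_zero_iff (two_ne_zero)).1 h1)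
      have h3 : μ * w = δ := by
        rw [h2] at htr
        linear_combination htr
      refine ⟨Units.mk0 _ hμ, -r / w, Or.inl ?_⟩
      rw [dG_E12_mul_val, ← hp, ← hr, ← hs, ← hw, hs0, h2]
      ext i j
      fin_cases i <;> fin_cases j <;> simp [Matrix.one_apply, h3]
      field_simp
      ring
    · refine ⟨Units.mk0 _ hμ, (1 - r) / w, Or.inr ?_⟩
      rw [dG_E12_mul_val, ← hp, ← hr, ← hs, ← hw, hs0]
      have h1 : r + (1 - r) / w * w = 1 := by
        field_simp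
        ring
      refine ⟨?_, ?_, not_scalar_of_off ?_⟩
      · simp only [Units.val_mk0]
        exact hdetB _
      · simp only [Units.val_mk0]
        rw [htrB]
        intro h
        apply htr
        linear_combination h
      · left
        simp [h1]
  · by_cases htr : p + μ * w = 2 * (δ : F)
    · refine ⟨Units.mk0 _ hμ, 1, Or.inr ?_⟩
      rw [dG_E12_mul_val, ← hp, ← hr, ← hs, ← hw]
      refine ⟨?_, ?_, not_scalar_of_off ?_⟩
      · simp only [Units.val_mk0]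
        exact hdetB _
      · simp only [Units.val_mk0]
        rw [htrB]
        intro h
        apply hs0
        linear_combination h - htr
      · right
        simp [hs0, hμ]
    · refine ⟨Units.mk0 _ hμ, 0, Or.inr ?_⟩
      rw [dG_E12_mul_val, ← hp, ← hr, ← hs, ← hw]
      refine ⟨?_, ?_, not_scalar_of_off ?_⟩
      · simp only [Units.val_mk0]
        exact hdetB _
      · simp only [Units.val_mk0]
        rw [htrB]
        intro h
        apply htr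
        linear_combination h
      · right
        simp [hs0, hμ]

/-! ### Reaching a good block -/

theorem nu2_shift (A : GL (Fin 2) F) {u : GL chevG2.Idx F} (hu : u ∈ Up F) (e : F) :
    ∃ u' ∈ Up F, xx 7 e * (nu2 * phi A * u) * (xx 7 e)⁻¹ = nu2 * phi (A * E12 (-e)) * u' := by
  set Z := phi (E12 (-e)) with hZ
  have hZe : (xx 7 e)⁻¹ = Z := by
    rw [hZ, phi_E12]
    exact hF.c.xG_inv 7 e
  refine ⟨Z⁻¹ * ((phi A)⁻¹ * xx 8 (-e) * phi A * u) * Z, ?_, ?_⟩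
  · exact conj_inv_mem_p _ ((Up F).mul_mem (conj_inv_mem_p A (xx_mem_Up qp8 _)) hu)
  · rw [← mul_assoc, ← mul_assoc, x7_nu2, hZe, map_mul, ← hZ]
    group

theorem nu3_shift (A : GL (Fin 2) F) {u : GL chevG2.Idx F} (hu : u ∈ Up F) (e : F) :
    ∃ u' ∈ Up F, xx 7 e * (nu3 * phi A * u) * (xx 7 e)⁻¹ = nu3 * phi (E12 e * A * E12 (-e)) * u' := by
  set Z := phi (E12 (-e)) with hZ
  have hZe : (xx 7 e)⁻¹ = Z := by
    rw [hZ, phi_E12]
    exact hF.c.xG_inv 7 e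
  refine ⟨Z⁻¹ * u * Z, conj_inv_mem_p _ hu, ?_⟩
  rw [← mul_assoc, ← mul_assoc, x7_nu3, hZe, map_mul, map_mul, ← hZ, phi_E12]
  group

/-- All the double cosets lead to a good block. -/
theorem reach {e : F} (he0 : e ≠ 0) (he1 : e ≠ 1) (δ : Fˣ) {k : Fin 4} (hk : k ≠ 0) (A : GL (Fin 2) F)
    {u : GL chevG2.Idx F} (hu : u ∈ Up F) :
    ∃ h ∈ chevG2.group F, ∃ y' ∈ Un F, ∃ B : GL (Fin 2) F, ∃ w ∈ Up F,
      h * (nuK k * phi A * u) * h⁻¹ = y' * phi B * w ∧ Good (δ : F) B.1 := by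
  have x7mem : ∀ t : F, xx 7 t ∈ chevG2.group F := fun t => hF.c.xG_mem_group (by decide) t
  fin_cases k
  · exact absurd rfl hk
  · obtain ⟨c₂, v, hg⟩ := good_one δ A
    obtain ⟨y, hy, y', hy', w, hw, e1⟩ := cov_conj (cov1 c₂ v) A hu
    exact ⟨y, Up_le_group hy, y', hy', _, w, hw, e1, hg⟩
  · show ∃ h ∈ chevG2.group F, ∃ y' ∈ Un F, ∃ B : GL (Fin 2) F, ∃ w ∈ Up F,
      h * (nu2 * phi A * u) * h⁻¹ = y' * phi B * w ∧ Good (δ : F) B.1
    by_cases hA : A.1 0 0 ≠ 0 ∨ A.1 1 1 ≠ 0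
    · obtain ⟨c₁, c₂, hg⟩ := good_diag he0 he1 δ A hA
      obtain ⟨y, hy, y', hy', w, hw, e1⟩ := cov_conj (cov2 c₁ c₂) A hu
      exact ⟨y, Up_le_group hy, y', hy', _, w, hw, e1, hg⟩
    · push Not at hA
      obtain ⟨u', hu', e2⟩ := nu2_shift A hu 1
      have hdet := det_ne A
      have hA' : (A * E12 (-1)).1 0 0 ≠ 0 ∨ (A * E12 (-1)).1 1 1 ≠ 0 := by
        right
        rw [Units.val_mul, E12_val]
        simp only [Matrix.mul_apply, Fin.sum_univ_two]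
        simp [hA.2]
        intro h
        apply hdet
        rw [hA.1, hA.2, h]
        ring
      obtain ⟨c₁, c₂, hg⟩ := good_diag he0 he1 δ _ hA'
      obtain ⟨y, hy, y', hy', w, hw, e1⟩ := cov_conj (cov2 c₁ c₂) _ hu'
      refine ⟨y * xx 7 1, (chevG2.group F).mul_mem (Up_le_group hy) (x7mem 1), y', hy', _, w, hw, ?_, hg⟩
      rw [← e1, ← e2]
      group
  · show ∃ h ∈ chevG2.group F, ∃ y' ∈ Un F, ∃ B : GL (Fin 2) F, ∃ w ∈ Up F,
      h * (nu3 * phi A * u) * h⁻¹ = y' * phi B * w ∧ Good (δ : F) B.1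
    by_cases hA : A.1 0 0 ≠ 0 ∨ A.1 1 1 ≠ 0
    · obtain ⟨c₁, c₂, hg⟩ := good_diag he0 he1 δ A hA
      obtain ⟨y, hy, y', hy', w, hw, e1⟩ := cov_conj (cov3 c₁ c₂) A hu
      exact ⟨y, Up_le_group hy, y', hy', _, w, hw, e1, hg⟩
    · push Not at hA
      obtain ⟨u', hu', e2⟩ := nu3_shift A hu 1
      have hdet := det_ne A
      have hA' : (E12 1 * A * E12 (-1)).1 0 0 ≠ 0 ∨ (E12 1 * A * E12 (-1)).1 1 1 ≠ 0 := by
        left
        rw [Units.val_mul, Units.val_mul, E12_val, E12_val]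
        simp only [Matrix.mul_apply, Fin.sum_univ_two]
        simp [hA.1, hA.2]
        intro h
        apply hdet
        rw [hA.1, hA.2, h]
        ring
      obtain ⟨c₁, c₂, hg⟩ := good_diag he0 he1 δ _ hA'
      obtain ⟨y, hy, y', hy', w, hw, e1⟩ := cov_conj (cov3 c₁ c₂) _ hu'
      refine ⟨y * xx 7 1, (chevG2.group F).mul_mem (Up_le_group hy) (x7mem 1), y', hy', _, w, hw, ?_, hg⟩
      rw [← e1, ← e2]
      group

/-! ### The main theorem -/

/-- The main theorem: products of two conjugates. -/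
theorem two_conj [Fintype F] {e : F} (he0 : e ≠ 0) (he1 : e ≠ 1) {t : F} {δ : Fˣ} (hδ1 : (δ : F) ≠ 1) (ht : t ≠ 0)
    (hP : ∀ y : F, y ^ 2 - t * y + (δ : F) ≠ 0) (h2 : (δ : F) ^ 2 + (δ : F) - t ^ 3 + 3 * (δ : F) * t ≠ 0)
    {g : GL chevG2.Idx F} (hg : g ∈ chevG2.group F) (hg1 : g ≠ 1) :
    ∃ u ∈ chevG2.group F, ∃ v ∈ chevG2.group F,
      g = (u * phi (X0 t δ) * u⁻¹) * (v * phi (X0 t δ) * v⁻¹) := by
  have h1 : (δ : F) - t + 1 ≠ 0 := by
    intro h
    apply hP 1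
    linear_combination h
  obtain ⟨h₀, hh₀, hP₀⟩ := exists_conj_not_mem he0 he1 hg hg1
  have hg₀ : h₀ * g * h₀⁻¹ ∈ chevG2.group F :=
    (chevG2.group F).mul_mem ((chevG2.group F).mul_mem hh₀ hg) ((chevG2.group F).inv_mem hh₀)
  obtain ⟨h₁, hh₁, k, hk, A, u, hu, e₁⟩ := exists_conj_nu hg₀ hP₀
  obtain ⟨h₂, hh₂, y', hy', B, w, hw, e₂, hB⟩ := reach he0 he1 δ hk A hu
  obtain ⟨Y₁, Y₂, hY, hY1t, hY1d, hY2t, hY2d⟩ := exists_factor δ.ne_zero ht hB
  obtain ⟨k₁, hk₁, hk₁'⟩ := exists_conj_comp hP hY1t hY1d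
  obtain ⟨k₂, hk₂, hk₂'⟩ := exists_conj_comp hP hY2t hY2d
  let K₁ : GL (Fin 2) F := GeneralLinearGroup.mkOfDetNeZero k₁ hk₁
  let K₂ : GL (Fin 2) F := GeneralLinearGroup.mkOfDetNeZero k₂ hk₂
  have hZ₁ : K₁ * X0 t δ * K₁⁻¹ = (K₁ * X0 t δ * K₁⁻¹) := rfl
  have hZ₁v : (K₁ * X0 t δ * K₁⁻¹).1 = Y₁ := by
    have h3 : (K₁ * X0 t δ).1 = Y₁ * K₁.1 := by
      rw [Units.val_mul, X0_val]
      exact hk₁'.symm
    rw [Units.val_mul, h3, Matrix.mul_assoc, ← Units.val_mul, mul_inv_cancel, Units.val_one, Matrix.mul_one]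
  have hZ₂v : (K₂ * X0 t δ * K₂⁻¹).1 = Y₂ := by
    have h3 : (K₂ * X0 t δ).1 = Y₂ * K₂.1 := by
      rw [Units.val_mul, X0_val]
      exact hk₂'.symm
    rw [Units.val_mul, h3, Matrix.mul_assoc, ← Units.val_mul, mul_inv_cancel, Units.val_one, Matrix.mul_one]
  have hB' : B = (K₁ * X0 t δ * K₁⁻¹) * (K₂ * X0 t δ * K₂⁻¹) := by
    apply Units.ext
    rw [Units.val_mul, hZ₁v, hZ₂v, hY]
  set x := phi (X0 t δ) with hx
  have hfp : ∀ c ∈ Up F, x * c = c * x → c = 1 := fun c hc h => fix_p t δ hδ1 h1 h2 hc h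
  have hfn : ∀ c ∈ Un F, x * c = c * x → c = 1 := fun c hc h => fix_n t δ hδ1 h1 h2 hc h
  haveI : Finite (GL chevG2.Idx F) := inferInstance
  -- the first factor
  have hy'' : x⁻¹ * ((phi K₁)⁻¹ * y' * phi K₁) * x ∈ Un F := conj_inv_mem_n _ (conj_inv_mem_n K₁ hy')
  obtain ⟨c₁, hc₁, ec₁⟩ := conj_of_fix (Un F) (phi_norm_n (X0 t δ)) hfn hy''
  -- the second factor
  have hw' : (phi K₂)⁻¹ * w * phi K₂ ∈ Up F := conj_inv_mem_p K₂ hw
  obtain ⟨c₂, hc₂, ec₂⟩ := conj_of_fix (Up F) (phi_norm_p (X0 t δ)) hfp hw'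
  set H := h₂ * h₁ * h₀ with hH
  have hHm : H ∈ chevG2.group F := (chevG2.group F).mul_mem ((chevG2.group F).mul_mem hh₂ hh₁) hh₀
  have hgH : H * g * H⁻¹ = y' * phi B * w := by
    rw [← e₂, ← e₁, hH]
    group
  have ef₁ : y' * phi (K₁ * X0 t δ * K₁⁻¹) = (phi K₁ * c₁) * x * (phi K₁ * c₁)⁻¹ := by
    have : (phi K₁ * c₁) * x * (phi K₁ * c₁)⁻¹ = phi K₁ * (c₁ * x * c₁⁻¹) * (phi K₁)⁻¹ := by group
    rw [this, ec₁, map_mul, map_mul, map_inv, ← hx]
    group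
  have ef₂ : phi (K₂ * X0 t δ * K₂⁻¹) * w = (phi K₂ * c₂) * x * (phi K₂ * c₂)⁻¹ := by
    have : (phi K₂ * c₂) * x * (phi K₂ * c₂)⁻¹ = phi K₂ * (c₂ * x * c₂⁻¹) * (phi K₂)⁻¹ := by group
    rw [this, ec₂, map_mul, map_mul, map_inv, ← hx]
    group
  refine ⟨H⁻¹ * (phi K₁ * c₁), (chevG2.group F).mul_mem ((chevG2.group F).inv_mem hHm)
      ((chevG2.group F).mul_mem (phi_mem_group _) (Un_le_group hc₁)),
    H⁻¹ * (phi K₂ * c₂), (chevG2.group F).mul_mem ((chevG2.group F).inv_mem hHm)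
      ((chevG2.group F).mul_mem (phi_mem_group _) (Up_le_group hc₂)), ?_⟩
  have e3 : g = H⁻¹ * (H * g * H⁻¹) * H := by group
  have e5 : y' * phi B * w = (y' * phi (K₁ * X0 t δ * K₁⁻¹)) * (phi (K₂ * X0 t δ * K₂⁻¹) * w) := by
    rw [hB', map_mul]
    group
  rw [e3, hgH, e5, ef₁, ef₂]
  group

end Cfsg.Agent.Lib.ThG2
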