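import Cfsg.Agent.Lib.Chev.RelG2
import Cfsg.Agent.Lib.Chev.RootG2
import Cfsg.Agent.Lib.Chev.Torus
import Cfsg.Agent.Lib.SLGen

/-!
# The long root subgroup `SL₃` of `G₂`

The Lie algebra of type `G₂` is the sum of `sl₃`, its natural module and the dual of it.
This gives a homomorphism from `SL₃(F)` to `GL₁₄(F)`, which sends the elementary
transvections to the root elements of the long roots.
-/

set_option autoImplicit false
set_option linter.unusedSectionVars false
set_option linter.unusedVariables false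
set_option linter.unusedSimpArgs false
set_option maxRecDepth 100000

namespace Cfsg.Agent.Lib.ThG2

open Cfsg Cfsg.Lie Cfsg.Agent.Lib.Chev Matrix

variable {F : Type*} [Field F]

/-- The coordinates of `h_a`, `h_b`. -/
def hh (i : Fin 2) : chevG2.Idx := Sum.inl i
/-- The coordinates of the root vectors. -/
def ee (r : Fin 12) : chevG2.Idx := Sum.inr r

/-- The Lie algebra as a coordinate space. -/
abbrev V14 (F : Type*) := chevG2.Idx → F

/-- A vector from its coordinates. -/
def mkV (a : Fin 2 → F) (b : Fin 12 → F) : V14 F := Sum.elim a b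

@[simp] theorem mkV_hh (a : Fin 2 → F) (b : Fin 12 → F) (i : Fin 2) : mkV a b (hh i) = a i := rfl
@[simp] theorem mkV_ee (a : Fin 2 → F) (b : Fin 12 → F) (i : Fin 12) : mkV a b (ee i) = b i := rfl

theorem flat_hh (i : Fin 2) : flat chevG2 (hh i) = i := rfl
theorem flat_ee (r : Fin 12) : flat chevG2 (ee r) = 2 + r := rfl

theorem idx_ind {P : chevG2.Idx → Prop} (h1 : ∀ i, P (hh i)) (h2 : ∀ r, P (ee r)) (row : chevG2.Idx) : P row := by
  rcases row with i | r
  · exact h1 i
  · exact h2 r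

theorem x_mulVec_row (D : ChevalleyDatum) {r : ℕ} (hr : r < D.nroots) (t : F) (v : D.Idx → F) (row : D.Idx) :
    (D.x F r t *ᵥ v) row = v row + ∑ col : D.Idx, sumEx D (rawEx D r col) t row * v col := by
  have hx : D.x F r t = D.xMat F ⟨r, hr⟩ t := by simp [ChevalleyDatum.x, hr]
  rw [hx, Matrix.mulVec, dotProduct]
  simp only [xMat_apply, add_mul, Finset.sum_add_distrib, ite_mul, one_mul, zero_mul]
  simp

theorem sum14 {M : Type*} [AddCommMonoid M] (f : chevG2.Idx → M) :
    ∑ col : chevG2.Idx, f col = f (hh 0) + f (hh 1) + (f (ee 0) + f (ee 1) + f (ee 2) + f (ee 3) + f (ee 4)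
      + f (ee 5) + f (ee 6) + f (ee 7) + f (ee 8) + f (ee 9) + f (ee 10) + f (ee 11)) := by
  rw [Fintype.sum_sum_type]
  show (∑ i : Fin 2, f (hh i)) + (∑ i : Fin 12, f (ee i)) = _
  rw [Fin.sum_univ_two]
  congr 1
  simp only [Fin.sum_univ_succ, Fin.sum_univ_zero, Fin.succ_zero_eq_one, Fin.isValue]
  simp only [add_assoc, add_zero]
  rfl

/-- The action of `x_0(t)`. -/
def nv0 (t : F) (v : V14 F) : V14 F :=
  mkV (![v (hh 0) - t * v (ee 11), v (hh 1) - 2 * t * v (ee 11)]) (![v (ee 0) + t * v (hh 1) - t ^ 2 * v (ee 11), v (ee 1) + t * v (ee 6), v (ee 2) + t * v (ee 8), v (ee 3) - t * v (ee 9), v (ee 4), v (ee 5) - t * v (ee 10), v (ee 6), v (ee 7), v (ee 8), v (ee 9), v (ee 10), v (ee 11)])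

theorem raw0_0 : rawEx chevG2 0 (hh 0) = [(2, 0, 1)] := by decide +kernel
theorem raw0_1 : rawEx chevG2 0 (hh 1) = [(2, 1, 1)] := by decide +kernel
theorem raw0_2 : rawEx chevG2 0 (ee 0) = [] := by decide +kernel
theorem raw0_3 : rawEx chevG2 0 (ee 1) = [] := by decide +kernel
theorem raw0_4 : rawEx chevG2 0 (ee 2) = [] := by decide +kernel
theorem raw0_5 : rawEx chevG2 0 (ee 3) = [] := by decide +kernel
theorem raw0_6 : rawEx chevG2 0 (ee 4) = [] := by decide +kernel
theorem raw0_7 : rawEx chevG2 0 (ee 5) = [] := by decide +kernel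
theorem raw0_8 : rawEx chevG2 0 (ee 6) = [(3, 1, 1)] := by decide +kernel
theorem raw0_9 : rawEx chevG2 0 (ee 7) = [] := by decide +kernel
theorem raw0_10 : rawEx chevG2 0 (ee 8) = [(4, 1, 1)] := by decide +kernel
theorem raw0_11 : rawEx chevG2 0 (ee 9) = [(5, -1, 1)] := by decide +kernel
theorem raw0_12 : rawEx chevG2 0 (ee 10) = [(7, -1, 1)] := by decide +kernel
theorem raw0_13 : rawEx chevG2 0 (ee 11) = [(0, -1, 1), (1, -2, 1), (2, -1, 2)] := by decide +kernel

theorem x0_mulVec (t : F) (v : V14 F) : chevG2.x F 0 t *ᵥ v = nv0 t v := by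
  funext row
  rw [x_mulVec_row chevG2 (by decide) t v row, sum14]
  simp only [raw0_0, raw0_1, raw0_2, raw0_3, raw0_4, raw0_5, raw0_6, raw0_7, raw0_8, raw0_9, raw0_10, raw0_11, raw0_12, raw0_13]
  revert row
  apply idx_ind
  · intro i
    fin_cases i <;> simp [sumEx, nv0, flat_hh, flat_ee, mkV_hh, mkV_ee] <;> ring
  · intro s
    fin_cases s <;> simp [sumEx, nv0, flat_hh, flat_ee, mkV_hh, mkV_ee] <;> ring

/-- The action of `x_1(t)`. -/
def nv1 (t : F) (v : V14 F) : V14 F :=
  mkV (![v (hh 0) - t * v (ee 10), v (hh 1) - t * v (ee 10)]) (![v (ee 0) + t * v (ee 5), v (ee 1) + 3 * t * v (hh 0) - t * v (hh 1) - t ^ 2 * v (ee 10), v (ee 2) + t * v (ee 7), v (ee 3), v (ee 4) - t * v (ee 9), v (ee 5), v (ee 6) - t * v (ee 11), v (ee 7), v (ee 8), v (ee 9), v (ee 10), v (ee 11)])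

theorem raw1_0 : rawEx chevG2 1 (hh 0) = [(3, 3, 1)] := by decide +kernel
theorem raw1_1 : rawEx chevG2 1 (hh 1) = [(3, -1, 1)] := by decide +kernel
theorem raw1_2 : rawEx chevG2 1 (ee 0) = [] := by decide +kernel
theorem raw1_3 : rawEx chevG2 1 (ee 1) = [] := by decide +kernel
theorem raw1_4 : rawEx chevG2 1 (ee 2) = [] := by decide +kernel
theorem raw1_5 : rawEx chevG2 1 (ee 3) = [] := by decide +kernel
theorem raw1_6 : rawEx chevG2 1 (ee 4) = [] := by decide +kernel
theorem raw1_7 : rawEx chevG2 1 (ee 5) = [(2, 1, 1)] := by decide +kernel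
theorem raw1_8 : rawEx chevG2 1 (ee 6) = [] := by decide +kernel
theorem raw1_9 : rawEx chevG2 1 (ee 7) = [(4, 1, 1)] := by decide +kernel
theorem raw1_10 : rawEx chevG2 1 (ee 8) = [] := by decide +kernel
theorem raw1_11 : rawEx chevG2 1 (ee 9) = [(6, -1, 1)] := by decide +kernel
theorem raw1_12 : rawEx chevG2 1 (ee 10) = [(0, -1, 1), (1, -1, 1), (3, -1, 2)] := by decide +kernel
theorem raw1_13 : rawEx chevG2 1 (ee 11) = [(8, -1, 1)] := by decide +kernel

theorem x1_mulVec (t : F) (v : V14 F) : chevG2.x F 1 t *ᵥ v = nv1 t v := by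
  funext row
  rw [x_mulVec_row chevG2 (by decide) t v row, sum14]
  simp only [raw1_0, raw1_1, raw1_2, raw1_3, raw1_4, raw1_5, raw1_6, raw1_7, raw1_8, raw1_9, raw1_10, raw1_11, raw1_12, raw1_13]
  revert row
  apply idx_ind
  · intro i
    fin_cases i <;> simp [sumEx, nv1, flat_hh, flat_ee, mkV_hh, mkV_ee] <;> ring
  · intro s
    fin_cases s <;> simp [sumEx, nv1, flat_hh, flat_ee, mkV_hh, mkV_ee] <;> ring

/-- The action of `x_5(t)`. -/
def nv5 (t : F) (v : V14 F) : V14 F :=
  mkV (![v (hh 0), v (hh 1) - t * v (ee 6)]) (![v (ee 0) - t * v (ee 1), v (ee 1), v (ee 2), v (ee 3) - t * v (ee 4), v (ee 4), v (ee 5) - 3 * t * v (hh 0) + 2 * t * v (hh 1) - t ^ 2 * v (ee 6), v (ee 6), v (ee 7) + t * v (ee 8), v (ee 8), v (ee 9), v (ee 10) + t * v (ee 11), v (ee 11)])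

theorem raw5_0 : rawEx chevG2 5 (hh 0) = [(7, -3, 1)] := by decide +kernel
theorem raw5_1 : rawEx chevG2 5 (hh 1) = [(7, 2, 1)] := by decide +kernel
theorem raw5_2 : rawEx chevG2 5 (ee 0) = [] := by decide +kernel
theorem raw5_3 : rawEx chevG2 5 (ee 1) = [(2, -1, 1)] := by decide +kernel
theorem raw5_4 : rawEx chevG2 5 (ee 2) = [] := by decide +kernel
theorem raw5_5 : rawEx chevG2 5 (ee 3) = [] := by decide +kernel
theorem raw5_6 : rawEx chevG2 5 (ee 4) = [(5, -1, 1)] := by decide +kernel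
theorem raw5_7 : rawEx chevG2 5 (ee 5) = [] := by decide +kernel
theorem raw5_8 : rawEx chevG2 5 (ee 6) = [(0, 0, 1), (1, -1, 1), (7, -1, 2)] := by decide +kernel
theorem raw5_9 : rawEx chevG2 5 (ee 7) = [] := by decide +kernel
theorem raw5_10 : rawEx chevG2 5 (ee 8) = [(9, 1, 1)] := by decide +kernel
theorem raw5_11 : rawEx chevG2 5 (ee 9) = [] := by decide +kernel
theorem raw5_12 : rawEx chevG2 5 (ee 10) = [] := by decide +kernel
theorem raw5_13 : rawEx chevG2 5 (ee 11) = [(12, 1, 1)] := by decide +kernel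

theorem x5_mulVec (t : F) (v : V14 F) : chevG2.x F 5 t *ᵥ v = nv5 t v := by
  funext row
  rw [x_mulVec_row chevG2 (by decide) t v row, sum14]
  simp only [raw5_0, raw5_1, raw5_2, raw5_3, raw5_4, raw5_5, raw5_6, raw5_7, raw5_8, raw5_9, raw5_10, raw5_11, raw5_12, raw5_13]
  revert row
  apply idx_ind
  · intro i
    fin_cases i <;> simp [sumEx, nv5, flat_hh, flat_ee, mkV_hh, mkV_ee] <;> ring
  · intro s
    fin_cases s <;> simp [sumEx, nv5, flat_hh, flat_ee, mkV_hh, mkV_ee] <;> ring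

/-- The action of `x_6(t)`. -/
def nv6 (t : F) (v : V14 F) : V14 F :=
  mkV (![v (hh 0), v (hh 1) + t * v (ee 5)]) (![v (ee 0), v (ee 1) - t * v (ee 0), v (ee 2), v (ee 3), v (ee 4) - t * v (ee 3), v (ee 5), v (ee 6) + 3 * t * v (hh 0) - 2 * t * v (hh 1) - t ^ 2 * v (ee 5), v (ee 7), v (ee 8) + t * v (ee 7), v (ee 9), v (ee 10), v (ee 11) + t * v (ee 10)])

theorem raw6_0 : rawEx chevG2 6 (hh 0) = [(8, 3, 1)] := by decide +kernel
theorem raw6_1 : rawEx chevG2 6 (hh 1) = [(8, -2, 1)] := by decide +kernel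
theorem raw6_2 : rawEx chevG2 6 (ee 0) = [(3, -1, 1)] := by decide +kernel
theorem raw6_3 : rawEx chevG2 6 (ee 1) = [] := by decide +kernel
theorem raw6_4 : rawEx chevG2 6 (ee 2) = [] := by decide +kernel
theorem raw6_5 : rawEx chevG2 6 (ee 3) = [(6, -1, 1)] := by decide +kernel
theorem raw6_6 : rawEx chevG2 6 (ee 4) = [] := by decide +kernel
theorem raw6_7 : rawEx chevG2 6 (ee 5) = [(0, 0, 1), (1, 1, 1), (8, -1, 2)] := by decide +kernel
theorem raw6_8 : rawEx chevG2 6 (ee 6) = [] := by decide +kernel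
theorem raw6_9 : rawEx chevG2 6 (ee 7) = [(10, 1, 1)] := by decide +kernel
theorem raw6_10 : rawEx chevG2 6 (ee 8) = [] := by decide +kernel
theorem raw6_11 : rawEx chevG2 6 (ee 9) = [] := by decide +kernel
theorem raw6_12 : rawEx chevG2 6 (ee 10) = [(13, 1, 1)] := by decide +kernel
theorem raw6_13 : rawEx chevG2 6 (ee 11) = [] := by decide +kernel

theorem x6_mulVec (t : F) (v : V14 F) : chevG2.x F 6 t *ᵥ v = nv6 t v := by
  funext row
  rw [x_mulVec_row chevG2 (by decide) t v row, sum14]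
  simp only [raw6_0, raw6_1, raw6_2, raw6_3, raw6_4, raw6_5, raw6_6, raw6_7, raw6_8, raw6_9, raw6_10, raw6_11, raw6_12, raw6_13]
  revert row
  apply idx_ind
  · intro i
    fin_cases i <;> simp [sumEx, nv6, flat_hh, flat_ee, mkV_hh, mkV_ee] <;> ring
  · intro s
    fin_cases s <;> simp [sumEx, nv6, flat_hh, flat_ee, mkV_hh, mkV_ee] <;> ring

/-- The action of `x_10(t)`. -/
def nv10 (t : F) (v : V14 F) : V14 F :=
  mkV (![v (hh 0) + t * v (ee 1), v (hh 1) + t * v (ee 1)]) (![v (ee 0), v (ee 1), v (ee 2), v (ee 3), v (ee 4), v (ee 5) + t * v (ee 0), v (ee 6), v (ee 7) + t * v (ee 2), v (ee 8), v (ee 9) - t * v (ee 4), v (ee 10) - 3 * t * v (hh 0) + t * v (hh 1) - t ^ 2 * v (ee 1), v (ee 11) - t * v (ee 6)])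

theorem raw10_0 : rawEx chevG2 10 (hh 0) = [(12, -3, 1)] := by decide +kernel
theorem raw10_1 : rawEx chevG2 10 (hh 1) = [(12, 1, 1)] := by decide +kernel
theorem raw10_2 : rawEx chevG2 10 (ee 0) = [(7, 1, 1)] := by decide +kernel
theorem raw10_3 : rawEx chevG2 10 (ee 1) = [(0, 1, 1), (1, 1, 1), (12, -1, 2)] := by decide +kernel
theorem raw10_4 : rawEx chevG2 10 (ee 2) = [(9, 1, 1)] := by decide +kernel
theorem raw10_5 : rawEx chevG2 10 (ee 3) = [] := by decide +kernel
theorem raw10_6 : rawEx chevG2 10 (ee 4) = [(11, -1, 1)] := by decide +kernel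
theorem raw10_7 : rawEx chevG2 10 (ee 5) = [] := by decide +kernel
theorem raw10_8 : rawEx chevG2 10 (ee 6) = [(13, -1, 1)] := by decide +kernel
theorem raw10_9 : rawEx chevG2 10 (ee 7) = [] := by decide +kernel
theorem raw10_10 : rawEx chevG2 10 (ee 8) = [] := by decide +kernel
theorem raw10_11 : rawEx chevG2 10 (ee 9) = [] := by decide +kernel
theorem raw10_12 : rawEx chevG2 10 (ee 10) = [] := by decide +kernel
theorem raw10_13 : rawEx chevG2 10 (ee 11) = [] := by decide +kernel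

theorem x10_mulVec (t : F) (v : V14 F) : chevG2.x F 10 t *ᵥ v = nv10 t v := by
  funext row
  rw [x_mulVec_row chevG2 (by decide) t v row, sum14]
  simp only [raw10_0, raw10_1, raw10_2, raw10_3, raw10_4, raw10_5, raw10_6, raw10_7, raw10_8, raw10_9, raw10_10, raw10_11, raw10_12, raw10_13]
  revert row
  apply idx_ind
  · intro i
    fin_cases i <;> simp [sumEx, nv10, flat_hh, flat_ee, mkV_hh, mkV_ee] <;> ring
  · intro s
    fin_cases s <;> simp [sumEx, nv10, flat_hh, flat_ee, mkV_hh, mkV_ee] <;> ring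

/-- The action of `x_11(t)`. -/
def nv11 (t : F) (v : V14 F) : V14 F :=
  mkV (![v (hh 0) + t * v (ee 0), v (hh 1) + 2 * t * v (ee 0)]) (![v (ee 0), v (ee 1), v (ee 2), v (ee 3), v (ee 4), v (ee 5), v (ee 6) + t * v (ee 1), v (ee 7), v (ee 8) + t * v (ee 2), v (ee 9) - t * v (ee 3), v (ee 10) - t * v (ee 5), v (ee 11) - t * v (hh 1) - t ^ 2 * v (ee 0)])

theorem raw11_0 : rawEx chevG2 11 (hh 0) = [(13, 0, 1)] := by decide +kernel
theorem raw11_1 : rawEx chevG2 11 (hh 1) = [(13, -1, 1)] := by decide +kernel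
theorem raw11_2 : rawEx chevG2 11 (ee 0) = [(0, 1, 1), (1, 2, 1), (13, -1, 2)] := by decide +kernel
theorem raw11_3 : rawEx chevG2 11 (ee 1) = [(8, 1, 1)] := by decide +kernel
theorem raw11_4 : rawEx chevG2 11 (ee 2) = [(10, 1, 1)] := by decide +kernel
theorem raw11_5 : rawEx chevG2 11 (ee 3) = [(11, -1, 1)] := by decide +kernel
theorem raw11_6 : rawEx chevG2 11 (ee 4) = [] := by decide +kernel
theorem raw11_7 : rawEx chevG2 11 (ee 5) = [(12, -1, 1)] := by decide +kernel
theorem raw11_8 : rawEx chevG2 11 (ee 6) = [] := by decide +kernel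
theorem raw11_9 : rawEx chevG2 11 (ee 7) = [] := by decide +kernel
theorem raw11_10 : rawEx chevG2 11 (ee 8) = [] := by decide +kernel
theorem raw11_11 : rawEx chevG2 11 (ee 9) = [] := by decide +kernel
theorem raw11_12 : rawEx chevG2 11 (ee 10) = [] := by decide +kernel
theorem raw11_13 : rawEx chevG2 11 (ee 11) = [] := by decide +kernel

theorem x11_mulVec (t : F) (v : V14 F) : chevG2.x F 11 t *ᵥ v = nv11 t v := by
  funext row
  rw [x_mulVec_row chevG2 (by decide) t v row, sum14]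
  simp only [raw11_0, raw11_1, raw11_2, raw11_3, raw11_4, raw11_5, raw11_6, raw11_7, raw11_8, raw11_9, raw11_10, raw11_11, raw11_12, raw11_13]
  revert row
  apply idx_ind
  · intro i
    fin_cases i <;> simp [sumEx, nv11, flat_hh, flat_ee, mkV_hh, mkV_ee] <;> ring
  · intro s
    fin_cases s <;> simp [sumEx, nv11, flat_hh, flat_ee, mkV_hh, mkV_ee] <;> ring

/-- The `sl₃`-part of a vector. -/
def phiX (v : V14 F) : Matrix (Fin 3) (Fin 3) F :=
  !![2 * v (hh 0) - v (hh 1), v (ee 5), v (ee 10);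
     v (ee 6), v (hh 1) - v (hh 0), v (ee 11);
     v (ee 1), v (ee 0), - v (hh 0)]

/-- The part of a vector in the natural module. -/
def phiW (v : V14 F) : Fin 3 → F := ![v (ee 7), v (ee 8), v (ee 2)]

/-- The part of a vector in the dual of the natural module. -/
def phiY (v : V14 F) : Fin 3 → F := ![v (ee 4), v (ee 3), v (ee 9)]

/-- The vector with given parts. -/
def psi (X : Matrix (Fin 3) (Fin 3) F) (w y : Fin 3 → F) : V14 F :=
  mkV ![- X 2 2, X 1 1 - X 2 2]
    ![X 2 1, X 2 0, w 2, y 1, y 0, X 0 1, X 1 0, w 0, w 1, y 2, X 0 2, X 1 2]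

/-- The action of a matrix with given inverse. -/
def rhoRaw (A B : Matrix (Fin 3) (Fin 3) F) (v : V14 F) : V14 F :=
  psi (A * phiX v * B) (A *ᵥ phiW v) (Bᵀ *ᵥ phiY v)

theorem tr5 (c : F) : (Matrix.transvection (0 : Fin 3) 1 c : Matrix (Fin 3) (Fin 3) F) = !![1, c, 0; 0, 1, 0; 0, 0, 1] := by
  ext a b
  fin_cases a <;> fin_cases b <;> simp [Matrix.transvection, Matrix.single_apply]

theorem rhoRaw5 (c : F) (v : V14 F) :
    rhoRaw (Matrix.transvection (0 : Fin 3) 1 c) (Matrix.transvection (0 : Fin 3) 1 (-c)) v = nv5 c v := by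
  rw [tr5, tr5]
  revert v
  intro v
  funext row
  revert row
  apply idx_ind
  · intro k
    fin_cases k <;> simp [rhoRaw, psi, phiX, phiW, phiY, nv5, Matrix.mul_apply, Fin.sum_univ_three, Matrix.mulVec, dotProduct, Matrix.transpose_apply] <;> ring
  · intro k
    fin_cases k <;> simp [rhoRaw, psi, phiX, phiW, phiY, nv5, Matrix.mul_apply, Fin.sum_univ_three, Matrix.mulVec, dotProduct, Matrix.transpose_apply] <;> ring

theorem tr6 (c : F) : (Matrix.transvection (1 : Fin 3) 0 c : Matrix (Fin 3) (Fin 3) F) = !![1, 0, 0; c, 1, 0; 0, 0, 1] := by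
  ext a b
  fin_cases a <;> fin_cases b <;> simp [Matrix.transvection, Matrix.single_apply]

theorem rhoRaw6 (c : F) (v : V14 F) :
    rhoRaw (Matrix.transvection (1 : Fin 3) 0 c) (Matrix.transvection (1 : Fin 3) 0 (-c)) v = nv6 c v := by
  rw [tr6, tr6]
  revert v
  intro v
  funext row
  revert row
  apply idx_ind
  · intro k
    fin_cases k <;> simp [rhoRaw, psi, phiX, phiW, phiY, nv6, Matrix.mul_apply, Fin.sum_univ_three, Matrix.mulVec, dotProduct, Matrix.transpose_apply] <;> ring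
  · intro k
    fin_cases k <;> simp [rhoRaw, psi, phiX, phiW, phiY, nv6, Matrix.mul_apply, Fin.sum_univ_three, Matrix.mulVec, dotProduct, Matrix.transpose_apply] <;> ring

theorem tr10 (c : F) : (Matrix.transvection (0 : Fin 3) 2 c : Matrix (Fin 3) (Fin 3) F) = !![1, 0, c; 0, 1, 0; 0, 0, 1] := by
  ext a b
  fin_cases a <;> fin_cases b <;> simp [Matrix.transvection, Matrix.single_apply]

theorem rhoRaw10 (c : F) (v : V14 F) :
    rhoRaw (Matrix.transvection (0 : Fin 3) 2 c) (Matrix.transvection (0 : Fin 3) 2 (-c)) v = nv10 c v := by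
  rw [tr10, tr10]
  revert v
  intro v
  funext row
  revert row
  apply idx_ind
  · intro k
    fin_cases k <;> simp [rhoRaw, psi, phiX, phiW, phiY, nv10, Matrix.mul_apply, Fin.sum_univ_three, Matrix.mulVec, dotProduct, Matrix.transpose_apply] <;> ring
  · intro k
    fin_cases k <;> simp [rhoRaw, psi, phiX, phiW, phiY, nv10, Matrix.mul_apply, Fin.sum_univ_three, Matrix.mulVec, dotProduct, Matrix.transpose_apply] <;> ring

theorem tr1 (c : F) : (Matrix.transvection (2 : Fin 3) 0 c : Matrix (Fin 3) (Fin 3) F) = !![1, 0, 0; 0, 1, 0; c, 0, 1] := by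
  ext a b
  fin_cases a <;> fin_cases b <;> simp [Matrix.transvection, Matrix.single_apply]

theorem rhoRaw1 (c : F) (v : V14 F) :
    rhoRaw (Matrix.transvection (2 : Fin 3) 0 c) (Matrix.transvection (2 : Fin 3) 0 (-c)) v = nv1 c v := by
  rw [tr1, tr1]
  revert v
  intro v
  funext row
  revert row
  apply idx_ind
  · intro k
    fin_cases k <;> simp [rhoRaw, psi, phiX, phiW, phiY, nv1, Matrix.mul_apply, Fin.sum_univ_three, Matrix.mulVec, dotProduct, Matrix.transpose_apply] <;> ring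
  · intro k
    fin_cases k <;> simp [rhoRaw, psi, phiX, phiW, phiY, nv1, Matrix.mul_apply, Fin.sum_univ_three, Matrix.mulVec, dotProduct, Matrix.transpose_apply] <;> ring

theorem tr11 (c : F) : (Matrix.transvection (1 : Fin 3) 2 c : Matrix (Fin 3) (Fin 3) F) = !![1, 0, 0; 0, 1, c; 0, 0, 1] := by
  ext a b
  fin_cases a <;> fin_cases b <;> simp [Matrix.transvection, Matrix.single_apply]

theorem rhoRaw11 (c : F) (v : V14 F) :
    rhoRaw (Matrix.transvection (1 : Fin 3) 2 c) (Matrix.transvection (1 : Fin 3) 2 (-c)) v = nv11 c v := by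
  rw [tr11, tr11]
  revert v
  intro v
  funext row
  revert row
  apply idx_ind
  · intro k
    fin_cases k <;> simp [rhoRaw, psi, phiX, phiW, phiY, nv11, Matrix.mul_apply, Fin.sum_univ_three, Matrix.mulVec, dotProduct, Matrix.transpose_apply] <;> ring
  · intro k
    fin_cases k <;> simp [rhoRaw, psi, phiX, phiW, phiY, nv11, Matrix.mul_apply, Fin.sum_univ_three, Matrix.mulVec, dotProduct, Matrix.transpose_apply] <;> ring

theorem tr0 (c : F) : (Matrix.transvection (2 : Fin 3) 1 c : Matrix (Fin 3) (Fin 3) F) = !![1, 0, 0; 0, 1, 0; 0, c, 1] := by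
  ext a b
  fin_cases a <;> fin_cases b <;> simp [Matrix.transvection, Matrix.single_apply]

theorem rhoRaw0 (c : F) (v : V14 F) :
    rhoRaw (Matrix.transvection (2 : Fin 3) 1 c) (Matrix.transvection (2 : Fin 3) 1 (-c)) v = nv0 c v := by
  rw [tr0, tr0]
  revert v
  intro v
  funext row
  revert row
  apply idx_ind
  · intro k
    fin_cases k <;> simp [rhoRaw, psi, phiX, phiW, phiY, nv0, Matrix.mul_apply, Fin.sum_univ_three, Matrix.mulVec, dotProduct, Matrix.transpose_apply] <;> ring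
  · intro k
    fin_cases k <;> simp [rhoRaw, psi, phiX, phiW, phiY, nv0, Matrix.mul_apply, Fin.sum_univ_three, Matrix.mulVec, dotProduct, Matrix.transpose_apply] <;> ring

theorem psi_phi (v : V14 F) : psi (phiX v) (phiW v) (phiY v) = v := by
  funext row
  revert row
  apply idx_ind
  · intro k
    fin_cases k <;> simp [psi, phiX, phiW, phiY]
  · intro k
    fin_cases k <;> simp [psi, phiX, phiW, phiY]

theorem trace_phiX (v : V14 F) : (phiX v).trace = 0 := by
  simp [phiX, Matrix.trace_fin_three]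
  ring

theorem phiX_psi {X : Matrix (Fin 3) (Fin 3) F} (h : X.trace = 0) (w y : Fin 3 → F) :
    phiX (psi X w y) = X := by
  rw [Matrix.trace_fin_three] at h
  ext a b
  fin_cases a <;> fin_cases b <;> simp [psi, phiX]
  linear_combination -h

theorem phiW_psi (X : Matrix (Fin 3) (Fin 3) F) (w y : Fin 3 → F) : phiW (psi X w y) = w := by
  funext a
  fin_cases a <;> simp [psi, phiW]

theorem phiY_psi (X : Matrix (Fin 3) (Fin 3) F) (w y : Fin 3 → F) : phiY (psi X w y) = y := by
  funext a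
  fin_cases a <;> simp [psi, phiY]

theorem phiX_add (v v' : V14 F) : phiX (v + v') = phiX v + phiX v' := by
  ext a b
  fin_cases a <;> fin_cases b <;> simp [phiX] <;> ring

theorem phiW_add (v v' : V14 F) : phiW (v + v') = phiW v + phiW v' := by
  funext a
  fin_cases a <;> simp [phiW]

theorem phiY_add (v v' : V14 F) : phiY (v + v') = phiY v + phiY v' := by
  funext a
  fin_cases a <;> simp [phiY]

theorem phiX_smul (c : F) (v : V14 F) : phiX (c • v) = c • phiX v := by
  ext a b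
  fin_cases a <;> fin_cases b <;> simp [phiX] <;> ring

theorem phiW_smul (c : F) (v : V14 F) : phiW (c • v) = c • phiW v := by
  funext a
  fin_cases a <;> simp [phiW]

theorem phiY_smul (c : F) (v : V14 F) : phiY (c • v) = c • phiY v := by
  funext a
  fin_cases a <;> simp [phiY]

theorem psi_add (X X' : Matrix (Fin 3) (Fin 3) F) (w w' y y' : Fin 3 → F) :
    psi (X + X') (w + w') (y + y') = psi X w y + psi X' w' y' := by
  funext row
  revert row
  apply idx_ind
  · intro k
    fin_cases k <;> simp [psi] <;> ring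
  · intro k
    fin_cases k <;> simp [psi]

theorem psi_smul (c : F) (X : Matrix (Fin 3) (Fin 3) F) (w y : Fin 3 → F) :
    psi (c • X) (c • w) (c • y) = c • psi X w y := by
  funext row
  revert row
  apply idx_ind
  · intro k
    fin_cases k <;> simp [psi] <;> ring
  · intro k
    fin_cases k <;> simp [psi]

/-- The action as a linear map. -/
noncomputable def rhoLin (A B : Matrix (Fin 3) (Fin 3) F) : V14 F →ₗ[F] V14 F where
  toFun := rhoRaw A B
  map_add' v v' := by
    simp only [rhoRaw, phiX_add, phiW_add, phiY_add, Matrix.mul_add, Matrix.add_mul, Matrix.mulVec_add, psi_add]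
  map_smul' c v := by
    simp only [rhoRaw, phiX_smul, phiW_smul, phiY_smul, Matrix.mul_smul, Matrix.smul_mul, Matrix.mulVec_smul, psi_smul,
      RingHom.id_apply]

theorem inv_mul_coe (A : SpecialLinearGroup (Fin 3) F) :
    ((A⁻¹ : SpecialLinearGroup (Fin 3) F) : Matrix (Fin 3) (Fin 3) F) * (A : Matrix (Fin 3) (Fin 3) F) = 1 := by
  exact (Matrix.SpecialLinearGroup.coe_mul A⁻¹ A).symm.trans (congrArg Subtype.val (inv_mul_cancel A))

theorem mul_inv_coe (A : SpecialLinearGroup (Fin 3) F) :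
    (A : Matrix (Fin 3) (Fin 3) F) * ((A⁻¹ : SpecialLinearGroup (Fin 3) F) : Matrix (Fin 3) (Fin 3) F) = 1 := by
  exact (Matrix.SpecialLinearGroup.coe_mul A A⁻¹).symm.trans (congrArg Subtype.val (mul_inv_cancel A))

theorem rhoRaw_comp (A A' : SpecialLinearGroup (Fin 3) F) (v : V14 F) :
    rhoRaw (A * A' : SpecialLinearGroup (Fin 3) F) (((A * A')⁻¹ : SpecialLinearGroup (Fin 3) F) : Matrix (Fin 3) (Fin 3) F) v =
      rhoRaw A ((A⁻¹ : SpecialLinearGroup (Fin 3) F) : Matrix (Fin 3) (Fin 3) F)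
        (rhoRaw A' ((A'⁻¹ : SpecialLinearGroup (Fin 3) F) : Matrix (Fin 3) (Fin 3) F) v) := by
  have htr : ((A' : Matrix (Fin 3) (Fin 3) F) * phiX v * ((A'⁻¹ : SpecialLinearGroup (Fin 3) F) : Matrix (Fin 3) (Fin 3) F)).trace = 0 := by
    rw [Matrix.trace_mul_comm, ← Matrix.mul_assoc, inv_mul_coe, Matrix.one_mul, trace_phiX]
  have e1 : ((A * A' : SpecialLinearGroup (Fin 3) F) : Matrix (Fin 3) (Fin 3) F) = (A : Matrix (Fin 3) (Fin 3) F) * (A' : Matrix (Fin 3) (Fin 3) F) :=
    Matrix.SpecialLinearGroup.coe_mul A A'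
  have e2 : (((A * A')⁻¹ : SpecialLinearGroup (Fin 3) F) : Matrix (Fin 3) (Fin 3) F) =
      ((A'⁻¹ : SpecialLinearGroup (Fin 3) F) : Matrix (Fin 3) (Fin 3) F) * ((A⁻¹ : SpecialLinearGroup (Fin 3) F) : Matrix (Fin 3) (Fin 3) F) := by
    rw [_root_.mul_inv_rev]
    exact Matrix.SpecialLinearGroup.coe_mul _ _
  simp only [rhoRaw]
  rw [phiX_psi htr, phiW_psi, phiY_psi, e1, e2]
  congr 1
  · simp only [Matrix.mul_assoc]
  · rw [Matrix.mulVec_mulVec]
  · rw [Matrix.mulVec_mulVec, Matrix.transpose_mul]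

theorem rhoRaw_one (v : V14 F) :
    rhoRaw ((1 : SpecialLinearGroup (Fin 3) F) : Matrix (Fin 3) (Fin 3) F)
      (((1 : SpecialLinearGroup (Fin 3) F)⁻¹ : SpecialLinearGroup (Fin 3) F) : Matrix (Fin 3) (Fin 3) F) v = v := by
  have e1 : ((1 : SpecialLinearGroup (Fin 3) F) : Matrix (Fin 3) (Fin 3) F) = 1 := rfl
  have e2 : (((1 : SpecialLinearGroup (Fin 3) F)⁻¹ : SpecialLinearGroup (Fin 3) F) : Matrix (Fin 3) (Fin 3) F) = 1 := by
    rw [inv_one]
    rfl
  rw [e2, e1]
  simp only [rhoRaw, Matrix.one_mul, Matrix.mul_one, Matrix.one_mulVec, Matrix.transpose_one, psi_phi]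

/-- The representation, with values in matrices. -/
noncomputable def rhoHom (F : Type*) [Field F] : SpecialLinearGroup (Fin 3) F →* Matrix chevG2.Idx chevG2.Idx F where
  toFun A := LinearMap.toMatrix' (rhoLin (A : Matrix (Fin 3) (Fin 3) F) ((A⁻¹ : SpecialLinearGroup (Fin 3) F) : Matrix (Fin 3) (Fin 3) F))
  map_one' := by
    rw [← LinearMap.toMatrix'_id]
    congr 1
    apply LinearMap.ext
    intro v
    exact rhoRaw_one v
  map_mul' A A' := by
    rw [← LinearMap.toMatrix'_comp]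
    congr 1
    apply LinearMap.ext
    intro v
    exact rhoRaw_comp A A' v

/-- The representation of `SL₃(F)` on the Lie algebra of type `G₂`. -/
noncomputable def rho (F : Type*) [Field F] : SpecialLinearGroup (Fin 3) F →* GL chevG2.Idx F :=
  (rhoHom F).toHomUnits

theorem rho_mulVec (A : SpecialLinearGroup (Fin 3) F) (v : V14 F) :
    ((rho F A : GL chevG2.Idx F) : Matrix chevG2.Idx chevG2.Idx F) *ᵥ v =
      rhoRaw (A : Matrix (Fin 3) (Fin 3) F) ((A⁻¹ : SpecialLinearGroup (Fin 3) F) : Matrix (Fin 3) (Fin 3) F) v := by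
  show (rhoHom F A) *ᵥ v = _
  show LinearMap.toMatrix' _ *ᵥ v = _
  rw [LinearMap.toMatrix'_mulVec]
  rfl

theorem mat_ext {M N : Matrix chevG2.Idx chevG2.Idx F} (h : ∀ v : V14 F, M *ᵥ v = N *ᵥ v) : M = N := by
  apply Matrix.toLin'.injective
  apply LinearMap.ext
  intro v
  exact h v

/-- The inverse of a transvection. -/
theorem transvection_inv {i j : Fin 3} (hij : i ≠ j) (c : F) :
    ((SpecialLinearGroup.transvection hij c)⁻¹ : SpecialLinearGroup (Fin 3) F) = SpecialLinearGroup.transvection hij (-c) := by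
  symm
  apply eq_inv_of_mul_eq_one_left
  apply Subtype.ext
  have h := Matrix.transvection_mul_transvection_same i j hij (-c) c
  rw [neg_add_cancel, Matrix.transvection_zero] at h
  exact h

theorem rho_tr {i j : Fin 3} (hij : i ≠ j) (c : F) {r : ℕ}
    (h : ∀ v : V14 F, rhoRaw (Matrix.transvection i j c) (Matrix.transvection i j (-c)) v = chevG2.x F r c *ᵥ v) :
    ((rho F (SpecialLinearGroup.transvection hij c) : GL chevG2.Idx F) : Matrix chevG2.Idx chevG2.Idx F) = chevG2.x F r c := by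
  apply mat_ext
  intro v
  rw [rho_mulVec, transvection_inv]
  exact h v

theorem rho5 (h : (0 : Fin 3) ≠ 1) (c : F) :
    ((rho F (SpecialLinearGroup.transvection h c) : GL chevG2.Idx F) : Matrix chevG2.Idx chevG2.Idx F) = chevG2.x F 5 c :=
  rho_tr h c (fun v => by rw [rhoRaw5, x5_mulVec])
theorem rho6 (h : (1 : Fin 3) ≠ 0) (c : F) :
    ((rho F (SpecialLinearGroup.transvection h c) : GL chevG2.Idx F) : Matrix chevG2.Idx chevG2.Idx F) = chevG2.x F 6 c :=
  rho_tr h c (fun v => by rw [rhoRaw6, x6_mulVec])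
theorem rho10 (h : (0 : Fin 3) ≠ 2) (c : F) :
    ((rho F (SpecialLinearGroup.transvection h c) : GL chevG2.Idx F) : Matrix chevG2.Idx chevG2.Idx F) = chevG2.x F 10 c :=
  rho_tr h c (fun v => by rw [rhoRaw10, x10_mulVec])
theorem rho1 (h : (2 : Fin 3) ≠ 0) (c : F) :
    ((rho F (SpecialLinearGroup.transvection h c) : GL chevG2.Idx F) : Matrix chevG2.Idx chevG2.Idx F) = chevG2.x F 1 c :=
  rho_tr h c (fun v => by rw [rhoRaw1, x1_mulVec])
theorem rho11 (h : (1 : Fin 3) ≠ 2) (c : F) :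
    ((rho F (SpecialLinearGroup.transvection h c) : GL chevG2.Idx F) : Matrix chevG2.Idx chevG2.Idx F) = chevG2.x F 11 c :=
  rho_tr h c (fun v => by rw [rhoRaw11, x11_mulVec])
theorem rho0 (h : (2 : Fin 3) ≠ 1) (c : F) :
    ((rho F (SpecialLinearGroup.transvection h c) : GL chevG2.Idx F) : Matrix chevG2.Idx chevG2.Idx F) = chevG2.x F 0 c :=
  rho_tr h c (fun v => by rw [rhoRaw0, x0_mulVec])

/-- Which root corresponds to which transvection. -/
theorem exists_root {i j : Fin 3} (hij : i ≠ j) (c : F) : ∃ r : ℕ, r < 12 ∧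
    ((rho F (SpecialLinearGroup.transvection hij c) : GL chevG2.Idx F) : Matrix chevG2.Idx chevG2.Idx F) = chevG2.x F r c := by
  fin_cases i <;> fin_cases j
  · exact absurd rfl hij
  · exact ⟨5, by decide, rho5 hij c⟩
  · exact ⟨10, by decide, rho10 hij c⟩
  · exact ⟨6, by decide, rho6 hij c⟩
  · exact absurd rfl hij
  · exact ⟨11, by decide, rho11 hij c⟩
  · exact ⟨1, by decide, rho1 hij c⟩
  · exact ⟨0, by decide, rho0 hij c⟩
  · exact absurd rfl hij

theorem rho_mem (A : SpecialLinearGroup (Fin 3) F) : rho F A ∈ chevG2.group F := by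
  have hA : A ∈ Cfsg.Agent.Lib.SLGen.elemSubgroup (Fin 3) F := by
    rw [Cfsg.Agent.Lib.SLGen.elemSubgroup_eq_top]
    exact Subgroup.mem_top A
  unfold Cfsg.Agent.Lib.SLGen.elemSubgroup at hA
  induction hA using Subgroup.closure_induction with
  | mem g hg =>
    obtain ⟨i, j, hij, c, rfl⟩ := hg
    obtain ⟨r, hr, h⟩ := exists_root hij c
    apply Subgroup.subset_closure
    refine ⟨⟨r, hr⟩, c, ?_⟩
    rw [h]
    have : r < chevG2.nroots := hr
    simp [ChevalleyDatum.x, this]
  | one => rw [map_one]; exact one_mem _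
  | mul a b _ _ ha hb => rw [map_mul]; exact mul_mem ha hb
  | inv a _ ha => rw [map_inv]; exact inv_mem ha

/-- The coordinates of the natural module. -/
def fI : Fin 3 → chevG2.Idx := ![ee 7, ee 8, ee 2]

theorem psi_fI (X : Matrix (Fin 3) (Fin 3) F) (w y : Fin 3 → F) (i : Fin 3) : psi X w y (fI i) = w i := by
  fin_cases i <;> simp [psi, fI]

theorem ee_inj {a b : Fin 12} : ee a = ee b ↔ a = b :=
  ⟨fun h => Sum.inr.inj h, fun h => congrArg _ h⟩

theorem phiW_single (j : Fin 3) : phiW (Pi.single (fI j) 1 : V14 F) = Pi.single j 1 := by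
  funext a
  fin_cases a <;> fin_cases j <;> simp [phiW, fI, Pi.single_apply, ee_inj]

/-- The matrix can be read off the representation. -/
theorem rho_entry (A : SpecialLinearGroup (Fin 3) F) (i j : Fin 3) :
    ((rho F A : GL chevG2.Idx F) : Matrix chevG2.Idx chevG2.Idx F) (fI i) (fI j) = (A : Matrix (Fin 3) (Fin 3) F) i j := by
  have h := congrFun (rho_mulVec A (Pi.single (fI j) 1)) (fI i)
  rw [Matrix.mulVec_single_one] at h
  simp only [Matrix.col_apply] at h
  rw [h, rhoRaw, psi_fI, phiW_single, Matrix.mulVec_single_one]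
  simp

theorem rho_injective : Function.Injective (rho F) := by
  intro A A' h
  apply Subtype.ext
  ext i j
  rw [← rho_entry, ← rho_entry, h]


/-- The root of the transvection with given indices. -/
def rootOf : Fin 3 → Fin 3 → ℕ := ![![0, 5, 10], ![6, 0, 11], ![1, 0, 0]]

theorem rho_tv {i j : Fin 3} (hij : i ≠ j) (c : F) :
    ((rho F (SpecialLinearGroup.transvection hij c) : GL chevG2.Idx F) : Matrix chevG2.Idx chevG2.Idx F) =
      chevG2.x F (rootOf i j) c := by
  fin_cases i <;> fin_cases j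
  · exact absurd rfl hij
  · exact rho5 hij c
  · exact rho10 hij c
  · exact rho6 hij c
  · exact absurd rfl hij
  · exact rho11 hij c
  · exact rho1 hij c
  · exact rho0 hij c
  · exact absurd rfl hij



/-! ### Diagonal matrices -/

/-- The diagonal matrix with parameters `a`, `b`, `(ab)⁻¹`, as a homomorphism. -/
noncomputable def dg (F : Type*) [Field F] : Fˣ × Fˣ →* SpecialLinearGroup (Fin 3) F where
  toFun p := ⟨Matrix.diagonal ![(p.1 : F), (p.2 : F), (((p.1 * p.2)⁻¹ : Fˣ) : F)], by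
    rw [Matrix.det_diagonal, Fin.prod_univ_three]
    simp
    field_simp⟩
  map_one' := by
    apply Subtype.ext
    show Matrix.diagonal _ = (1 : Matrix (Fin 3) (Fin 3) F)
    rw [← Matrix.diagonal_one]
    congr 1
    funext i
    fin_cases i <;> simp
  map_mul' p p' := by
    apply Subtype.ext
    show Matrix.diagonal _ = Matrix.diagonal _ * Matrix.diagonal _
    rw [Matrix.diagonal_mul_diagonal]
    congr 1
    funext i
    fin_cases i <;> simp <;> ring

theorem dg_coe (a b : Fˣ) : ((dg F (a, b) : SpecialLinearGroup (Fin 3) F) : Matrix (Fin 3) (Fin 3) F) =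
    Matrix.diagonal ![(a : F), (b : F), (((a * b)⁻¹ : Fˣ) : F)] := rfl

theorem dg_inv_coe (a b : Fˣ) : (((dg F (a, b))⁻¹ : SpecialLinearGroup (Fin 3) F) : Matrix (Fin 3) (Fin 3) F) =
    Matrix.diagonal ![((a⁻¹ : Fˣ) : F), ((b⁻¹ : Fˣ) : F), ((a * b : Fˣ) : F)] := by
  rw [← map_inv, Prod.inv_mk, dg_coe]
  have : (a⁻¹ * b⁻¹)⁻¹ = a * b := by simp [mul_comm]
  rw [this]

theorem dg_inj {a b a' b' : Fˣ} (h : dg F (a, b) = dg F (a', b')) : a = a' ∧ b = b' := by
  have h1 := congrArg (fun A : SpecialLinearGroup (Fin 3) F => (A : Matrix (Fin 3) (Fin 3) F)) h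
  simp only [dg_coe] at h1
  have h2 := congrFun (congrFun h1 0) 0
  have h3 := congrFun (congrFun h1 1) 1
  simp at h2 h3
  exact ⟨Units.ext h2, Units.ext h3⟩

theorem rhoRaw_dg (a b c a' b' c' : F) (ha : a * a' = 1) (hb : b * b' = 1) (hc : c * c' = 1) (v : V14 F) :
    rhoRaw (Matrix.diagonal ![a, b, c]) (Matrix.diagonal ![a', b', c']) v =
    mkV ![v (hh 0), v (hh 1)]
      ![c * b' * v (ee 0), c * a' * v (ee 1), c * v (ee 2), b' * v (ee 3), a' * v (ee 4), a * b' * v (ee 5),
        b * a' * v (ee 6), a * v (ee 7), b * v (ee 8), c' * v (ee 9), a * c' * v (ee 10), b * c' * v (ee 11)] := by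
  funext row
  revert row
  apply idx_ind
  · intro k
    fin_cases k
    · simp [rhoRaw, psi, phiX]
      linear_combination (v (hh 0)) * hc
    · simp [rhoRaw, psi, phiX]
      linear_combination (v (hh 1) - v (hh 0)) * hb + (v (hh 0)) * hc
  · intro k
    fin_cases k <;> simp [rhoRaw, psi, phiX, phiW, phiY, Matrix.mulVec, dotProduct, Fin.sum_univ_three, Matrix.diagonal_apply] <;> ring

/-! ### The torus -/

/-- The first index of the torus. -/
def i0 : Fin chevG2.rank := ⟨0, by decide⟩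
/-- The second index of the torus. -/
def i1 : Fin chevG2.rank := ⟨1, by decide⟩

theorem chiT_eq (c : Fin chevG2.rank → Fˣ) (s : ℕ) :
    chiT chevG2 c s = c i0 ^ chevG2.cartan i0 s * c i1 ^ chevG2.cartan i1 s :=
  Fin.prod_univ_two (fun i : Fin 2 => (c i) ^ chevG2.cartan i s)

/-- The element of the torus with values `a`, `b` on the roots `7`, `8`. -/
def cOf (a b : Fˣ) : Fin chevG2.rank → Fˣ := fun i => if (i : ℕ) = 0 then a * b else a * b ^ 2

theorem cOf_i0 (a b : Fˣ) : cOf a b i0 = a * b := rfl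
theorem cOf_i1 (a b : Fˣ) : cOf a b i1 = a * b ^ 2 := rfl

/-- The values of the torus element on the roots. -/
def xT : Fin 12 → ℤ := ![-2, -1, -1, -1, 0, -1, 1, 0, 1, 1, 1, 2]
/-- The values of the torus element on the roots. -/
def yT : Fin 12 → ℤ := ![-1, -2, -1, 0, -1, 1, -1, 1, 0, 1, 2, 1]

theorem cartan_xy : ∀ s : Fin 12, chevG2.cartan i0 s + chevG2.cartan i1 s = yT s ∧
    chevG2.cartan i0 s + 2 * chevG2.cartan i1 s = xT s := by decide +kernel

theorem chiT_cOf (a b : Fˣ) (s : Fin 12) : chiT chevG2 (cOf a b) s = a ^ yT s * b ^ xT s := by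
  rw [chiT_eq, cOf_i0, cOf_i1, ← (cartan_xy s).1, ← (cartan_xy s).2, mul_zpow, mul_zpow, _root_.zpow_add, _root_.zpow_add]
  have : (b ^ 2) ^ chevG2.cartan i1 s = b ^ (2 * chevG2.cartan i1 s) := by
    rw [_root_.zpow_mul]
    norm_cast
  rw [this]
  simp only [mul_assoc, mul_comm, mul_left_comm]

theorem rho_dg {T : Tabs} {X : Extra} {R : RootTab} (hF : Full T X R chevG2) (a b : Fˣ) :
    rho F (dg F (a, b)) = tor R chevG2 (cOf a b) := by
  apply Units.ext
  apply mat_ext
  intro v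
  rw [rho_mulVec, dg_coe, dg_inv_coe, rhoRaw_dg _ _ _ _ _ _ (Units.mul_inv a) (Units.mul_inv b) (Units.inv_mul (a * b)), hF.tor_eq, coe_diagG]
  funext row
  rw [Matrix.mulVec_diagonal]
  revert row
  apply idx_ind
  · intro k
    show _ = (1 : F) * v (hh k)
    rw [one_mul]
    fin_cases k <;> simp
  · intro k
    have h := chiT_cOf a b k
    have h' : ((chiT chevG2 (cOf a b) k : Fˣ) : F) = ((a ^ yT k * b ^ xT k : Fˣ) : F) := by rw [h]
    show _ = ((chiT chevG2 (cOf a b) k : Fˣ) : F) * v (ee k)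
    rw [h']
    fin_cases k <;> simp [xT, yT] <;> (try field_simp) <;> (try simp)

end Cfsg.Agent.Lib.ThG2
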